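import Cfsg.Agent.H1.Burnside

/-! Base sizes of solvable linear groups, part 1: vocabulary and orbit lemmas. -/

set_option autoImplicit false
set_option maxHeartbeats 400000
set_option linter.unusedSectionVars false
set_option linter.style.haveILetI false

namespace CfsgH1.BS

open Subgroup
open scoped commutatorElement

/-- solvable of order prime to `m` -/
def Cl (m : ℕ) (G : Type*) [Group G] : Prop := Group.IsSolvable G ∧ (Nat.card G).Coprime m

theorem Cl.of_injective {m : ℕ} {G H : Type*} [Group G] [Group H] [Finite G] (h : Cl m G)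
    (f : H →* G) (hf : Function.Injective f) : Cl m H := by
  haveI := h.1
  exact ⟨Group.isSolvable_of_isSolvable_injective hf,
    Nat.Coprime.coprime_dvd_left (card_dvd_of_injective f hf) h.2⟩

theorem Cl.subgroup {m : ℕ} {G : Type*} [Group G] [Finite G] (h : Cl m G) (H : Subgroup G) :
    Cl m H := h.of_injective H.subtype H.subtype_injective

theorem Cl.of_surjective {m : ℕ} {G H : Type*} [Group G] [Group H] [Finite G] (h : Cl m G)
    (f : G →* H) (hf : Function.Surjective f) : Cl m H := by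
  haveI := h.1
  exact ⟨Group.isSolvable_of_surjective hf,
    Nat.Coprime.coprime_dvd_left (card_dvd_of_surjective f hf) h.2⟩

theorem Cl.one {m : ℕ} {G : Type*} [Group G] (h : Cl m G) : Cl 1 G := ⟨h.1, Nat.coprime_one_right _⟩

/-- a point whose stabilizer acts trivially -/
def Reg (G : Type*) {Y : Type*} [SMul G Y] (y : Y) : Prop :=
  ∀ g : G, g • y = y → ∀ y' : Y, g • y' = y'

section Pow

variable {G Y : Type*} [Group G] [Finite G] [MulAction G Y]

theorem fix_of_pow {m : ℕ} (hm : (Nat.card G).Coprime m) {g : G} {y : Y} (h : g ^ m • y = y) :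
    g • y = y := by
  obtain ⟨k, hk⟩ := exists_pow_eq_self_of_coprime (x := g) (n := m)
    (Nat.Coprime.coprime_dvd_right (orderOf_dvd_natCard g) hm.symm)
  have : g ^ m ∈ MulAction.stabilizer G y := h
  have h2 := pow_mem this k
  rwa [hk] at h2

theorem mem_of_pow_mem' {m : ℕ} (hm : (Nat.card G).Coprime m) {g : G} {H : Subgroup G}
    (h : g ^ m ∈ H) : g ∈ H := by
  obtain ⟨k, hk⟩ := exists_pow_eq_self_of_coprime (x := g) (n := m)
    (Nat.Coprime.coprime_dvd_right (orderOf_dvd_natCard g) hm.symm)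
  have h2 := pow_mem h k
  rwa [hk] at h2

end Pow

/-- `k` regular points in distinct orbits -/
def Many (G : Type*) (Y : Type*) [SMul G Y] (κ : Type) : Prop :=
  ∃ f : κ → Y, (∀ i, Reg G (f i)) ∧ ∀ (i j : κ) (g : G), g • f i = f j → i = j

section Many

variable {G Y : Type*} [Group G] [Finite G] [MulAction G Y]

theorem Reg.perm {y : Y} (hy : Reg G y) (τ : Equiv.Perm Y) (hτ : ∀ (g : G) y, τ (g • y) = g • τ y) :
    Reg G (τ y) := fun g hg => hy g (τ.injective (by rw [hτ, hg]))

theorem many_cyclic {m : ℕ} (hp : m.Prime) (hm : (Nat.card G).Coprime m) (τ : Equiv.Perm Y)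
    (hτ : ∀ (g : G) y, τ (g • y) = g • τ y) (hτm : τ ^ m = 1) {y : Y} (hy : Reg G y)
    (hne : τ y ≠ y) : Many G Y (Fin m) := by
  have hpow : ∀ (n : ℕ) (g : G) y, (τ ^ n) (g • y) = g • (τ ^ n) y := by
    intro n
    induction n with
    | zero => simp
    | succ n ih => intro g y; rw [pow_succ, Equiv.Perm.mul_apply, Equiv.Perm.mul_apply, hτ, ih]
  have key : ∀ (d : ℕ) (g : G), g • y = (τ ^ d) y → m ∣ d := by
    intro d g hg
    have h1 : ∀ n : ℕ, g ^ n • y = ((τ ^ d) ^ n) y := by
      intro n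
      induction n with
      | zero => simp
      | succ n ih =>
        rw [pow_succ', mul_smul, ih, pow_succ, Equiv.Perm.mul_apply, ← hg, ← pow_mul, hpow]
    have h2 : g ^ m • y = y := by
      rw [h1, ← pow_mul, mul_comm, pow_mul, hτm, one_pow]; rfl
    have h3 : (τ ^ d) y = y := by rw [← hg]; exact fix_of_pow hm h2
    by_contra hd
    have hc : d.Coprime (orderOf τ) :=
      Nat.Coprime.coprime_dvd_right (orderOf_dvd_of_pow_eq_one hτm)
        ((Nat.Prime.coprime_iff_not_dvd hp).mpr hd).symm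
    obtain ⟨k, hk⟩ := exists_pow_eq_self_of_coprime hc
    have : τ ^ d ∈ MulAction.stabilizer (Equiv.Perm Y) y := h3
    have h4 := pow_mem this k
    rw [hk] at h4
    exact hne h4
  refine ⟨fun i => (τ ^ (i : ℕ)) y, fun i => hy.perm _ (hpow i), ?_⟩
  have main : ∀ (i j : Fin m) (g : G), (i : ℕ) ≤ j → g • (τ ^ (i : ℕ)) y = (τ ^ (j : ℕ)) y → i = j := by
    intro i j g hij h
    obtain ⟨d, hd⟩ := Nat.exists_eq_add_of_le hij
    rw [hd, pow_add, Equiv.Perm.mul_apply, ← hpow] at h
    have h2 := key d g ((τ ^ (i : ℕ)).injective h)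
    have h3 : d < m := by have := j.2; omega
    have h4 : d = 0 := Nat.eq_zero_of_dvd_of_lt h2 h3
    exact Fin.ext (by omega)
  intro i j g h
  rcases le_total (i : ℕ) j with hij | hij
  · exact main i j g hij h
  · exact (main j i g⁻¹ hij (by rw [inv_smul_eq_iff]; exact h.symm)).symm

theorem hom_trivial_of_perfect {Γ H : Type*} [Group Γ] [Group H] (hΓ : commutator Γ = ⊤)
    (hH : Group.IsSolvable H) (φ : Γ →* H) (γ : Γ) : φ γ = 1 := by
  obtain ⟨n, hn⟩ := hH
  have h1 : ∀ n, derivedSeries Γ n = ⊤ := by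
    intro n
    induction n with
    | zero => rfl
    | succ n ih => rw [derivedSeries_succ, ih]; exact hΓ
  have h2 := map_derivedSeries_le_derivedSeries φ n
  rw [h1, hn] at h2
  exact h2 ⟨γ, trivial, rfl⟩

theorem isSolvable_perm_of_card_le {X : Type*} [Finite X] (h : Nat.card X ≤ 4) :
    Group.IsSolvable (Equiv.Perm X) := by
  refine isSolvable_of_two_primes Nat.prime_two Nat.prime_three _ _ rfl ?_
  intro r hr hd
  rw [Nat.card_perm] at hd
  have h2 := (Nat.Prime.dvd_factorial hr).mp hd
  have h3 : r ≤ 4 := h2.trans h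
  have := hr.two_le
  interval_cases r
  · left; rfl
  · right; rfl
  · exact absurd hr (by norm_num)

theorem many_perfect (hG : Group.IsSolvable G) (Γ : Subgroup (Equiv.Perm Y)) (hΓ : Γ ≤ ⁅Γ, Γ⁆)
    (hc : ∀ τ ∈ Γ, ∀ (g : G) y, τ (g • y) = g • τ y) {y : Y} (hy : Reg G y)
    (hne : ∃ τ ∈ Γ, τ y ≠ y) : Many G Y (Fin 5) := by
  have hperf : commutator Γ = ⊤ := by
    apply map_injective Γ.subtype_injective
    rw [map_subtype_commutator, ← MonoidHom.range_eq_map, range_subtype]
    exact le_antisymm (commutator_le_self _) hΓ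
  let S : Subgroup Γ :=
    { carrier := {γ | ∃ g : G, (γ : Equiv.Perm Y) y = g • y}
      one_mem' := ⟨1, by simp⟩
      mul_mem' := by
        rintro a b ⟨g, hg⟩ ⟨h, hh⟩
        refine ⟨h * g, ?_⟩
        rw [Subgroup.coe_mul, Equiv.Perm.mul_apply, hh, hc _ a.2, hg, mul_smul]
      inv_mem' := by
        rintro a ⟨g, hg⟩
        refine ⟨g⁻¹, ?_⟩
        rw [Subgroup.coe_inv, Equiv.Perm.inv_eq_iff_eq, hc _ a.2, hg, inv_smul_smul] }
  by_cases hemb : Nonempty (Fin 5 ↪ Γ ⧸ S)
  · obtain ⟨e⟩ := hemb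
    refine ⟨fun i => ((e i).out : Equiv.Perm Y) y, fun i => hy.perm _ (hc _ (e i).out.2), ?_⟩
    intro i j g h
    apply e.injective
    rw [← (e i).out_eq', ← (e j).out_eq', QuotientGroup.eq]
    refine ⟨g, ?_⟩
    rw [Subgroup.coe_mul, Equiv.Perm.mul_apply, Subgroup.coe_inv, Equiv.Perm.inv_eq_iff_eq,
      hc _ (e i).out.2]
    exact h.symm
  · exfalso
    have hfin : Finite (Γ ⧸ S) := by
      by_contra hinf
      rw [not_finite_iff_infinite] at hinf
      exact hemb ⟨(Fin.valEmbedding).trans (Infinite.natEmbedding _)⟩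
    have hcard : Nat.card (Γ ⧸ S) ≤ 4 := by
      by_contra hlt
      apply hemb
      haveI := Fintype.ofFinite (Γ ⧸ S)
      apply Function.Embedding.nonempty_of_card_le
      rw [Nat.card_eq_fintype_card] at hlt
      simp only [Fintype.card_fin]; omega
    have hS : ∀ γ : Γ, γ ∈ S := by
      intro γ
      have h1 := hom_trivial_of_perfect hperf (isSolvable_perm_of_card_le hcard)
        (MulAction.toPermHom Γ (Γ ⧸ S)) γ
      have h2 : γ • ((1 : Γ) : Γ ⧸ S) = ((1 : Γ) : Γ ⧸ S) := by
        have := congrArg (fun σ : Equiv.Perm (Γ ⧸ S) => σ ((1 : Γ) : Γ ⧸ S)) h1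
        simpa using this
      rw [MulAction.Quotient.smul_mk, QuotientGroup.eq] at h2
      simpa using h2
    choose t ht using hS
    let R := (MulAction.toPermHom G Y).range
    have hR : Group.IsSolvable R :=
      Group.isSolvable_of_surjective (MulAction.toPermHom G Y).rangeRestrict_surjective
    have hwd : ∀ g h : G, g • y = h • y →
        (MulAction.toPermHom G Y).rangeRestrict g = (MulAction.toPermHom G Y).rangeRestrict h := by
      intro g h hgh
      have h1 := hy (h⁻¹ * g) (by rw [mul_smul, hgh, inv_smul_smul])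
      ext y'
      have := h1 y'
      rw [mul_smul, inv_smul_eq_iff] at this
      simpa using this
    let φ : Γ →* R := MonoidHom.mk' (fun γ => ((MulAction.toPermHom G Y).rangeRestrict (t γ))⁻¹) (by
      intro a b
      rw [← mul_inv_rev, ← map_mul, inv_inj]
      apply hwd
      rw [← ht, Subgroup.coe_mul, Equiv.Perm.mul_apply, ht b, hc _ a.2, ht a, mul_smul])
    obtain ⟨τ, hτ, hτy⟩ := hne
    have h1 := hom_trivial_of_perfect hperf hR φ ⟨τ, hτ⟩
    have h2 : (MulAction.toPermHom G Y).rangeRestrict (t ⟨τ, hτ⟩) = 1 := inv_eq_one.mp h1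
    apply hτy
    have h3 := ht ⟨τ, hτ⟩
    have h4 := congrArg (fun σ : R => (σ : Equiv.Perm Y) y) h2
    simp only at h3
    rw [h3]
    simpa using h4

end Many

/-- independence of a family of subgroups separated by endomorphisms -/
theorem indep_of_sep {V I : Type*} [AddCommGroup V] (W : I → AddSubgroup V)
    (hsep : ∀ i j, i ≠ j → ∃ T : V →+ V, (∀ k, ∀ w ∈ W k, T w ∈ W k) ∧ (∀ w ∈ W i, T w = 0) ∧
      ∀ w ∈ W j, T w = 0 → w = 0)
    (s : Finset I) (w : I → V) (hw : ∀ i, w i ∈ W i) (h : ∑ i ∈ s, w i = 0) :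
    ∀ i ∈ s, w i = 0 := by
  classical
  have key : ∀ (j : I) (s : Finset I), j ∉ s → ∀ w : I → V, (∀ i, w i ∈ W i) →
      w j + ∑ i ∈ s, w i = 0 → w j = 0 := by
    intro j s
    induction s using Finset.induction_on with
    | empty => intro _ w _ h; simpa using h
    | insert i s hi ih =>
      intro hj w hw h
      have hij : i ≠ j := fun e => hj (e ▸ Finset.mem_insert_self _ _)
      obtain ⟨T, h1, h2, h3⟩ := hsep i j hij
      apply h3 _ (hw j)
      apply ih (fun e => hj (Finset.mem_insert_of_mem e)) (fun k => T (w k)) (fun k => h1 k _ (hw k))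
      have := congrArg T h
      rw [Finset.sum_insert hi, map_add, map_add, h2 _ (hw i), zero_add, map_zero, map_sum] at this
      exact this
  intro j hj
  apply key j (s.erase j) (Finset.notMem_erase _ _) w hw
  rw [Finset.add_sum_erase _ _ hj, h]

/-- colourings with the natural action -/
def Col (Ω : Type*) (κ : Type) := Ω → κ

instance {G Ω : Type*} {κ : Type} [Group G] [MulAction G Ω] : MulAction G (Col Ω κ) where
  smul g χ := fun ω => χ (g⁻¹ • ω)
  one_smul χ := by funext ω; show χ (1⁻¹ • ω) = χ ω; simp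
  mul_smul g h χ := by
    funext ω; show χ ((g * h)⁻¹ • ω) = χ (h⁻¹ • g⁻¹ • ω); rw [mul_inv_rev, mul_smul]

theorem col_smul {G Ω : Type*} {κ : Type} [Group G] [MulAction G Ω] (g : G) (χ : Col Ω κ) (ω : Ω) :
    (g • χ) ω = χ (g⁻¹ • ω) := rfl

/-- a colouring preserved only by elements acting trivially -/
def Rigid (G : Type*) {Ω : Type*} {κ : Type} [SMul G Ω] (χ : Ω → κ) : Prop :=
  ∀ g : G, (∀ ω, χ (g • ω) = χ ω) → ∀ ω : Ω, g • ω = ω

/-- a base -/
def IsBase (G : Type*) {V : Type*} {ι : Type} [SMul G V] (b : ι → V) : Prop :=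
  ∀ g : G, (∀ i, g • b i = b i) → ∀ v : V, g • v = v

section Conv

variable {G : Type*} [Group G]

theorem reg_of_rigid {Ω : Type*} {κ : Type} [MulAction G Ω] {χ : Col Ω κ} (h : Rigid G (κ := κ) χ) :
    Reg G χ := by
  intro g hg χ'
  funext ω
  have := h g⁻¹ (fun ω => congrFun hg ω) ω
  rw [col_smul, this]

theorem rigid_of_reg {Ω : Type*} {κ : Type} [Nontrivial κ] [MulAction G Ω] {χ : Col Ω κ}
    (h : Reg G χ) : Rigid G (κ := κ) χ := by
  classical
  intro g hg ω
  obtain ⟨a, b, hab⟩ := exists_pair_ne κ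
  have h1 := h g⁻¹ (by funext ω; rw [col_smul, inv_inv]; exact hg ω)
    (fun x => if x = ω then a else b)
  have h2 : (if g⁻¹⁻¹ • ω = ω then a else b) = if ω = ω then a else b := congrFun h1 ω
  rw [inv_inv] at h2
  by_contra hne
  simp [hne] at h2
  exact hab h2.symm

theorem reg_of_isBase {V : Type*} {ι : Type} [MulAction G V] {b : ι → V} (h : IsBase G b) :
    Reg G b := by
  intro g hg b'
  funext i
  exact h g (fun i => congrFun hg i) _

theorem isBase_of_reg {V : Type*} {ι : Type} [Nonempty ι] [MulAction G V] {b : ι → V}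
    (h : Reg G b) : IsBase G b := by
  intro g hg v
  exact congrFun (h g (funext hg) (fun _ => v)) (Classical.arbitrary ι)

end Conv

section ManyCol

variable {G Ω : Type*} [Group G] [Finite G] [MulAction G Ω]

/-- recolouring -/
def recol (Ω : Type*) (κ : Type) : Equiv.Perm κ →* Equiv.Perm (Col Ω κ) where
  toFun σ := ⟨fun χ ω => σ (χ ω), fun χ ω => σ⁻¹ (χ ω), fun χ => by funext ω; simp,
    fun χ => by funext ω; simp⟩
  map_one' := rfl
  map_mul' _ _ := rfl

theorem many_col_prime {m : ℕ} (hp : m.Prime) (hm : (Nat.card G).Coprime m) [Nonempty Ω]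
    {χ : Ω → Fin m} (h : Rigid G χ) : Many G (Col Ω (Fin m)) (Fin m) := by
  haveI : NeZero m := ⟨hp.ne_zero⟩
  refine many_cyclic hp hm (recol Ω (Fin m) (Equiv.addRight 1)) (fun _ _ => rfl) ?_
    (y := χ) (reg_of_rigid h) ?_
  · have : m • (1 : Fin m) = 0 := by
      have := card_nsmul_eq_zero (x := (1 : Fin m))
      simpa using this
    have h2 : ∀ (n : ℕ) (a : Fin m), (Equiv.addRight (1 : Fin m) ^ n) a = a + n • (1 : Fin m) := by
      intro n
      induction n with
      | zero => simp
      | succ n ih => intro a; rw [pow_succ', Equiv.Perm.mul_apply, ih, succ_nsmul, ← add_assoc]; rfl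
    have h3 : Equiv.addRight (1 : Fin m) ^ m = 1 := by
      ext a; rw [h2, this]; simp
    rw [← map_pow, h3, map_one]
  · intro h2
    have h3 := congrFun h2 (Classical.arbitrary Ω)
    change χ _ + 1 = χ _ at h3
    have h4 : (1 : Fin m) = 0 := by simpa using h3
    have := hp.two_le
    have h5 := congrArg Fin.val h4
    rw [Fin.val_one', Nat.mod_eq_of_lt (by omega)] at h5
    simp at h5

theorem many_col_five (hG : Group.IsSolvable G) [Nonempty Ω]
    {χ : Ω → Fin 5} (h : Rigid G χ) : Many G (Col Ω (Fin 5)) (Fin 5) := by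
  refine many_perfect hG ((alternatingGroup (Fin 5)).map (recol Ω (Fin 5))) ?_ ?_
    (y := χ) (reg_of_rigid h) ?_
  · rw [← map_commutator, commutator_alternatingGroup_eq_self (by simp)]
  · rintro _ ⟨σ, _, rfl⟩ g y; rfl
  · have : ∀ a : Fin 5, ∃ σ ∈ alternatingGroup (Fin 5), σ a ≠ a := by
      intro a
      refine ⟨Equiv.addRight 1, ?_, ?_⟩
      · rw [Equiv.Perm.mem_alternatingGroup]; decide
      · revert a; decide
    obtain ⟨σ, h1, h2⟩ := this (χ (Classical.arbitrary Ω))
    exact ⟨_, ⟨σ, h1, rfl⟩, fun h3 => h2 (congrFun h3 _)⟩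

end ManyCol

section ManyVec

variable {G V : Type*} [Group G] [Finite G] [AddCommGroup V] [DistribMulAction G V]

/-- elementary shear `v i += v j` -/
def shear {ι : Type} [DecidableEq ι] (V : Type*) [AddCommGroup V] (i j : ι) (h : i ≠ j) :
    Equiv.Perm (ι → V) where
  toFun v := Function.update v i (v i + v j)
  invFun v := Function.update v i (v i - v j)
  left_inv v := by
    funext k
    by_cases hk : k = i
    · subst hk; simp [h.symm]
    · simp [hk]
  right_inv v := by
    funext k
    by_cases hk : k = i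
    · subst hk; simp [h.symm]
    · simp [hk]

theorem shear_smul {ι : Type} [DecidableEq ι] (i j : ι) (h : i ≠ j) (g : G) (v : ι → V) :
    shear V i j h (g • v) = g • shear V i j h v := by
  funext k
  by_cases hk : k = i
  · subst hk; simp [shear]
  · simp [shear, hk]

theorem exists_base_ne_zero {ι : Type} [Nontrivial V] {b : ι → V} (h : IsBase G b) (i₀ : ι) :
    ∃ b' : ι → V, IsBase G b' ∧ ∃ i, b' i ≠ 0 := by
  by_cases h0 : ∃ i, b i ≠ 0
  · exact ⟨b, h, h0⟩
  · push Not at h0
    obtain ⟨v, hv⟩ := exists_ne (0 : V)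
    exact ⟨fun _ => v, fun g _ => h g (fun i => by rw [h0, smul_zero]), i₀, hv⟩

theorem many_vec_three (hG : Group.IsSolvable G) [Nontrivial V] {b : Fin 3 → V} (h : IsBase G b) :
    Many G (Fin 3 → V) (Fin 5) := by
  obtain ⟨b, h, j, hj⟩ := exists_base_ne_zero h 0
  let S : Set (Equiv.Perm (Fin 3 → V)) := {τ | ∃ i j, ∃ h : i ≠ j, τ = shear V i j h}
  refine many_perfect hG (closure S) ?_ ?_ (reg_of_isBase h) ?_
  · rw [closure_le]
    rintro _ ⟨i, j, hij, rfl⟩
    obtain ⟨k, hki, hkj⟩ : ∃ k : Fin 3, i ≠ k ∧ k ≠ j := by revert i j; decide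
    have : shear V i j hij = ⁅shear V i k hki, shear V k j hkj⁆ := by
      rw [commutatorElement_def, eq_mul_inv_iff_mul_eq, eq_mul_inv_iff_mul_eq]
      ext v l
      simp only [Equiv.Perm.mul_apply, shear, Equiv.coe_fn_mk]
      by_cases hl : l = i
      · subst hl
        simp [hij.symm, hki, hki.symm, hkj.symm]; abel
      · by_cases hl2 : l = k
        · subst hl2
          simp [hij.symm, hki, hki.symm, hkj.symm]
        · simp [hl, hl2]
    rw [this]
    exact commutator_mem_commutator (subset_closure ⟨_, _, _, rfl⟩) (subset_closure ⟨_, _, _, rfl⟩)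
  · intro τ hτ
    induction hτ using closure_induction with
    | mem τ hτ => obtain ⟨i, j, hij, rfl⟩ := hτ; exact shear_smul i j hij
    | one => intro g y; rfl
    | mul a b _ _ ha hb => intro g y; rw [Equiv.Perm.mul_apply, Equiv.Perm.mul_apply, hb, ha]
    | inv a _ ha => intro g y; rw [Equiv.Perm.inv_eq_iff_eq, ha]; simp
  · obtain ⟨i, hi⟩ := exists_ne j
    refine ⟨_, subset_closure ⟨i, j, hi, rfl⟩, fun h2 => hj ?_⟩
    have := congrFun h2 i
    simpa [shear] using this

theorem many_vec_prime {p : ℕ} (hp : p.Prime) (hm : (Nat.card G).Coprime p) [Nontrivial V]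
    (hV : ∀ v : V, p • v = 0) {b : Fin 2 → V} (h : IsBase G b) :
    Many G (Fin 2 → V) (Fin p) := by
  obtain ⟨b, h, j, hj⟩ := exists_base_ne_zero h 0
  obtain ⟨i, hi⟩ := exists_ne j
  refine many_cyclic hp hm (shear V i j hi) (shear_smul i j hi) ?_ (reg_of_isBase h) ?_
  · have : ∀ (n : ℕ) (v : Fin 2 → V),
        (shear V i j hi ^ n) v = Function.update v i (v i + n • v j) := by
      intro n
      induction n with
      | zero => intro v; simp
      | succ n ih =>
        intro v
        rw [pow_succ', Equiv.Perm.mul_apply, ih]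
        simp [shear, hi.symm, add_smul, add_assoc]
    ext v l
    rw [this, hV]; simp
  · intro h2
    have := congrFun h2 i
    exact hj (by simpa [shear] using this)

theorem many_vec_two (hm : (Nat.card G).Coprime 2) [Nontrivial V] {b : Fin 2 → V}
    (h : IsBase G b) : Many G (Fin 2 → V) (Fin 2) := by
  obtain ⟨b, h, j, hj⟩ := exists_base_ne_zero h 0
  have hsw : ∀ b : Fin 2 → V, IsBase G b → b 0 ≠ b 1 → Many G (Fin 2 → V) (Fin 2) := by
    intro b h hne
    refine many_cyclic Nat.prime_two hm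
      ⟨fun v => ![v 1, v 0], fun v => ![v 1, v 0], fun v => by funext k; fin_cases k <;> rfl,
        fun v => by funext k; fin_cases k <;> rfl⟩ ?_ ?_ (reg_of_isBase h) ?_
    · intro g v; funext k; fin_cases k <;> rfl
    · ext v k; fin_cases k <;> rfl
    · intro h2; exact hne (congrFun h2 1)
  by_cases h01 : b 0 = b 1
  · apply hsw ![b j, 0]
    · intro g hg
      apply h g
      have h1 : g • b j = b j := hg 0
      intro k
      have : b k = b j := by fin_cases k <;> fin_cases j <;> simp [h01]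
      rw [this, h1]
    · exact hj
  · exact hsw b h h01

end ManyVec

theorem Many.mono {G Y : Type*} [SMul G Y] {κ κ' : Type} (h : Many G Y κ) (e : κ' ↪ κ) :
    Many G Y κ' := by
  obtain ⟨f, h1, h2⟩ := h
  exact ⟨fun i => f (e i), fun i => h1 _, fun i j g hg => e.injective (h2 _ _ g hg)⟩

end CfsgH1.BS
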