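import Cfsg.Agent.H1.Base9
import Cfsg.Agent.H4.Maschke

/-! Base sizes, part 10: the coprime quasi-primitive case. -/

set_option autoImplicit false
set_option maxHeartbeats 400000
set_option linter.unusedSectionVars false
set_option linter.style.haveILetI false

namespace CfsgH1.BS

open Subgroup
open scoped commutatorElement IsMulCommutative

theorem cr_of_exp {A V : Type*} [Group A] [Finite A] [AddCommGroup V] [Finite V]
    [DistribMulAction A V] {p : ℕ} (hp : p.Prime) (hA : (Nat.card A).Coprime p)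
    (hV : ∀ v : V, p • v = 0) : CR A V := by
  intro U hU
  haveI := Fact.mk hp
  have h1 : ∀ v : Multiplicative V, v ^ p = 1 := fun v => congrArg Multiplicative.ofAdd (hV v.toAdd)
  obtain ⟨N, hN⟩ := CfsgH4.exists_isCompl_of_exponent hp h1 U.toSubgroup
  have h2 : IsPGroup p (Multiplicative V) := fun v => ⟨1, by rw [pow_one, h1]⟩
  obtain ⟨k, hk⟩ := IsPGroup.iff_card.mp h2
  obtain ⟨K, hK, hK'⟩ := CfsgH4.maschke (mulAutOf A V) (by rw [hk]; exact hA.pow_right k)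
    (M := U.toSubgroup) (fun a x hx => hU a _ hx) hN
  refine ⟨K.toAddSubgroup', fun a w hw => hK' a (Multiplicative.ofAdd w) hw, ?_, ?_⟩
  · rw [eq_bot_iff]
    intro v hv
    have : Multiplicative.ofAdd v ∈ U.toSubgroup ⊓ K := hv
    rw [hK.inf_eq_bot] at this
    exact this
  · rw [eq_top_iff]
    intro v _
    have : Multiplicative.ofAdd v ∈ U.toSubgroup ⊔ K := by rw [hK.sup_eq_top]; trivial
    obtain ⟨a, ha, b, hb, e⟩ := mem_sup.mp this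
    exact AddSubgroup.mem_sup.mpr ⟨a.toAdd, ha, b.toAdd, hb, congrArg Multiplicative.toAdd e⟩

variable {G V : Type*} [Group G] [Finite G] [AddCommGroup V] [Finite V] [DistribMulAction G V]

theorem two_of_odd {p : ℕ} (hp : p.Prime) (hp2 : p ≠ 2) (hV : ∀ v : V, p • v = 0) (v : V)
    (h : -v = v) : v = 0 := by
  obtain ⟨k, hk⟩ := hp.odd_of_ne_two hp2
  have h1 := hV v
  have h2 : 2 • v = 0 := by rw [two_smul]; nth_rewrite 1 [← h]; exact neg_add_cancel v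
  rwa [hk, add_smul, mul_comm, mul_smul, h2, smul_zero, zero_add, one_smul] at h1

theorem dvd_of_smul {p : ℕ} (hp : p.Prime) (hV : ∀ v : V, p • v = 0) {x : V} (hx : x ≠ 0) {n : ℕ}
    (h : n • x = 0) : p ∣ n := by
  haveI := Fact.mk hp
  rw [← addOrderOf_eq_prime (hV x) hx]
  exact addOrderOf_dvd_of_nsmul_eq_zero h

namespace QP

variable {Z F : Subgroup G} (h : QP V Z F)
include h

theorem dec_sup {M : Subgroup G} {c : G} (hc : c ∈ M ⊔ Z) : ∃ z ∈ Z, ∃ m ∈ M, c = z * m := by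
  haveI := h.zn
  rw [sup_comm, ← SetLike.mem_coe, normal_mul] at hc
  obtain ⟨z, hz, m, hm, e⟩ := hc
  exact ⟨z, hz, m, hm, e.symm⟩

theorem kill_of_gen {M : Subgroup G} {x : V} (hx : IsSt F M x) {z₀ : G} (hz₀ : z₀ ∈ Z)
    (hgen : ∀ z ∈ Z, ∃ n : ℕ, z = z₀ ^ n) {g : G} (hg : g • x = x) (hgz : g • z₀ • x = z₀ • x) :
    M ⊔ Z ≤ KS F M g := by
  haveI := h.fn
  refine sup_le (h.le_KS hx.2.1 hx.ne_bot (hx.mem_normalizer hg)) (fun z hz => ?_)
  obtain ⟨n, rfl⟩ := hgen z hz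
  exact pow_mem (hx.mem_KS hg (h.z_le_CF hx.2.1 hz₀) hgz) n

theorem sq_mem (h4 : ∀ z ∈ Z, z ^ 4 = 1) {f : G} (hf : f ∈ F) : f * f ∈ Z := by
  rw [← pow_two]
  refine h.sq 2 f hf (h.cent _ (fun c hc => commutatorElement_eq_one_iff_mul_comm.mp ?_))
  rw [h.comm_pow_left hf hc]
  exact h4 _ (h.comm _ hf _ hc)

variable [Nontrivial V]

theorem comm_cases (hsq : ∀ f ∈ F, f * f ∈ Z) {ε : G} (hε : ε ∈ Z) (h1 : ε ≠ 1) (h2 : ε * ε = 1)
    {a c : G} (ha : a ∈ F) (hc : c ∈ F) : ⁅a, c⁆ = 1 ∨ ⁅a, c⁆ = ε :=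
  h.invol_cases hε h1 h2 (h.comm _ ha _ hc) (by
    rw [← h.comm_mul_left ha ha hc, h.comm_z_left (hsq a ha) hc])

theorem step_of (hsq : ∀ f ∈ F, f * f ∈ Z) {M : Subgroup G} (hM : M ≤ F) (hM0 : fx V M ≠ ⊥)
    {b f : G} (hb : b ∈ M) (hf : f ∈ F) (hbf : ⁅b, f⁆ ≠ 1) :
    Step V F (M ⊓ centralizer {f}) M 2 b f := by
  have hbb : b * b = 1 := h.eq_one_of_fix hM0 (mul_mem hb hb) (hsq b (hM hb))
  have hε : ⁅b, f⁆ * ⁅b, f⁆ = 1 := by
    rw [← h.comm_mul_left (hM hb) (hM hb) hf, hbb, commutatorElement_one_left]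
  refine ⟨Nat.prime_two, inf_le_left, hM, hM0, hb, fun e => hbf
    (commutatorElement_eq_one_iff_mul_comm.mpr (mem_centralizer_singleton_iff.mp e.2)),
    by rw [pow_two, hbb], fun β hβ => ?_,
    ⟨hf, fun c hc => mem_centralizer_singleton_iff.mp hc.2⟩, hbf⟩
  rcases h.comm_cases hsq (h.comm _ (hM hb) _ hf) hbf hε (hM hβ) hf with e | e
  · exact ⟨β, ⟨hβ, mem_centralizer_singleton_iff.mpr (commutatorElement_eq_one_iff_mul_comm.mp e)⟩,
      0, by simp⟩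
  · refine ⟨β * b, ⟨mul_mem hβ hb, mem_centralizer_singleton_iff.mpr
      (commutatorElement_eq_one_iff_mul_comm.mp ?_)⟩, 1, by rw [pow_one, mul_assoc, hbb, mul_one]⟩
    rw [h.comm_mul_left (hM hβ) (hM hb) hf, e, hε]

omit [Nontrivial V] in
theorem exists_ncomm {M : Subgroup G} (hM0 : fx V M ≠ ⊥) {b : G} (hb : b ∈ M) (hb1 : b ≠ 1) :
    ∃ f ∈ F, ⁅b, f⁆ ≠ 1 := by
  by_contra hc
  push Not at hc
  exact hb1 (h.eq_one_of_fix hM0 hb (h.cent b (fun f hf =>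
    commutatorElement_eq_one_iff_mul_comm.mp (hc f hf))))

theorem two_st_cyc {M B : Subgroup G} {b f : G} (hs : Step V F B M 2 b f) {x : V}
    (hx : IsSt F M x) (hc : CF F M ≤ M ⊔ Z) {z₀ : G} (hz₀ : z₀ ∈ Z)
    (hgen : ∀ z ∈ Z, ∃ n : ℕ, z = z₀ ^ n) (h1 : f • f • x ≠ z₀ • z₀ • x)
    (h2 : f • f • x ≠ -(z₀ • z₀ • x)) : St V F B := by
  have hf := hs.fC.1
  refine h.two_st hs rfl hx (smul_mem_fx_of_CF (h.z_le_CF hs.leF hz₀) hx.2.2.1)
    (fun g hg hg' => hc.trans (h.kill_of_gen hx hz₀ hgen hg hg'))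
    (fun e => hx.1 ((smul_eq_zero_iff_eq _).mp e)) (fun c hcC e1 e2 => ?_)
  obtain ⟨z, hz, m, hm, rfl⟩ := h.dec_sup (hc hcC)
  have hzx := smul_mem_fx_of_CF (h.z_le_CF hs.leF hz₀) hx.2.2.1 m hm
  rw [mul_smul, hzx, ← mul_smul] at e1
  have e3 := h.semi _ (mul_mem hz hz₀) x e1 hx.1
  have hε : ⁅b, f⁆ * ⁅b, f⁆ = 1 := by rw [← pow_two]; exact h.step_pow hs hf
  have hζ := h.comm _ (hs.leF hs.mem) _ hf
  have e4 : ⁅m, f⁆ * ⁅m, f⁆ = 1 := by
    obtain ⟨b₀, hb₀, k, rfl⟩ := hs.dec m hm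
    rw [h.comm_mul_left (hs.leF (hs.le hb₀)) (pow_mem (hs.leF hs.mem) k) hf,
      commutatorElement_eq_one_iff_mul_comm.mpr (hs.fC.2 b₀ hb₀), one_mul,
      h.comm_pow_left (hs.leF hs.mem) hf, ← (Commute.refl _).mul_pow, hε, one_pow]
  have e5 : z₀ • z₀ • x = f • ⁅m, f⁆ • f • x := by
    rw [← e2, mul_smul, h.smul_eig (hx.2.2.1 m hm), ← mul_smul z₀, h.zc _ hz₀ _ hf, mul_smul,
      ← mul_smul z₀, h.zc _ hz₀ _ (h.zf hz), e3, one_smul]
  rcases h.invol_cases hζ hs.fne hε (h.comm _ (hs.leF hm) _ hf) e4 with e | e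
  · rw [e, one_smul] at e5; exact h1 e5.symm
  · rw [e, h.neg_of_invol hζ hs.fne hε, smul_neg] at e5
    exact h2 (by rw [e5, neg_neg])

theorem two_st_big {M B : Subgroup G} {b f : G} (hs : Step V F B M 2 b f) {x : V}
    (hx : IsSt F M x) (hc : CF F M ≤ M ⊔ Z) {z₀ : G} (hz₀ : z₀ ∈ Z)
    (hgen : ∀ z ∈ Z, ∃ n : ℕ, z = z₀ ^ n) (h4 : z₀ ^ 4 ≠ 1) : St V F B := by
  have hf := hs.fC.1
  have hbF := hs.leF hs.mem
  by_contra hn
  have key : ∀ k : ℕ, z₀ ^ (2 * k) • f • f • x = z₀ • z₀ • x ∨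
      z₀ ^ (2 * k) • f • f • x = -(z₀ • z₀ • x) := by
    intro k
    have hz := pow_mem hz₀ k
    by_contra hk
    push Not at hk
    have e : (f * z₀ ^ k) • (f * z₀ ^ k) • x = z₀ ^ (2 * k) • f • f • x := by
      rw [← mul_smul, ← mul_smul, ← mul_smul, ← pow_two, (h.commute hz hf).symm.mul_pow,
        ← pow_mul, mul_comm k 2, mul_assoc, ← pow_two, h.zc _ (pow_mem hz₀ _) _ (pow_mem hf 2)]
    refine hn (h.two_st_cyc (f := f * z₀ ^ k) ⟨hs.prime, hs.le, hs.leF, hs.ne, hs.mem, hs.nmem,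
      hs.pow, hs.dec, mul_mem hs.fC (h.z_le_CF (hs.le.trans hs.leF) hz), ?_⟩ hx hc hz₀ hgen
      (e ▸ hk.1) (e ▸ hk.2))
    rw [h.comm_mul_right hbF hf (h.zf hz), h.comm_z_right hz hbF, mul_one]
    exact hs.fne
  have hu : f • f • x ≠ 0 := fun e =>
    hx.1 ((smul_eq_zero_iff_eq _).mp ((smul_eq_zero_iff_eq _).mp e))
  have inj : ∀ a b : ℕ, z₀ ^ a • f • f • x = z₀ ^ b • f • f • x → z₀ ^ a = z₀ ^ b :=
    fun a b e => h.z_inj (pow_mem hz₀ a) (pow_mem hz₀ b) hu e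
  have n1 : z₀ ^ (2 * 0) ≠ z₀ ^ (2 * 1) := fun e => h4 (by
    rw [show 4 = 2 * 1 + 2 * 1 from rfl, pow_add, ← e]; simp)
  have n2 : z₀ ^ (2 * 0) ≠ z₀ ^ (2 * 2) := fun e => h4 (by simpa using e.symm)
  have n3 : z₀ ^ (2 * 1) ≠ z₀ ^ (2 * 2) := fun e => n1 (by
    rw [show 2 * 2 = 2 * 1 + 2 * 1 from rfl, pow_add, left_eq_mul] at e; rw [e]; simp)
  rcases key 0 with e0 | e0 <;> rcases key 1 with e1 | e1 <;> rcases key 2 with e2 | e2
  all_goals first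
    | exact n1 (inj _ _ (e0.trans e1.symm))
    | exact n2 (inj _ _ (e0.trans e2.symm))
    | exact n3 (inj _ _ (e1.trans e2.symm))

end QP

structure Nrm (F M D : Subgroup G) (ε b₁ b₂ f₁ f₂ : G) : Prop where
  b1 : b₁ ∈ M
  b2 : b₂ ∈ M
  f1 : f₁ ∈ F
  f2 : f₂ ∈ F
  d1 : f₁ ∈ D
  d2 : f₂ ∈ D
  c11 : ⁅b₁, f₁⁆ = ε
  c12 : ⁅b₁, f₂⁆ = 1
  c21 : ⁅b₂, f₁⁆ = 1
  c22 : ⁅b₂, f₂⁆ = ε
  cf : ⁅f₁, f₂⁆ = 1
  s1 : f₁ * f₁ = 1
  s2 : f₂ * f₂ = 1

namespace QP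

variable {Z F : Subgroup G} (h : QP V Z F) [Nontrivial V]
include h

theorem two_gens (hsq : ∀ f ∈ F, f * f ∈ Z) {ε : G} (hε : ε ∈ Z) (h1 : ε ≠ 1) (h2 : ε * ε = 1)
    {M D : Subgroup G} (hw : WSt V F M) (hD1 : M ≤ D) (hD2 : ∀ f ∈ F, ∃ c ∈ CF F M, f * c ∈ D)
    (hs2 : ∀ f ∈ F, f ∉ CF F M → f * f = 1 ∨ f * f = ε) :
    (∃ b : Fin 2 → V, IsBase G b) ∨ ∃ b₁ b₂ f₁ f₂, Nrm F M D ε b₁ b₂ f₁ f₂ := by
  obtain ⟨x, y, hx, hy, hk⟩ := hw
  have hM := hx.2.1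
  have hM0 := hx.ne_bot
  have hcc : ∀ {a c : G}, a ∈ F → c ∈ F → ⁅a, c⁆ = 1 ∨ ⁅a, c⁆ = ε :=
    fun ha hc => h.comm_cases hsq hε h1 h2 ha hc
  have hinv : ∀ {a c : G}, ⁅a, c⁆ = ε → ⁅c, a⁆ = ε := fun e => by
    rw [← commutatorElement_inv, e, inv_eq_iff_mul_eq_one, h2]
  have hinv1 : ∀ {a c : G}, ⁅a, c⁆ = 1 → ⁅c, a⁆ = 1 := fun e => by
    rw [← commutatorElement_inv, e, inv_one]
  have hMM : ∀ {a c : G}, a ∈ M → c ∈ M → ⁅a, c⁆ = 1 := fun ha hc =>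
    commutatorElement_eq_one_iff_mul_comm.mpr ((h.le_CF hM hM0 hc).2 _ ha)
  have hget : ∀ b ∈ M, b ≠ 1 → ∃ f ∈ F, f ∈ D ∧ ⁅b, f⁆ = ε := by
    intro b hb hb1
    obtain ⟨f, hf, e⟩ := h.exists_ncomm hM0 hb hb1
    obtain ⟨c, hc, hfc⟩ := hD2 f hf
    refine ⟨f * c, mul_mem hf hc.1, hfc, ?_⟩
    rw [h.comm_mul_right (hM hb) hf hc.1, commutatorElement_eq_one_iff_mul_comm.mpr (hc.2 b hb),
      mul_one]
    exact (hcc (hM hb) hf).resolve_left e
  have hsqr : ∀ b ∈ M, ∀ f ∈ F, ⁅b, f⁆ = ε → ∃ k : ℕ, (f * b ^ k) * (f * b ^ k) = 1 := by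
    intro b hb f hf e
    rcases hs2 f hf (fun hc => h1 (e.symm.trans
      (commutatorElement_eq_one_iff_mul_comm.mpr (hc.2 b hb)))) with e1 | e1
    · exact ⟨0, by simpa using e1⟩
    · refine ⟨1, ?_⟩
      rw [pow_one, ← pow_two, h.mul_pow' hf (hM hb), pow_two, pow_two, e1,
        h.eq_one_of_fix hM0 (mul_mem hb hb) (hsq b (hM hb)), e]
      simpa using h2
  by_cases h0 : M = ⊥
  · exact Or.inl (h.base_of_kp hx.1 (h0 ▸ hk))
  obtain ⟨b₁, hb₁, hb₁1⟩ : ∃ u ∈ M, u ∉ (⊥ : Subgroup G) :=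
    SetLike.not_le_iff_exists.mp (fun e => h0 (le_bot_iff.mp e))
  obtain ⟨f₁, hf₁, hd₁, c11⟩ := hget b₁ hb₁ (fun e => hb₁1 (mem_bot.mpr e))
  by_cases h3 : M ⊓ centralizer {f₁} = ⊥
  · have hs := h.step_of hsq hM hM0 hb₁ hf₁ (c11 ▸ h1)
    exact Or.inl (h.base_of_kp hx.1 (h3 ▸ h.two_kp hs rfl hx hy hk))
  obtain ⟨b₂, hb₂, hb₂1⟩ : ∃ u ∈ M ⊓ centralizer {f₁}, u ∉ (⊥ : Subgroup G) :=
    SetLike.not_le_iff_exists.mp (fun e => h3 (le_bot_iff.mp e))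
  have c21 : ⁅b₂, f₁⁆ = 1 :=
    commutatorElement_eq_one_iff_mul_comm.mpr (mem_centralizer_singleton_iff.mp hb₂.2)
  replace hb₂ := hb₂.1
  obtain ⟨f₂, hf₂, hd₂, c22, c12⟩ : ∃ f ∈ F, f ∈ D ∧ ⁅b₂, f⁆ = ε ∧ ⁅b₁, f⁆ = 1 := by
    obtain ⟨f, hf, hd, c22⟩ := hget b₂ hb₂ (fun e => hb₂1 (mem_bot.mpr e))
    rcases hcc (hM hb₁) hf with e | e
    · exact ⟨f, hf, hd, c22, e⟩
    · refine ⟨f * f₁, mul_mem hf hf₁, mul_mem hd hd₁, ?_, ?_⟩
      · rw [h.comm_mul_right (hM hb₂) hf hf₁, c22, c21, mul_one]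
      · rw [h.comm_mul_right (hM hb₁) hf hf₁, e, c11, h2]
  obtain ⟨f₂, hf₂, hd₂, c22, c12, cf⟩ : ∃ f ∈ F, f ∈ D ∧ ⁅b₂, f⁆ = ε ∧ ⁅b₁, f⁆ = 1 ∧ ⁅f₁, f⁆ = 1 := by
    rcases hcc hf₁ hf₂ with e | e
    · exact ⟨f₂, hf₂, hd₂, c22, c12, e⟩
    · refine ⟨f₂ * b₁, mul_mem hf₂ (hM hb₁), mul_mem hd₂ (hD1 hb₁), ?_, ?_, ?_⟩
      · rw [h.comm_mul_right (hM hb₂) hf₂ (hM hb₁), c22, hMM hb₂ hb₁, mul_one]
      · rw [h.comm_mul_right (hM hb₁) hf₂ (hM hb₁), c12, hMM hb₁ hb₁, mul_one]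
      · rw [h.comm_mul_right hf₁ hf₂ (hM hb₁), e, hinv c11, h2]
  obtain ⟨k₁, hk₁⟩ := hsqr b₁ hb₁ f₁ hf₁ c11
  obtain ⟨k₂, hk₂⟩ := hsqr b₂ hb₂ f₂ hf₂ c22
  have p1 := pow_mem hb₁ k₁
  have p2 := pow_mem hb₂ k₂
  refine Or.inr ⟨b₁, b₂, f₁ * b₁ ^ k₁, f₂ * b₂ ^ k₂, hb₁, hb₂, mul_mem hf₁ (hM p1),
    mul_mem hf₂ (hM p2), mul_mem hd₁ (hD1 p1), mul_mem hd₂ (hD1 p2), ?_, ?_, ?_, ?_, ?_, hk₁, hk₂⟩
  · rw [h.comm_mul_right (hM hb₁) hf₁ (hM p1), c11, hMM hb₁ p1, mul_one]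
  · rw [h.comm_mul_right (hM hb₁) hf₂ (hM p2), c12, hMM hb₁ p2, mul_one]
  · rw [h.comm_mul_right (hM hb₂) hf₁ (hM p1), c21, hMM hb₂ p1, mul_one]
  · rw [h.comm_mul_right (hM hb₂) hf₂ (hM p2), c22, hMM hb₂ p2, mul_one]
  · rw [h.comm_mul_left hf₁ (hM p1) (mul_mem hf₂ (hM p2)), h.comm_mul_right hf₁ hf₂ (hM p2),
      h.comm_mul_right (hM p1) hf₂ (hM p2), cf, hMM p1 p2, h.comm_pow_right hf₁ (hM hb₂),
      hinv1 c21, h.comm_pow_left (hM hb₁) hf₂, c12]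
    simp

end QP

namespace Cert

theorem wd_append : ∀ (l l' : List G) (n n' : Wrd), n.length = l.length →
    wd (l ++ l') (n ++ n') = wd l n * wd l' n'
  | [], _, [], _, _ => by simp [wd]
  | g :: l, l', b :: n, n', h => by
    simp only [List.cons_append, wd, mul_assoc]
    rw [wd_append l l' n n' (by simpa using h)]
  | [], _, _ :: _, _, h => by simp at h
  | _ :: _, _, [], _, h => by simp at h

end Cert

namespace QP

variable {Z F : Subgroup G} (h : QP V Z F) [Nontrivial V]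
include h

open Cert

theorem nrm_gen (hsq : ∀ f ∈ F, f * f ∈ Z) {ε : G} (hε : ε ∈ Z) (h1 : ε ≠ 1) (h2 : ε * ε = 1)
    {M D : Subgroup G} (hM : M ≤ F) (hM0 : fx V M ≠ ⊥) {b₁ b₂ f₁ f₂ : G}
    (N : Nrm F M D ε b₁ b₂ f₁ f₂) (Zs T : List G)
    (hZ : ∀ z ∈ Z, ∃ n : Wrd, n.length = Zs.length ∧ z = wd Zs n)
    (hT1 : ∀ t ∈ T, t ∈ CF F M)
    (hT : ∀ c ∈ CF F M, ∃ z ∈ Z, ∃ n : Wrd, n.length = T.length ∧ ∃ m ∈ M, c = z * (wd T n * m))
    {c : G} (hc : c ∈ CF F (M ⊓ centralizer {f₁} ⊓ centralizer {f₂})) :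
    ∃ n : Wrd, n.length = Zs.length + (4 + T.length) ∧
      (wd (Zs ++ ([b₁, b₂, f₁, f₂] ++ T)) n)⁻¹ * c ∈ M ⊓ centralizer {f₁} ⊓ centralizer {f₂} := by
  have hcc : ∀ {a c : G}, a ∈ F → c ∈ F → ⁅a, c⁆ = 1 ∨ ⁅a, c⁆ = ε :=
    fun ha hc => h.comm_cases hsq hε h1 h2 ha hc
  have hb1 := hM N.b1
  have hb2 := hM N.b2
  have hdec : ∀ m ∈ M, ∃ n : Wrd, n.length = 2 ∧
      (wd [b₁, b₂] n)⁻¹ * m ∈ M ⊓ centralizer {f₁} ⊓ centralizer {f₂} := by
    intro m hm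
    have key : ∀ n, ⁅wd [b₁, b₂] n, f₁⁆ = ⁅m, f₁⁆ → ⁅wd [b₁, b₂] n, f₂⁆ = ⁅m, f₂⁆ →
        (wd [b₁, b₂] n)⁻¹ * m ∈ M ⊓ centralizer {f₁} ⊓ centralizer {f₂} := by
      intro n e1 e2
      have hw : wd [b₁, b₂] n ∈ M := wd_mem _ n (by simp [N.b1, N.b2])
      have hu := mul_mem (inv_mem hw) hm
      have k : ∀ f ∈ F, ⁅wd [b₁, b₂] n, f⁆ = ⁅m, f⁆ → (wd [b₁, b₂] n)⁻¹ * m ∈ centralizer {f} := by
        intro f hf e
        have := h.comm_mul_left (hM hw) (hM hu) hf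
        rw [mul_inv_cancel_left, e, left_eq_mul] at this
        exact mem_centralizer_singleton_iff.mpr (commutatorElement_eq_one_iff_mul_comm.mp this)
      exact ⟨⟨hu, k _ N.f1 e1⟩, k _ N.f2 e2⟩
    rcases hcc (hM hm) N.f1 with e1 | e1 <;> rcases hcc (hM hm) N.f2 with e2 | e2
    · exact ⟨[false, false], rfl, key _ (by simp [wd, e1]) (by simp [wd, e2])⟩
    · exact ⟨[false, true], rfl, key _ (by simp [wd, e1, N.c21]) (by simp [wd, e2, N.c22])⟩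
    · exact ⟨[true, false], rfl, key _ (by simp [wd, e1, N.c11]) (by simp [wd, e2, N.c12])⟩
    · exact ⟨[true, true], rfl, key _
        (by simp [wd, e1, h.comm_mul_left hb1 hb2 N.f1, N.c11, N.c21])
        (by simp [wd, e2, h.comm_mul_left hb1 hb2 N.f2, N.c12, N.c22])⟩
  obtain ⟨n₁, hn₁, hc₁⟩ : ∃ n : Wrd, n.length = 2 ∧ (wd [f₁, f₂] n)⁻¹ * c ∈ CF F M := by
    have key : ∀ n, ⁅b₁, wd [f₁, f₂] n⁆ = ⁅b₁, c⁆ → ⁅b₂, wd [f₁, f₂] n⁆ = ⁅b₂, c⁆ →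
        (wd [f₁, f₂] n)⁻¹ * c ∈ CF F M := by
      intro n e1 e2
      have hw : wd [f₁, f₂] n ∈ CF F (M ⊓ centralizer {f₁} ⊓ centralizer {f₂}) := wd_mem _ n (by
        simp only [List.mem_cons, List.not_mem_nil, or_false, forall_eq_or_imp, forall_eq]
        exact ⟨⟨N.f1, fun b hb => mem_centralizer_singleton_iff.mp hb.1.2⟩,
          ⟨N.f2, fun b hb => mem_centralizer_singleton_iff.mp hb.2⟩⟩)
      have hu := mul_mem (inv_mem hw) hc
      have k : ∀ b ∈ F, ⁅b, wd [f₁, f₂] n⁆ = ⁅b, c⁆ → b ∈ centralizer {(wd [f₁, f₂] n)⁻¹ * c} := by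
        intro b hb e
        have := h.comm_mul_right hb hw.1 hu.1
        rw [mul_inv_cancel_left, e, left_eq_mul] at this
        exact mem_centralizer_singleton_iff.mpr (commutatorElement_eq_one_iff_mul_comm.mp this)
      refine ⟨hu.1, fun m hm => ?_⟩
      obtain ⟨n', -, hn'⟩ := hdec m hm
      have k1 : wd [b₁, b₂] n' ∈ centralizer {(wd [f₁, f₂] n)⁻¹ * c} := wd_mem _ n' (by
        simp only [List.mem_cons, List.not_mem_nil, or_false, forall_eq_or_imp, forall_eq]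
        exact ⟨k _ hb1 e1, k _ hb2 e2⟩)
      simpa using mem_centralizer_singleton_iff.mp
        (mul_mem k1 (mem_centralizer_singleton_iff.mpr (hu.2 _ hn')))
    rcases hcc hb1 hc.1 with e1 | e1 <;> rcases hcc hb2 hc.1 with e2 | e2
    · exact ⟨[false, false], rfl, key _ (by simp [wd, e1]) (by simp [wd, e2])⟩
    · exact ⟨[false, true], rfl, key _ (by simp [wd, e1, N.c12]) (by simp [wd, e2, N.c22])⟩
    · exact ⟨[true, false], rfl, key _ (by simp [wd, e1, N.c11]) (by simp [wd, e2, N.c21])⟩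
    · exact ⟨[true, true], rfl, key _
        (by simp [wd, e1, h.comm_mul_right hb1 N.f1 N.f2, N.c11, N.c12])
        (by simp [wd, e2, h.comm_mul_right hb2 N.f1 N.f2, N.c21, N.c22])⟩
  obtain ⟨z, hz, n₂, hn₂, m, hm, e⟩ := hT _ hc₁
  obtain ⟨n₃, hn₃, hm₃⟩ := hdec m hm
  have hu : wd [f₁, f₂] n₁ ∈ F := wd_mem _ _ (by simp [N.f1, N.f2])
  have hβ : wd [b₁, b₂] n₃ ∈ M := wd_mem _ _ (by simp [N.b1, N.b2])
  have ht : wd T n₂ ∈ CF F M := wd_mem _ _ hT1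
  obtain ⟨n₀, hn₀, e₀⟩ := hZ _ (mul_mem hz (h.comm _ hu _ (hM hβ)))
  refine ⟨n₀ ++ ((n₃ ++ n₁) ++ n₂), by simp [hn₀, hn₁, hn₂, hn₃]; omega, ?_⟩
  rw [wd_append _ _ _ _ hn₀, wd_append _ _ _ _ (by simp [hn₁, hn₃]),
    show [b₁, b₂, f₁, f₂] = [b₁, b₂] ++ [f₁, f₂] from rfl, wd_append _ _ _ _ (by simp [hn₃]), ← e₀]
  convert hm₃ using 1
  rw [inv_mul_eq_iff_eq_mul] at e
  generalize wd [f₁, f₂] n₁ = u at e hu
  generalize wd [b₁, b₂] n₃ = β at hβ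
  generalize wd T n₂ = t at e ht
  rw [e, ← mul_assoc u z, ← h.zc z hz u hu]
  have := ht.2 β hβ
  calc _ = t⁻¹ * β⁻¹ * t * m := by simp only [commutatorElement_def]; group
    _ = _ := by rw [← mul_inv_rev, this]; group

omit h [Nontrivial V] in
theorem sw1 {a c : G} (e : ⁅a, c⁆ = 1) (v : V) : a • c • v = c • a • v := by
  rw [← mul_smul, commutatorElement_eq_one_iff_mul_comm.mp e, mul_smul]

omit [Nontrivial V] in
theorem swe {ε : G} (hε : ε ∈ Z) (h1 : ε ≠ 1) (h2 : ε * ε = 1) {a c : G} (e : ⁅a, c⁆ = ε) (v : V) :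
    a • c • v = -(c • a • v) := by
  have h3 : a * c = ⁅a, c⁆ * (c * a) := by simp only [commutatorElement_def]; group
  rw [← mul_smul, h3, e, mul_smul, h.neg_of_invol hε h1 h2, mul_smul]

omit h [Nontrivial V] in
theorem sq1 {a : G} (e : a * a = 1) (v : V) : a • a • v = v := by rw [← mul_smul, e, one_smul]

omit h [Nontrivial V] in
theorem nrm_mem {M D : Subgroup G} {ε b₁ b₂ f₁ f₂ : G} (N : Nrm F M D ε b₁ b₂ f₁ f₂) :
    f₁ ∈ CF F (M ⊓ centralizer {f₁} ⊓ centralizer {f₂}) ∧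
      f₂ ∈ CF F (M ⊓ centralizer {f₁} ⊓ centralizer {f₂}) :=
  ⟨⟨N.f1, fun _ hb => mem_centralizer_singleton_iff.mp hb.1.2⟩,
    ⟨N.f2, fun _ hb => mem_centralizer_singleton_iff.mp hb.2⟩⟩

theorem model5 (hV : ∀ v : V, 5 • v = 0) (hsq : ∀ f ∈ F, f * f ∈ Z) {ε : G} (hε : ε ∈ Z)
    (h1 : ε ≠ 1) (h2 : ε * ε = 1) {M D : Subgroup G} (hM : M ≤ F) {b₁ b₂ f₁ f₂ : G}
    (N : Nrm F M D ε b₁ b₂ f₁ f₂) (hc : CF F M ≤ M ⊔ Z) {x : V} (hx : x ∈ fx V M) (hx0 : x ≠ 0)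
    {z : G} (hz : z ∈ Z) (hzx : z • x = 2 • x)
    (hZ : ∀ u ∈ Z, u = 1 ∨ u = ε ∨ u = z ∨ u = z * ε) :
    St V F (M ⊓ centralizer {f₁} ⊓ centralizer {f₂}) := by
  have hM0 : fx V M ≠ ⊥ := fun e => hx0 (by rwa [e] at hx)
  have hle : M ⊓ centralizer {f₁} ⊓ centralizer {f₂} ≤ M := inf_le_left.trans inf_le_left
  have hx' := fx_anti hle hx
  obtain ⟨m1, m2⟩ := nrm_mem N
  have hMC : M ≤ CF F (M ⊓ centralizer {f₁} ⊓ centralizer {f₂}) :=
    (h.le_CF hM hM0).trans (CF_anti hle)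
  have hZC := h.z_le_CF (hle.trans hM)
  have Md : Model 5 4 m5As F (M ⊓ centralizer {f₁} ⊓ centralizer {f₂}) [z, ε, b₁, b₂, f₁, f₂]
      [x, f₂ • x, f₁ • x, f₁ • f₂ • x] := by
    refine ⟨Nat.prime_five, hV, rfl, hle.trans hM, ?_, ?_, ?_, hx0, ⟨_, m5_inj⟩, fun c hc' => ?_⟩
    · simp [hZC hz, hZC hε, hMC N.b1, hMC N.b2, m1, m2]
    · simp [hx', smul_mem_fx_of_CF m1, smul_mem_fx_of_CF m2]
    · have h4 : ∀ v : V, (4 : ℕ) • v = -v := fun v => eq_neg_of_add_eq_zero_left (by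
        rw [← hV v, show 5 = 4 + 1 from rfl, add_smul, one_smul])
      have z1 := sw1 (V := V) (h.comm_z_left hz N.f1)
      have z2 := sw1 (V := V) (h.comm_z_left hz N.f2)
      have cf := sw1 (V := V) (show ⁅f₂, f₁⁆ = 1 by rw [← commutatorElement_inv, N.cf, inv_one])
      simp [m5As, psi, h4, z1, z2, hzx, h.neg_of_invol hε h1 h2, h.swe hε h1 h2 N.c11,
        h.swe hε h1 h2 N.c22, sw1 N.c12, sw1 N.c21, cf, sq1 N.s1, sq1 N.s2, hx _ N.b1, hx _ N.b2,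
        smul_comm f₁ (2 : ℕ), smul_comm f₂ (2 : ℕ)]
    · refine h.nrm_gen hsq hε h1 h2 hM hM0 N [z, ε] [] (fun u hu => ?_) (by simp)
        (fun c hcC => ?_) hc'
      · rcases hZ u hu with rfl | rfl | rfl | rfl
        · exact ⟨[false, false], rfl, by simp [wd]⟩
        · exact ⟨[false, true], rfl, by simp [wd]⟩
        · exact ⟨[true, false], rfl, by simp [wd]⟩
        · exact ⟨[true, true], rfl, by simp [wd]⟩
      · obtain ⟨u, hu, m, hm, e⟩ := h.dec_sup (hc hcC)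
        exact ⟨u, hu, [], rfl, m, hm, by simpa [wd] using e⟩
  haveI := h.fn
  exact Md.st_one (Md.isSt h m5_reg) h m5_rs m5_fin m5_id m5_nb

theorem model3p (hG : (Nat.card G).Coprime 3) (hV : ∀ v : V, 3 • v = 0)
    (hsq : ∀ f ∈ F, f * f ∈ Z) {ε : G} (hε : ε ∈ Z)
    (h1 : ε ≠ 1) (h2 : ε * ε = 1) {M D : Subgroup G} (hM : M ≤ F) {b₁ b₂ f₁ f₂ : G}
    (N : Nrm F M D ε b₁ b₂ f₁ f₂) (hc : CF F M ≤ M ⊔ Z) {x : V} (hx : x ∈ fx V M) (hx0 : x ≠ 0)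
    (hZ : ∀ u ∈ Z, u = 1 ∨ u = ε) :
    St V F (M ⊓ centralizer {f₁} ⊓ centralizer {f₂}) := by
  have hM0 : fx V M ≠ ⊥ := fun e => hx0 (by rwa [e] at hx)
  have hle : M ⊓ centralizer {f₁} ⊓ centralizer {f₂} ≤ M := inf_le_left.trans inf_le_left
  have hx' := fx_anti hle hx
  obtain ⟨m1, m2⟩ := nrm_mem N
  have hMC : M ≤ CF F (M ⊓ centralizer {f₁} ⊓ centralizer {f₂}) :=
    (h.le_CF hM hM0).trans (CF_anti hle)
  have hZC := h.z_le_CF (hle.trans hM)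
  have Md : Model 3 4 m3pAs F (M ⊓ centralizer {f₁} ⊓ centralizer {f₂}) [ε, b₁, b₂, f₁, f₂]
      [x, f₂ • x, f₁ • x, f₁ • f₂ • x] := by
    refine ⟨Nat.prime_three, hV, rfl, hle.trans hM, ?_, ?_, ?_, hx0, ⟨_, m3p_inj⟩, fun c hc' => ?_⟩
    · simp [hZC hε, hMC N.b1, hMC N.b2, m1, m2]
    · simp [hx', smul_mem_fx_of_CF m1, smul_mem_fx_of_CF m2]
    · have h4 : ∀ v : V, (2 : ℕ) • v = -v := fun v => eq_neg_of_add_eq_zero_left (by
        rw [← hV v, show 3 = 2 + 1 from rfl, add_smul, one_smul])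
      have cf := sw1 (V := V) (show ⁅f₂, f₁⁆ = 1 by rw [← commutatorElement_inv, N.cf, inv_one])
      simp [m3pAs, psi, h4, h.neg_of_invol hε h1 h2, h.swe hε h1 h2 N.c11,
        h.swe hε h1 h2 N.c22, sw1 N.c12, sw1 N.c21, cf, sq1 N.s1, sq1 N.s2, hx _ N.b1, hx _ N.b2]
    · refine h.nrm_gen hsq hε h1 h2 hM hM0 N [ε] [] (fun u hu => ?_) (by simp)
        (fun c hcC => ?_) hc'
      · rcases hZ u hu with rfl | rfl
        · exact ⟨[false], rfl, by simp [wd]⟩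
        · exact ⟨[true], rfl, by simp [wd]⟩
      · obtain ⟨u, hu, m, hm, e⟩ := h.dec_sup (hc hcC)
        exact ⟨u, hu, [], rfl, m, hm, by simpa [wd] using e⟩
  haveI := h.fn
  exact Md.st_many (Md.isSt h m3p_reg) h hG (cs := [m3pa, m3pb, m3pc])
    (by simp [m3p_a, m3p_b, m3p_c]) m3p_bad

theorem model3m (hG : (Nat.card G).Coprime 3) (hV : ∀ v : V, 3 • v = 0)
    (hsq : ∀ f ∈ F, f * f ∈ Z) {ε : G} (hε : ε ∈ Z)
    (h1 : ε ≠ 1) (h2 : ε * ε = 1) {M : Subgroup G} (hM : M ≤ F) {b₁ b₂ f₁ f₂ i j : G}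
    (N : Nrm F M (centralizer {i} ⊓ centralizer {j}) ε b₁ b₂ f₁ f₂) (hi : i ∈ CF F M)
    (hj : j ∈ CF F M) (hii : i * i = ε) (hij : ⁅i, j⁆ = ε)
    (hc : ∀ c ∈ CF F M, ∃ z ∈ Z, ∃ n : Wrd, n.length = 2 ∧ ∃ m ∈ M, c = z * (wd [i, j] n * m))
    {x : V} (hx : x ∈ fx V M) (hx0 : x ≠ 0) (hijx : i • x + j • x = x)
    (hZ : ∀ u ∈ Z, u = 1 ∨ u = ε) :
    St V F (M ⊓ centralizer {f₁} ⊓ centralizer {f₂}) := by
  have hM0 : fx V M ≠ ⊥ := fun e => hx0 (by rwa [e] at hx)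
  have hle : M ⊓ centralizer {f₁} ⊓ centralizer {f₂} ≤ M := inf_le_left.trans inf_le_left
  have hx' := fx_anti hle hx
  obtain ⟨m1, m2⟩ := nrm_mem N
  have hMC : M ≤ CF F (M ⊓ centralizer {f₁} ⊓ centralizer {f₂}) :=
    (h.le_CF hM hM0).trans (CF_anti hle)
  have hZC := h.z_le_CF (hle.trans hM)
  have hi' := CF_anti hle hi
  have Md : Model 3 8 m3mAs F (M ⊓ centralizer {f₁} ⊓ centralizer {f₂}) [ε, b₁, b₂, f₁, f₂, i, j]
      [x, i • x, f₂ • x, f₂ • i • x, f₁ • x, f₁ • i • x, f₁ • f₂ • x, f₁ • f₂ • i • x] := by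
    refine ⟨Nat.prime_three, hV, rfl, hle.trans hM, ?_, ?_, ?_, hx0, ⟨_, m3m_inj⟩, fun c hc' => ?_⟩
    · simp [hZC hε, hMC N.b1, hMC N.b2, m1, m2, hi', CF_anti hle hj]
    · have k := smul_mem_fx_of_CF hi' hx'
      simp [hx', smul_mem_fx_of_CF m1, smul_mem_fx_of_CF m2, k]
    · have h4 : ∀ v : V, (2 : ℕ) • v = -v := fun v => eq_neg_of_add_eq_zero_left (by
        rw [← hV v, show 3 = 2 + 1 from rfl, add_smul, one_smul])
      have cf := sw1 (V := V) (show ⁅f₂, f₁⁆ = 1 by rw [← commutatorElement_inv, N.cf, inv_one])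
      have c : ∀ {a f : G}, f ∈ centralizer {a} → ∀ v : V, a • f • v = f • a • v := fun hf v => by
        rw [← mul_smul, ← mem_centralizer_singleton_iff.mp hf, mul_smul]
      have e1 : ∀ v : V, i • i • v = -v := fun v => by
        rw [← mul_smul, hii, h.neg_of_invol hε h1 h2]
      have e2 : j • x = x + -(i • x) := by rw [← sub_eq_add_neg, eq_sub_iff_add_eq', hijx]
      have e3 : j • i • x = -x + -(i • x) := by
        rw [h.swe hε h1 h2 (show ⁅j, i⁆ = ε by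
          rw [← commutatorElement_inv, hij, inv_eq_iff_mul_eq_one, h2]), e2, smul_add, smul_neg, e1]
        abel
      have i1 : b₁ • i • x = i • x := smul_mem_fx_of_CF hi hx _ N.b1
      have i2 : b₂ • i • x = i • x := smul_mem_fx_of_CF hi hx _ N.b2
      simp [m3mAs, psi, h4, h.neg_of_invol hε h1 h2, h.swe hε h1 h2 N.c11,
        h.swe hε h1 h2 N.c22, sw1 N.c12, sw1 N.c21, cf, sq1 N.s1, sq1 N.s2, hx _ N.b1, hx _ N.b2,
        c N.d1.1, c N.d1.2, c N.d2.1, c N.d2.2, e1, e2, e3, i1, i2]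
    · refine h.nrm_gen hsq hε h1 h2 hM hM0 N [ε] [i, j] (fun u hu => ?_) (by simp [hi, hj])
        hc hc'
      rcases hZ u hu with rfl | rfl
      · exact ⟨[false], rfl, by simp [wd]⟩
      · exact ⟨[true], rfl, by simp [wd]⟩
  haveI := h.fn
  exact Md.st_many (Md.isSt h m3m_reg) h hG (cs := [m3ma, m3mb])
    (by simp [m3m_a, m3m_b]) m3m_bad

omit [Nontrivial V] in
theorem z_orbit {z₀ : G} (hgen : ∀ z ∈ Z, ∃ n : ℕ, z = z₀ ^ n) (S : Set G) (h1 : 1 ∈ S)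
    (h2 : ∀ u ∈ S, z₀ * u ∈ S) : ∀ z ∈ Z, z ∈ S := by
  intro z hz
  obtain ⟨n, rfl⟩ := hgen z hz
  clear hz
  induction n with
  | zero => simpa using h1
  | succ n ih => rw [pow_succ']; exact h2 _ ih

theorem cyc_case {p : ℕ} (hp : p.Prime) (hp2 : p ≠ 2) (hG : (Nat.card G).Coprime p)
    (hV : ∀ v : V, p • v = 0) {M : Subgroup G} (hM : MaxSt V F M) (hc : CF F M ≤ M ⊔ Z) :
    ∃ b : Fin 2 → V, IsBase G b := by
  have h2 := two_of_odd hp hp2 hV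
  obtain ⟨x, hx, hx0⟩ := exists_ne_zero_mem hM.2.1
  have hst := hM.isSt hx hx0
  obtain ⟨z₀, hz₀, hgen⟩ := h.exists_gen
  have hzx := smul_mem_fx_of_CF (h.z_le_CF hM.1 hz₀) hx
  have hkp : KP F M x (z₀ • x) := fun g hg hg' => hc.trans (h.kill_of_gen hst hz₀ hgen hg hg')
  have hw : WSt V F M := ⟨x, _, hst, hzx, hkp⟩
  by_cases h0 : M = ⊥
  · exact h.base_of_kp hx0 (h0 ▸ hkp)
  obtain ⟨u, hu, hu1⟩ : ∃ u ∈ M, u ∉ (⊥ : Subgroup G) :=
    SetLike.not_le_iff_exists.mp (fun e => h0 (le_bot_iff.mp e))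
  obtain ⟨l, hl, b, hb, hb1, hbl⟩ := h.exists_prime_elt hM.1 hM.2.1 hu hu1
  obtain ⟨B, f, hs⟩ := h.exists_compl hM.1 hM.2.1 hb (fun e => hb1 (mem_bot.mpr e)) hl hbl
  by_cases hl2 : l = 2
  swap
  · exact h.base_of_st h2 (h.odd_st hs hl2 h2 hw)
  subst hl2
  by_cases h4 : z₀ ^ 4 = 1
  swap
  · exact h.base_of_st h2 (h.two_st_big hs hst hc hz₀ hgen h4)
  have hsq : ∀ f ∈ F, f * f ∈ Z := fun f hf => h.sq_mem (fun z hz => by
    obtain ⟨n, rfl⟩ := hgen z hz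
    rw [← pow_mul, mul_comm, pow_mul, h4, one_pow]) hf
  have hε := h.comm _ (hM.1 hb) _ hs.fC.1
  have hε1 := hs.fne
  have hε2 : ⁅b, f⁆ * ⁅b, f⁆ = 1 := by rw [← pow_two]; exact h.step_pow hs hs.fC.1
  generalize ⁅b, f⁆ = ε at hε hε1 hε2
  clear hs hb hb1 hbl hu hu1 b f u B
  have hneg := h.neg_of_invol hε hε1 hε2
  have hZ : ∀ z ∈ Z, z = 1 ∨ z = ε ∨ z = z₀ ∨ z = z₀ * ε := by
    apply h.z_orbit hgen {z | z = 1 ∨ z = ε ∨ z = z₀ ∨ z = z₀ * ε} (Or.inl rfl)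
    have k := h.invol_cases hε hε1 hε2 (mul_mem hz₀ hz₀) (by
      rw [← pow_two z₀, ← pow_add, h4])
    rintro _ (rfl | rfl | rfl | rfl)
    · simp
    · simp
    · rcases k with k | k <;> simp [k]
    · rw [← mul_assoc]; rcases k with k | k <;> simp [k, hε2]
  have hC : ∀ c ∈ CF F M, c • x = x ∨ c • x = -x ∨ c • x = z₀ • x ∨ c • x = -(z₀ • x) := by
    intro c hcC
    obtain ⟨z, hz, m, hm, rfl⟩ := h.dec_sup (hc hcC)
    rw [mul_smul, hx m hm]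
    rcases hZ z hz with rfl | rfl | rfl | rfl <;> simp [hneg, mul_smul]
  by_cases ha : ∃ a : ℤ, z₀ • x = a • x
  swap
  · push Not at ha
    refine h.base_of_st h2 ⟨x, z₀ • x + x, hst, add_mem hzx hx, fun g hg hg' =>
      hkp g hg (by rwa [smul_add, hg, add_left_inj] at hg'), fun e => ha (-1) ?_, fun c hcC e => ?_⟩
    · rw [neg_smul, one_smul]; exact eq_neg_of_add_eq_zero_left e
    rcases hC c hcC with k | k | k | k <;> rw [k] at e
    · exact ha 0 (by simpa using e)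
    · exact ha (-2) (by rw [eq_sub_of_add_eq e.symm]; abel)
    · exact hx0 (by simpa using e)
    · obtain ⟨k, hk⟩ := hp.odd_of_ne_two hp2
      apply ha k
      rw [← sub_eq_zero]
      apply h2
      have k1 := hV x
      rw [hk, add_smul, one_smul, mul_smul, two_smul] at k1
      rw [natCast_zsmul, neg_sub, sub_eq_sub_iff_add_eq_add, eq_neg_of_add_eq_zero_left k1,
        eq_comm, ← sub_eq_zero, ← sub_eq_zero.mpr e.symm]
      abel
  obtain ⟨a, ha⟩ := ha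
  by_cases h5 : ∀ c ∈ CF F M, c • x ≠ 2 • x
  · exact h.base_of_st h2 ⟨x, 2 • x, hst, nsmul_mem hx 2, fun g hg _ =>
      hkp g hg (by rw [ha, smul_comm, hg]), fun e => hp2
        ((Nat.prime_dvd_prime_iff_eq hp Nat.prime_two).mp (dvd_of_smul hp hV hx0 e)), h5⟩
  push Not at h5
  obtain ⟨c, hcC, hcx⟩ := h5
  obtain ⟨z, hz, m, hm, rfl⟩ := h.dec_sup (hc hcC)
  rw [mul_smul, hx m hm] at hcx
  by_cases h3 : p = 3
  · subst h3
    have hZ' : ∀ z ∈ Z, z = 1 ∨ z = ε := by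
      have k : z₀ = 1 ∨ z₀ = ε := by
        have k1 : ((3 : ℕ) : ℤ) • x = 0 := by rw [natCast_zsmul]; exact hV x
        rw [← Int.emod_add_mul_ediv a 3, add_smul, mul_comm, mul_smul] at ha
        erw [k1] at ha
        rw [smul_zero, add_zero] at ha
        have k2 : a % 3 = 0 ∨ a % 3 = 1 ∨ a % 3 = 2 := by omega
        rcases k2 with k2 | k2 | k2 <;> rw [k2] at ha
        · exact absurd ((smul_eq_zero_iff_eq _).mp (by simpa using ha)) hx0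
        · exact Or.inl (h.semi _ hz₀ x (by simpa using ha) hx0)
        · refine Or.inr (h.z_inj hz₀ hε hx0 ?_)
          rw [ha, hneg, eq_neg_iff_add_eq_zero, ← k1]; push_cast; abel
      intro z hz
      rcases hZ z hz with rfl | rfl | rfl | rfl
      · simp
      · simp
      · exact k
      · rcases k with k | k <;> simp [k, hε2]
    rcases h.two_gens hsq hε hε1 hε2 hw (D := ⊤) le_top (fun f _ => ⟨1, one_mem _, trivial⟩)
      (fun f hf _ => hZ' _ (hsq f hf)) with k | ⟨b₁, b₂, f₁, f₂, N⟩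
    · exact k
    · exact h.base_of_st h2 (h.model3p hG hV hsq hε hε1 hε2 hM.1 N hc hx hx0 hZ')
  have n3 : 3 • x ≠ 0 := fun e => h3
    ((Nat.prime_dvd_prime_iff_eq hp Nat.prime_three).mp (dvd_of_smul hp hV hx0 e))
  have n1 : z ≠ 1 := by
    rintro rfl
    rw [one_smul, two_smul, left_eq_add] at hcx
    exact hx0 hcx
  have n2 : z ≠ ε := by
    rintro rfl
    rw [hneg] at hcx
    exact n3 (by rw [show 3 = 2 + 1 from rfl, add_smul, ← hcx]; simp)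
  have hZ' : ∀ u ∈ Z, u = 1 ∨ u = ε ∨ u = z ∨ u = z * ε := by
    intro u hu
    rcases hZ z hz with k | k | k | k
    · exact absurd k n1
    · exact absurd k n2
    · rw [k]; exact hZ u hu
    · rw [k, mul_assoc, hε2, mul_one]
      have := hZ u hu
      tauto
  have hzz : z • z • x = 4 • x := by
    rw [hcx, smul_comm, hcx, ← mul_smul]; rfl
  have hz2 : z • z • x = -x := by
    rcases h.invol_cases hε hε1 hε2 (mul_mem hz hz) (by
      obtain ⟨n, rfl⟩ := hgen z hz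
      rw [← pow_two (z₀ ^ n), ← pow_add, ← pow_mul, mul_comm, pow_mul, h4, one_pow]) with k | k
    · rw [← mul_smul, k, one_smul, show 4 = 3 + 1 from rfl, add_smul, one_smul,
        right_eq_add] at hzz
      exact absurd hzz n3
    · rw [← mul_smul, k, hneg]
  obtain rfl : p = 5 := (Nat.prime_dvd_prime_iff_eq hp Nat.prime_five).mp
    (dvd_of_smul hp hV hx0 (by rw [show 5 = 4 + 1 from rfl, add_smul, ← hzz, hz2]; simp))
  have hgen' : ∀ u ∈ Z, ∃ n : ℕ, u = z ^ n := by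
    have k : z ^ 2 = ε := h.z_inj (pow_mem hz 2) hε hx0 (by rw [pow_two, mul_smul, hz2, hneg])
    intro u hu
    rcases hZ' u hu with rfl | rfl | rfl | rfl
    exacts [⟨0, by simp⟩, ⟨2, k.symm⟩, ⟨1, by simp⟩, ⟨3, by rw [← k, ← pow_succ']⟩]
  by_cases hs2 : ∀ f ∈ F, f ∉ CF F M → f * f = 1 ∨ f * f = ε
  · rcases h.two_gens hsq hε hε1 hε2 hw (D := ⊤) le_top (fun f _ => ⟨1, one_mem _, trivial⟩)
      hs2 with k | ⟨b₁, b₂, f₁, f₂, N⟩
    · exact k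
    · exact h.base_of_st h2 (h.model5 hV hsq hε hε1 hε2 hM.1 N hc hx hx0 hz hcx hZ')
  push Not at hs2
  obtain ⟨f, hf, hfC, k1, k2⟩ := hs2
  obtain ⟨b, hb, hbf⟩ : ∃ b ∈ M, ⁅b, f⁆ ≠ 1 := by
    by_contra k
    push Not at k
    exact hfC ⟨hf, fun b hb => commutatorElement_eq_one_iff_mul_comm.mp (k b hb)⟩
  refine h.base_of_st h2 (h.two_st_cyc (h.step_of hsq hM.1 hM.2.1 hb hf hbf) hst hc hz hgen' ?_ ?_)
  · rw [hz2, ← mul_smul, ← hneg]
    exact fun e => k2 (h.z_inj (hsq f hf) hε hx0 e)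
  · rw [hz2, ← mul_smul, neg_neg]
    exact fun e => k1 (h.semi _ (hsq f hf) x e hx0)

omit [Nontrivial V] in
theorem pw {t : G} (ht : t * t ∈ Z) (a : ℕ) :
    ∃ z ∈ Z, ∃ α : Bool, (t ^ a)⁻¹ = z * (if α then t else 1) := by
  induction a with
  | zero => exact ⟨1, one_mem _, false, by simp⟩
  | succ a ih =>
    obtain ⟨z, hz, α, e⟩ := ih
    rw [pow_succ', mul_inv_rev, e]
    cases α
    · exact ⟨z * (t * t)⁻¹, mul_mem hz (inv_mem ht), true, by simp [mul_assoc]⟩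
    · exact ⟨z, hz, false, by simp⟩

omit [Nontrivial V] in
theorem q8_dec {M : Subgroup G} (hM : M ≤ F) {i j : G} (hi : i ∈ CF F M) (hj : j ∈ CF F M)
    (hii : i * i ∈ Z) (hjj : j * j ∈ Z) (hd : ∀ u ∈ CF F M, ∃ a b : ℕ, u * i ^ a * j ^ b ∈ M ⊔ Z) :
    ∀ c ∈ CF F M, ∃ z ∈ Z, ∃ n : Wrd, n.length = 2 ∧ ∃ m ∈ M, c = z * (wd [i, j] n * m) := by
  intro c hc
  obtain ⟨a, b, hab⟩ := hd c hc
  obtain ⟨z, hz, m, hm, e⟩ := h.dec_sup hab
  obtain ⟨z₁, hz₁, β, e₁⟩ := h.pw hjj b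
  obtain ⟨z₂, hz₂, α, e₂⟩ := h.pw hii a
  have hI : (if α then i else 1) ∈ CF F M := by split_ifs; exacts [hi, one_mem _]
  have hJ : (if β then j else 1) ∈ CF F M := by split_ifs; exacts [hj, one_mem _]
  refine ⟨z * z₁ * z₂ * ⁅if β then j else 1, if α then i else 1⁆, mul_mem (mul_mem (mul_mem hz hz₁)
    hz₂) (h.comm _ hJ.1 _ hI.1), [α, β], rfl, m, hm, ?_⟩
  rw [← eq_mul_inv_iff_mul_eq, ← eq_mul_inv_iff_mul_eq, e₁, e₂] at e
  simp only [wd]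
  generalize (if α then i else 1) = I at hI e
  generalize (if β then j else 1) = J at hJ e
  have c1 := (h.commute hz₁ (hM hm)).symm
  have c2 : Commute m J := hJ.2 m hm
  have c3 := (h.commute hz₂ (hM hm)).symm
  have c4 : Commute m I := hI.2 m hm
  have c5 := (h.commute hz₂ hJ.1).symm
  calc c = z * (z₁ * (z₂ * (J * (I * m)))) := by
        rw [e]; simp only [mul_assoc]
        rw [c1.left_comm, c2.left_comm, c3.left_comm, c4.eq, c5.left_comm]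
    _ = _ := by simp only [commutatorElement_def]; group

omit [Nontrivial V] in
theorem q8_vec {p : ℕ} (hV : ∀ v : V, p • v = 0) {M : Subgroup G} (hM0 : fx V M ≠ ⊥) {i j ε : G}
    (hi : i ∈ CF F M) (hj : j ∈ CF F M) (hε : ε ∈ Z) (h1 : ε ≠ 1) (h2 : ε * ε = 1)
    (hii : i * i = ε) (hjj : j * j = ε) (hij : ⁅i, j⁆ = ε) {a b : ℕ} (hab : p ∣ a * a + b * b + 1) :
    ∃ x ∈ fx V M, x ≠ 0 ∧ a • i • x + b • j • x = x := by
  obtain ⟨w, hw, hw0⟩ := exists_ne_zero_mem hM0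
  have e1 : ∀ v : V, i • i • v = -v := fun v => by rw [← mul_smul, hii, h.neg_of_invol hε h1 h2]
  have e2 : ∀ v : V, j • j • v = -v := fun v => by rw [← mul_smul, hjj, h.neg_of_invol hε h1 h2]
  have e3 : ∀ v : V, j • i • v = -(i • j • v) := h.swe hε h1 h2 (by
    rw [← commutatorElement_inv, hij, inv_eq_iff_mul_eq_one, h2])
  have e4 : ∀ (g : G) (n : ℕ) (v : V), g • n • v = n • g • v := fun g n v => smul_comm _ _ _
  by_cases h0 : w + (a • i • w + b • j • w) = 0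
  · refine ⟨i • j • w, smul_mem_fx_of_CF hi (smul_mem_fx_of_CF hj hw), fun e =>
      hw0 ((smul_eq_zero_iff_eq _).mp ((smul_eq_zero_iff_eq _).mp e)), ?_⟩
    have := congrArg (fun v => i • j • v) h0
    simp only [smul_add, e4, e1, e2, e3, smul_neg, smul_zero, neg_neg] at this ⊢
    rw [← sub_eq_zero, ← neg_eq_zero, ← this]; abel
  · refine ⟨_, add_mem hw (add_mem (nsmul_mem (smul_mem_fx_of_CF hi hw) a)
      (nsmul_mem (smul_mem_fx_of_CF hj hw) b)), h0, ?_⟩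
    obtain ⟨k, hk⟩ := hab
    have e5 : (a * a + b * b + 1) • w = 0 := by rw [hk, mul_smul, hV]
    simp only [smul_add, e4, e1, e2, e3, smul_neg, smul_zero, neg_neg, add_smul, mul_smul,
      one_smul] at e5 ⊢
    rw [smul_comm b a, ← sub_eq_zero, ← neg_eq_zero, ← e5]; abel

theorem q8_main {p : ℕ} (hp : p.Prime) (hp2 : p ≠ 2) (hG : (Nat.card G).Coprime p)
    (hV : ∀ v : V, p • v = 0) {M : Subgroup G} (hM : MaxSt V F M) {i j ε : G}
    (hi : i ∈ CF F M) (hj : j ∈ CF F M) (hε : ε ∈ Z) (h1 : ε ≠ 1) (h2 : ε * ε = 1)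
    (hii : i * i = ε) (hij : ⁅i, j⁆ = ε)
    (hd : ∀ c ∈ CF F M, ∃ z ∈ Z, ∃ n : Wrd, n.length = 2 ∧ ∃ m ∈ M, c = z * (wd [i, j] n * m))
    {a b : ℕ} (hb : ¬ p ∣ b) {x : V} (hx : x ∈ fx V M) (hx0 : x ≠ 0)
    (hab : a • i • x + b • j • x = x) {z₀ : G} (hz₀ : z₀ ∈ Z) (hgen : ∀ z ∈ Z, ∃ n : ℕ, z = z₀ ^ n) :
    WSt V F M ∧ ∀ (s : Fin 4 → ℤ) (c : Fin 4 → ℕ), (∀ k, s k = 1 ∨ s k = -1) →
      Function.Injective (fun k => s k • z₀ • x + c k • x) → St V F M := by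
  haveI := h.fn
  haveI := h.zn
  have hst := hM.isSt hx hx0
  have hb' : ∀ v : V, b • v = 0 → v = 0 := fun v hv => by
    by_contra h0; exact hb (dvd_of_smul hp hV h0 hv)
  let L : AddSubgroup V := AddSubgroup.closure {v | ∃ z ∈ Z, z • x = v}
  let S : Subgroup G :=
    { carrier := {g | ∃ z ∈ Z, g • x = z • x}
      one_mem' := ⟨1, one_mem _, rfl⟩
      mul_mem' := by
        rintro g g' ⟨z, hz, e⟩ ⟨z', hz', e'⟩
        exact ⟨g * z' * g⁻¹ * z, mul_mem (h.zn.conj_mem _ hz' g) hz, by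
          rw [mul_smul, e', mul_smul _ z, ← e, mul_smul, mul_smul, inv_smul_smul]⟩
      inv_mem' := by
        rintro g ⟨z, hz, e⟩
        exact ⟨g⁻¹ * z⁻¹ * g⁻¹⁻¹, h.zn.conj_mem _ (inv_mem hz) _, by
          rw [inv_inv, mul_smul, mul_smul, e, inv_smul_smul]⟩ }
  have hLS : ∀ g : S, ∀ v ∈ L, g • v ∈ L := by
    rintro ⟨g, z, hz, e⟩ v hv
    show g • v ∈ L
    induction hv using AddSubgroup.closure_induction with
    | mem v hv =>
      obtain ⟨z', hz', rfl⟩ := hv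
      exact AddSubgroup.subset_closure ⟨g * z' * g⁻¹ * z, mul_mem (h.zn.conj_mem _ hz' g) hz, by
        rw [mul_smul _ z, ← e, mul_smul, mul_smul, inv_smul_smul]⟩
    | zero => rw [smul_zero]; exact zero_mem _
    | add u v _ _ hu hv => rw [smul_add]; exact add_mem hu hv
    | neg u _ hu => rw [smul_neg]; exact neg_mem hu
  obtain ⟨W, hWS, hLW, hsup⟩ := cr_of_exp hp
    (Nat.Coprime.coprime_dvd_left (card_subgroup_dvd_card S) hG) hV L hLS
  have hdec : ∀ v : V, ∃ l ∈ L, ∃ w ∈ W, l + w = v := fun v =>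
    AddSubgroup.mem_sup.mp (hsup ▸ AddSubgroup.mem_top v)
  have huniq : ∀ {l l' w w' : V}, l ∈ L → l' ∈ L → w ∈ W → w' ∈ W → l + w = l' + w' →
      l = l' ∧ w = w' := by
    intro l l' w w' a1 a2 a3 a4 e
    have k : l - l' ∈ L ⊓ W := ⟨L.sub_mem a1 a2, by
      rw [show l - l' = w' - w by rw [sub_eq_sub_iff_add_eq_add, e, add_comm]]; exact W.sub_mem a4 a3⟩
    rw [hLW, AddSubgroup.mem_bot, sub_eq_zero] at k
    exact ⟨k, by rwa [k, add_right_inj] at e⟩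
  have hxL : ∀ z ∈ Z, z • x ∈ L := fun z hz => AddSubgroup.subset_closure ⟨z, hz, rfl⟩
  have hxL1 : x ∈ L := by simpa using hxL 1 (one_mem _)
  have hLM : L ≤ fx V M := (AddSubgroup.closure_le _).mpr (by
    rintro _ ⟨z, hz, rfl⟩; exact smul_mem_fx_of_CF (h.z_le_CF hM.1 hz) hx)
  obtain ⟨l, hl, w, hw, hlw⟩ := hdec (i • x)
  have hwM : w ∈ fx V M := by
    rw [eq_sub_of_add_eq' hlw]; exact sub_mem (smul_mem_fx_of_CF hi hx) (hLM hl)
  have hkp : ∀ l' ∈ L, (∀ g : G, g • x = x → g • l' = l' → g • z₀ • x = z₀ • x) →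
      KP F M x (l' + w) := by
    intro l' hl' hP g hg hg'
    let g' : S := ⟨g, 1, one_mem _, by simpa using hg⟩
    rw [smul_add] at hg'
    obtain ⟨k1, k2⟩ := huniq (hLS g' _ hl') hl' (hWS g' _ hw) hw hg'
    have k3 := h.kill_of_gen hst hz₀ hgen hg (hP g hg k1)
    have k4 : ∀ v ∈ L, g • v = v := by
      intro v hv
      induction hv using AddSubgroup.closure_induction with
      | mem v hv =>
        obtain ⟨z', hz', rfl⟩ := hv
        exact KS.smul (k3 (mem_sup_right hz')) hx hg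
      | zero => exact smul_zero _
      | add u v _ _ hu hv => rw [smul_add, hu, hv]
      | neg u _ hu => rw [smul_neg, hu]
    have k5 : g • i • x = i • x := by rw [← hlw, smul_add, k4 l hl]; exact congrArg _ k2
    have k6 : g • j • x = j • x := by
      rw [← sub_eq_zero]
      apply hb'
      have := congrArg (g • ·) hab
      simp only [smul_add, smul_comm g a, smul_comm g b, k5, hg] at this
      rw [smul_sub, sub_eq_zero]
      exact add_left_cancel (this.trans hab.symm)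
    intro c hc
    obtain ⟨z, hz, n, -, m, hm, rfl⟩ := hd c hc
    exact mul_mem (k3 (mem_sup_right hz)) (mul_mem (wd_mem _ _ (by
      simp [hst.mem_KS hg hi k5, hst.mem_KS hg hj k6])) (k3 (mem_sup_left hm)))
  refine ⟨⟨x, _, hst, add_mem (hLM (hxL _ hz₀)) hwM, hkp _ (hxL _ hz₀) (fun _ _ e => e)⟩,
    fun s c hs hinj => ?_⟩
  have hw0 : w ≠ 0 := by
    rintro rfl
    rw [add_zero] at hlw
    have k : ∀ v ∈ L, ∃ r : V →+ V, (∀ f ∈ F, ∀ u, r (f • u) = f • r u) ∧ r x = v := by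
      intro v hv
      induction hv using AddSubgroup.closure_induction with
      | mem v hv =>
        obtain ⟨z', hz', rfl⟩ := hv
        exact ⟨DistribMulAction.toAddMonoidHom V z', fun f hf u => sw1 (h.comm_z_left hz' hf) u, rfl⟩
      | zero => exact ⟨0, fun f _ u => by simp, rfl⟩
      | add u v _ _ hu hv =>
        obtain ⟨r, a1, a2⟩ := hu
        obtain ⟨r', a3, a4⟩ := hv
        exact ⟨r + r', fun f hf u => by simp [a1 f hf, a3 f hf], by simp [a2, a4]⟩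
      | neg u _ hu =>
        obtain ⟨r, a1, a2⟩ := hu
        exact ⟨-r, fun f hf u => by simp [a1 f hf], by simp [a2]⟩
    obtain ⟨r, a1, a2⟩ := k l hl
    rw [hlw] at a2
    have k1 := congrArg r hab
    have k2 := congrArg (i • ·) hab
    simp only [map_add, map_nsmul, a1 i hi.1, a1 j hj.1, a2] at k1
    simp only [smul_add, smul_comm i a, smul_comm i b] at k2
    have k3 := add_left_cancel (k1.trans k2.symm)
    rw [h.swe hε h1 h2 hij, smul_neg] at k3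
    exact hx0 ((smul_eq_zero_iff_eq _).mp ((smul_eq_zero_iff_eq _).mp
      (hb' _ (two_of_odd hp hp2 hV _ k3.symm))))
  have hsL : ∀ k, s k • z₀ • x + c k • x ∈ L := fun k =>
    add_mem (zsmul_mem (hxL _ hz₀) _) (nsmul_mem hxL1 _)
  by_contra hn
  have key : ∀ k, ∃ n : Bool × Bool, ∃ z ∈ Z,
      z • wd [i, j] [n.1, n.2] • x = s k • z₀ • x + c k • x + w := by
    intro k
    by_contra hk
    push Not at hk
    refine hn ⟨x, _, hst, add_mem (hLM (hsL k)) hwM, hkp _ (hsL k) (fun g hg e => ?_), fun e => ?_,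
      fun u hu e => ?_⟩
    · rw [smul_add, smul_comm g (c k), hg, add_left_inj] at e
      rcases hs k with k1 | k1 <;> simpa [k1] using e
    · exact hw0 (huniq (hsL k) (zero_mem _) hw (zero_mem _) (by rw [e, add_zero])).2
    · obtain ⟨z, hz, n, hn2, m, hm, rfl⟩ := hd u hu
      match n, hn2 with
      | [α, β], _ => exact hk (α, β) z hz (by rw [← e, mul_smul, mul_smul _ m, hx m hm])
  choose n z hz hnz using key
  have hinj' : Function.Injective n := by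
    intro k k' e
    apply hinj
    obtain ⟨l', hl', w', hw', e'⟩ := hdec (wd [i, j] [(n k).1, (n k).2] • x)
    have a1 := hnz k
    have a2 := hnz k'
    rw [← e] at a2
    rw [← e', smul_add] at a1 a2
    have hS : ∀ k, z k ∈ S := fun k => ⟨z k, hz k, rfl⟩
    obtain ⟨b1, b2⟩ := huniq (hLS ⟨_, hS k⟩ _ hl') (hsL k) (hWS ⟨_, hS k⟩ _ hw') hw a1
    obtain ⟨b3, b4⟩ := huniq (hLS ⟨_, hS k'⟩ _ hl') (hsL k') (hWS ⟨_, hS k'⟩ _ hw') hw a2
    have b5 : z k = z k' := h.z_inj (hz k) (hz k') (v := w') (fun e => hw0 (by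
      rw [← b2, e, smul_zero])) (b2.trans b4.symm)
    show s k • z₀ • x + c k • x = s k' • z₀ • x + c k' • x
    rw [← b1, ← b3]
    show z k • l' = z k' • l'
    rw [b5]
  obtain ⟨k, hk⟩ := ((Fintype.bijective_iff_injective_and_card n).mpr ⟨hinj', by simp⟩).2
    (false, false)
  have a1 := hnz k
  rw [hk] at a1
  exact hw0 (huniq (hxL _ (hz k)) (hsL k) (zero_mem _) hw (by simpa [wd] using a1)).2.symm

theorem q8_case {p : ℕ} (hp : p.Prime) (hp2 : p ≠ 2) (hG : (Nat.card G).Coprime p)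
    (hV : ∀ v : V, p • v = 0) {M : Subgroup G} (hM : MaxSt V F M) (hc : ¬ CF F M ≤ M ⊔ Z) :
    ∃ b : Fin 2 → V, IsBase G b := by
  haveI := Fact.mk hp
  have h2 := two_of_odd hp hp2 hV
  obtain ⟨i, hi, j, hj, ε, hε, h1, hε2, hii, hjj, hij, -, hd⟩ := (h.struct hM).resolve_left hc
  replace hd := h.q8_dec hM.1 hi hj (hii ▸ hε) (hjj ▸ hε) hd
  obtain ⟨z₀, hz₀, hgen⟩ := h.exists_gen
  by_cases h3 : p = 3
  · subst h3
    obtain ⟨x, hx, hx0, hab⟩ := h.q8_vec hV hM.2.1 hi hj hε h1 hε2 hii hjj hij (a := 1) (b := 1)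
      (by norm_num)
    obtain ⟨hw, hs⟩ := h.q8_main hp hp2 hG hV hM hi hj hε h1 hε2 hii hij hd (by norm_num) hx hx0 hab
      hz₀ hgen
    by_cases hz : z₀ * z₀ = 1
    · have hZ : ∀ z ∈ Z, z = 1 ∨ z = ε := fun z hz' => h.invol_cases hε h1 hε2 hz' (by
        obtain ⟨n, rfl⟩ := hgen z hz'
        rw [← (Commute.refl _).mul_pow, hz, one_pow])
      have hsq : ∀ f ∈ F, f * f ∈ Z := fun f hf => h.sq_mem (fun z hz => by
        rw [show 4 = 2 * 2 from rfl, pow_mul, pow_two z]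
        rcases hZ z hz with rfl | rfl <;> simp [hε2]) hf
      have hji : ⁅j, i⁆ = ε := by rw [← commutatorElement_inv, hij, inv_eq_iff_mul_eq_one, hε2]
      have hD : ∀ f ∈ F, ∃ c ∈ CF F M, f * c ∈ centralizer {i} ⊓ centralizer {j} := by
        intro f hf
        have k : ∀ c ∈ CF F M, ⁅f, i⁆ * ⁅c, i⁆ = 1 → ⁅f, j⁆ * ⁅c, j⁆ = 1 →
            ∃ c ∈ CF F M, f * c ∈ centralizer {i} ⊓ centralizer {j} := fun c hc e1 e2 =>
          ⟨c, hc, mem_centralizer_singleton_iff.mpr (commutatorElement_eq_one_iff_mul_comm.mp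
            (by rw [h.comm_mul_left hf hc.1 hi.1, e1])), mem_centralizer_singleton_iff.mpr
            (commutatorElement_eq_one_iff_mul_comm.mp (by rw [h.comm_mul_left hf hc.1 hj.1, e2]))⟩
        rcases h.comm_cases hsq hε h1 hε2 hf hi.1 with e1 | e1 <;>
          rcases h.comm_cases hsq hε h1 hε2 hf hj.1 with e2 | e2
        · exact k 1 (one_mem _) (by simp [e1]) (by simp [e2])
        · exact k i hi (by simp [e1]) (by simp [e2, hij, hε2])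
        · exact k j hj (by simp [e1, hji, hε2]) (by simp [e2])
        · exact k (i * j) (mul_mem hi hj) (by simp [e1, h.comm_mul_left hi.1 hj.1 hi.1, hji, hε2])
            (by simp [e2, h.comm_mul_left hi.1 hj.1 hj.1, hij, hε2])
      rcases h.two_gens hsq hε h1 hε2 hw (D := centralizer {i} ⊓ centralizer {j})
        (fun m hm => ⟨mem_centralizer_singleton_iff.mpr (hi.2 m hm),
          mem_centralizer_singleton_iff.mpr (hj.2 m hm)⟩) hD
        (fun f hf _ => hZ _ (hsq f hf)) with k | ⟨b₁, b₂, f₁, f₂, N⟩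
      · exact k
      · exact h.base_of_st h2 (h.model3m hG hV hsq hε h1 hε2 hM.1 N hi hj hii hij hd hx hx0
          (by simpa using hab) hZ)
    · refine h.base_of_st h2 (hs ![1, 1, 1, -1] ![0, 1, 2, 0] (fun k => by fin_cases k <;> simp) ?_)
      have h4 : ∀ v : V, (2 : ℕ) • v = -v := fun v => eq_neg_of_add_eq_zero_left (by
        rw [← hV v, show 3 = 2 + 1 from rfl, add_smul, one_smul])
      have h5 : ∀ v : V, -v = v + v := fun v => by rw [← h4, two_smul]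
      have n1 : z₀ • x ≠ 0 := fun e => hx0 ((smul_eq_zero_iff_eq _).mp e)
      have n2 : z₀ • x ≠ x := fun e => hz (by rw [h.semi _ hz₀ x e hx0, one_mul])
      have n3 : z₀ • x ≠ -x := fun e => hz (by
        rw [h.z_inj hz₀ hε hx0 (e.trans (h.neg_of_invol hε h1 hε2 x).symm), hε2])
      have n4 : x ≠ -x := fun e => hx0 (h2 x e.symm)
      intro k k' e
      fin_cases k <;> fin_cases k' <;>
        simp [h4, h5 (z₀ • x), n1, n2, n3, n4, hx0, n1.symm, n2.symm, n3.symm, n4.symm] at e ⊢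
  · obtain ⟨a, b, hab, hb⟩ : ∃ a b : ℕ, p ∣ a * a + b * b + 1 ∧ ¬ p ∣ b := by
      obtain ⟨a, b, e⟩ := ZMod.sq_add_sq p (-1)
      have k : ∀ a b : ZMod p, a ^ 2 + b ^ 2 = -1 → p ∣ a.val * a.val + b.val * b.val + 1 := by
        intro a b e
        rw [← ZMod.natCast_eq_zero_iff]
        push_cast
        rw [ZMod.natCast_zmod_val, ZMod.natCast_zmod_val, ← pow_two, ← pow_two, e, neg_add_cancel]
      by_cases hb : b = 0
      · refine ⟨b.val, a.val, k _ _ (by rw [add_comm, e]), fun hd => ?_⟩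
        rw [← ZMod.natCast_eq_zero_iff, ZMod.natCast_zmod_val] at hd
        simp [hb, hd] at e
      · exact ⟨a.val, b.val, k _ _ e, fun hd => hb (by
          rwa [← ZMod.natCast_eq_zero_iff, ZMod.natCast_zmod_val] at hd)⟩
    obtain ⟨x, hx, hx0, hab⟩ := h.q8_vec hV hM.2.1 hi hj hε h1 hε2 hii hjj hij hab
    refine h.base_of_st h2 ((h.q8_main hp hp2 hG hV hM hi hj hε h1 hε2 hii hij hd hb hx hx0 hab
      hz₀ hgen).2 (fun _ => 1) (fun k => k) (fun _ => Or.inl rfl) (fun k k' e => ?_))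
    have h4 : 4 ≤ addOrderOf x := by
      rw [addOrderOf_eq_prime (hV x) hx0]
      have := hp.two_le
      have h5 : p ≠ 4 := fun e => by rw [e] at hp; exact absurd hp (by norm_num)
      omega
    exact Fin.ext (nsmul_injOn_Iio_addOrderOf (x := x) (lt_of_lt_of_le k.2 h4)
      (lt_of_lt_of_le k'.2 h4) (add_left_cancel e))

end QP

universe u

theorem MM_prime {p : ℕ} (hp : p.Prime) (hp2 : p ≠ 2) (n : ℕ) : MM.{u} p p (Fin 2) n := by
  intro G V _ _ _ _ _ _ hG hV _ Z F h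
  obtain ⟨M, hM⟩ := exists_maxSt (V := V) F
  by_cases hc : CF F M ≤ M ⊔ Z
  · exact h.cyc_case hp hp2 hG.2 hV hM hc
  · exact h.q8_case hp hp2 hG.2 hV hM hc

theorem TT_prime {p : ℕ} (hp : p.Prime) (hp2 : p ≠ 2) (n : ℕ) : TT.{u} p p (Fin 2) n := by
  induction n with
  | zero => exact TT_zero
  | succ n ih =>
    by_cases h3 : p = 3
    · subst h3
      exact TT_succ (CC_three n) (fun G V _ _ _ _ _ hG hV _ ⟨_, hb⟩ => many_vec_prime hp hG.2 hV hb)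
        (MM_prime hp hp2 _) ih
    · have h5 : 5 ≤ p := hp.five_le_of_ne_two_of_ne_three hp2 h3
      exact TT_succ (κ := Fin 5) (fun G Ω _ _ _ _ hc hG => CC_five n G Ω hc hG.one)
        (fun G V _ _ _ _ _ hG hV _ ⟨_, hb⟩ => (many_vec_prime hp hG.2 hV hb).mono (Fin.castLEEmb h5))
        (MM_prime hp hp2 _) ih

/-- two-point base for a solvable group acting coprimely on an elementary abelian group -/
theorem base_coprime {p : ℕ} (hp : p.Prime) (A : Type*) (V : Type u) [Group A] [Finite A]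
    [AddCommGroup V] [Finite V] [DistribMulAction A V] (hA : Cl p A) (hV : ∀ v : V, p • v = 0) :
    ∃ b : Fin 2 → V, IsBase A b := by
  by_cases hp2 : p = 2
  · subst hp2
    exact base_of_TT TT_odd A V hA (fun v => zero_smul _ v) (cr_of_exp hp hA.2 hV)
  · exact base_of_TT (TT_prime hp hp2) A V hA hV (cr_of_exp hp hA.2 hV)

end CfsgH1.BS
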