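import Cfsg.Agent.H1.Base10
import Cfsg.Agent.L0.PSolv

/-! Base sizes, part 11: coprime actions on arbitrary finite groups. -/

set_option autoImplicit false
set_option maxHeartbeats 400000
set_option linter.unusedSectionVars false
set_option linter.style.haveILetI false

namespace CfsgH1.BS

open Subgroup
open scoped commutatorElement IsMulCommutative

open Classical in
theorem transfer_aux {X L : Type*} [Finite X] [PartialOrder L] [Fintype L] (s : X → L) (B : L) :
    Nat.card {x // B ≤ s x} =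
      Nat.card {x // s x = B} + ∑ B' ∈ Finset.univ.filter (B < ·), Nat.card {x // s x = B'} := by
  haveI := Fintype.ofFinite X
  simp only [Nat.card_eq_fintype_card, Fintype.card_subtype]
  rw [Finset.card_eq_sum_card_fiberwise (f := s) (t := insert B (Finset.univ.filter (B < ·)))
    (fun x hx => by
      rcases eq_or_lt_of_le (Finset.mem_filter.mp hx).2 with e | e <;> simp [e]),
    Finset.sum_insert (by simp)]
  congr 1
  · congr 1; ext x; simp only [Finset.mem_filter, Finset.mem_univ, true_and]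
    exact ⟨fun h => h.2, fun h => ⟨h.ge, h⟩⟩
  · refine Finset.sum_congr rfl (fun B' hB' => ?_)
    congr 1; ext x; simp only [Finset.mem_filter, Finset.mem_univ, true_and]
    exact ⟨fun h => h.2, fun h => ⟨h ▸ (Finset.mem_filter.mp hB').2.le, h⟩⟩

theorem transfer {X Y L : Type*} [Finite X] [Finite Y] [PartialOrder L] [Finite L] (s : X → L)
    (t : Y → L) (h : ∀ B, Nat.card {x // B ≤ s x} = Nat.card {y // B ≤ t y}) (B : L) :
    Nat.card {x // s x = B} = Nat.card {y // t y = B} := by
  classical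
  haveI := Fintype.ofFinite L
  induction B using WellFoundedGT.induction with
  | ind B ih =>
    have h1 := h B
    rw [transfer_aux s, transfer_aux t,
      Finset.sum_congr rfl (fun B' hB' => ih B' (Finset.mem_filter.mp hB').2)] at h1
    exact Nat.add_right_cancel h1

theorem base_pgroup {A P : Type*} [Group A] [Finite A] [Group P] [Finite P] {p : ℕ}
    [hp : Fact p.Prime] (hP : IsPGroup p P) (hA : Cl p A) (φ : A →* MulAut P) :
    ∃ x y : P, ∀ a, φ a x = x → φ a y = y → ∀ u, φ a u = u := by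
  have hinv : ∀ a, ∀ x ∈ frattini P, φ a x ∈ frattini P := fun a x hx =>
    (characteristic_iff_le_comap.mp inferInstance (φ a)) hx
  haveI : IsMulCommutative (P ⧸ frattini P) := by
    constructor; constructor
    intro a b
    obtain ⟨a, rfl⟩ := QuotientGroup.mk_surjective a
    obtain ⟨b, rfl⟩ := QuotientGroup.mk_surjective b
    rw [← QuotientGroup.mk_mul, ← QuotientGroup.mk_mul, QuotientGroup.eq]
    simpa [commutatorElement_def, mul_assoc] using CfsgH2.comm_mem_frattini hP b⁻¹ a⁻¹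
  letI := addAct (CfsgH2.quotAut φ (frattini P) hinv)
  obtain ⟨b, hb⟩ := base_coprime hp.out A (Additive (P ⧸ frattini P)) hA (fun v => by
    obtain ⟨a, ha⟩ := QuotientGroup.mk_surjective v.toMul
    show Additive.ofMul (v.toMul ^ p) = Additive.ofMul 1
    rw [← ha, ← QuotientGroup.mk_pow, (QuotientGroup.eq_one_iff _).mpr (CfsgH2.pow_mem_frattini hP a)])
  obtain ⟨x, hx⟩ := QuotientGroup.mk_surjective (b 0).toMul
  obtain ⟨y, hy⟩ := QuotientGroup.mk_surjective (b 1).toMul
  refine ⟨x, y, fun a h1 h2 u => ?_⟩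
  have h3 := hb a (fun i => by
    fin_cases i
    · show Additive.ofMul (CfsgH2.quotAut φ (frattini P) hinv a (b 0).toMul) = b 0
      rw [← hx, CfsgH2.quotAut_mk, h1, hx]; rfl
    · show Additive.ofMul (CfsgH2.quotAut φ (frattini P) hinv a (b 1).toMul) = b 1
      rw [← hy, CfsgH2.quotAut_mk, h2, hy]; rfl)
  let D : Subgroup A :=
    { carrier := {a | ∀ u : P, u⁻¹ * φ a u ∈ frattini P}
      one_mem' := fun u => by simp
      mul_mem' := fun {a b} ha hb u => by
        simpa [mul_assoc] using mul_mem (hb u) (ha (φ b u))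
      inv_mem' := fun {a} ha u => by simpa using inv_mem (ha (φ a⁻¹ u)) }
  have h4 : a ∈ D := fun u => by
    have : (CfsgH2.quotAut φ (frattini P) hinv a (u : P ⧸ frattini P)) = u :=
      congrArg Additive.toMul (h3 (Additive.ofMul (u : P ⧸ frattini P)))
    exact QuotientGroup.eq.mp this.symm
  obtain ⟨k, hk⟩ := IsPGroup.iff_card.mp hP
  have h5 := CfsgH2.fixAut_eq_top_of_frattini (φ.comp D.subtype)
    (by rw [hk]; exact ((hA.subgroup D).2).pow_right k)
    (CfsgH2.commAut_le.mpr (fun x _ a => a.2 x))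
  exact (h5 ▸ mem_top u : u ∈ CfsgH2.fixAut (φ.comp D.subtype)) ⟨a, h4⟩

variable {G : Type*} [Group G] [Finite G]

theorem base_amb {A K : Subgroup G} (hn : A ≤ normalizer (K : Set G))
    (hc : (Nat.card A).Coprime (Nat.card K)) (hs : Group.IsSolvable A) :
    ∃ x ∈ K, ∃ y ∈ K, ∀ a ∈ A, a * x = x * a → a * y = y * a → a ∈ centralizer (K : Set G) := by
  classical
  have h1 : ∀ p : (Nat.card K).primeFactors, ∃ P : Subgroup G, CfsgH2.IsSylowOf p P K ∧
      A ≤ normalizer (P : Set G) ∧ ∃ x y : P, ∀ a ∈ A, a * x = x * a → a * y = y * a →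
        a ∈ centralizer (P : Set G) := by
    rintro ⟨p, hp⟩
    haveI := Fact.mk (Nat.prime_of_mem_primeFactors hp)
    obtain ⟨P, hP, hAP⟩ := CfsgH2.exists_invariant_sylow p hn hc (Or.inl hs)
    obtain ⟨x, y, hxy⟩ := base_pgroup hP.2.1
      ⟨hs, hc.coprime_dvd_right (Nat.dvd_of_mem_primeFactors hp)⟩ (CfsgH2.conjAut hAP)
    refine ⟨P, hP, hAP, x, y, fun a ha e1 e2 u hu => ?_⟩
    have := hxy ⟨a, ha⟩ (Subtype.ext (by simp [e1])) (Subtype.ext (by simp [e2])) ⟨u, hu⟩
    exact (mul_inv_eq_iff_eq_mul.mp (congrArg Subtype.val this)).symm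
  choose P hP hAP x y hxy using h1
  let s : K × K → Subgroup G := fun z => A ⊓ (centralizer {(z.1 : G)} ⊓ centralizer {(z.2 : G)})
  let t : (∀ p, P p × P p) → Subgroup G := fun z =>
    A ⊓ ⨅ p, (centralizer {((z p).1 : G)} ⊓ centralizer {((z p).2 : G)})
  have hsq : ∀ (H B : Subgroup G), Nat.card {z : H × H //
      B ≤ centralizer {(z.1 : G)} ⊓ centralizer {(z.2 : G)}} =
      Nat.card (H ⊓ centralizer (B : Set G) : Subgroup G) ^ 2 := by
    intro H B
    rw [pow_two, ← Nat.card_prod]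
    exact Nat.card_congr
      { toFun := fun z => (⟨z.1.1, z.1.1.2, fun b hb => mem_centralizer_singleton_iff.mp (z.2 hb).1⟩,
          ⟨z.1.2, z.1.2.2, fun b hb => mem_centralizer_singleton_iff.mp (z.2 hb).2⟩)
        invFun := fun z => ⟨(⟨z.1, z.1.2.1⟩, ⟨z.2, z.2.2.1⟩), fun b hb =>
          ⟨mem_centralizer_singleton_iff.mpr (z.1.2.2 b hb),
            mem_centralizer_singleton_iff.mpr (z.2.2.2 b hb)⟩⟩
        left_inv := fun _ => rfl
        right_inv := fun _ => rfl }
  have h2 := transfer s t (fun B => by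
    by_cases hB : B ≤ A
    swap
    · haveI : IsEmpty {z // B ≤ s z} := ⟨fun z => hB (z.2.trans inf_le_left)⟩
      haveI : IsEmpty {z // B ≤ t z} := ⟨fun z => hB (z.2.trans inf_le_left)⟩
      simp
    have e1 : Nat.card {z // B ≤ s z} = Nat.card (K ⊓ centralizer (B : Set G) : Subgroup G) ^ 2 := by
      rw [← hsq]
      exact Nat.card_congr (Equiv.subtypeEquivRight (fun z => by simp [s, hB]))
    have e2 : Nat.card {z // B ≤ t z} =
        ∏ p, Nat.card (P p ⊓ centralizer (B : Set G) : Subgroup G) ^ 2 := by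
      simp only [← hsq]
      rw [← Nat.card_pi]
      refine Nat.card_congr ((Equiv.subtypeEquivRight (fun z => ?_)).trans Equiv.subtypePiEquivPi)
      simp only [t, le_inf_iff, hB, true_and, le_iInf_iff]
    rw [e1, e2, Finset.prod_pow]
    congr 1
    have e3 : ∀ p : (Nat.card K).primeFactors,
        Nat.card (P p ⊓ centralizer (B : Set G) : Subgroup G) =
          (p : ℕ) ^ (Nat.card (K ⊓ centralizer (B : Set G) : Subgroup G)).factorization p := by
      intro p
      haveI := Fact.mk (Nat.prime_of_mem_primeFactors p.2)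
      exact (CfsgH2.IsSylowOf.inf_centralizer (hB.trans hn)
        (hc.coprime_dvd_left (card_dvd_of_le hB))
        (Or.inl (Group.isSolvable_of_isSolvable_injective (inclusion_injective hB))) (hP p)
        (hB.trans (hAP p))).card_eq
    simp only [e3]
    rw [Finset.prod_coe_sort (Nat.card K).primeFactors
      (fun p => p ^ (Nat.card (K ⊓ centralizer (B : Set G) : Subgroup G)).factorization p)]
    conv_lhs => rw [← Nat.factorization_prod_pow_eq_self (Nat.card_pos (α :=
      (K ⊓ centralizer (B : Set G) : Subgroup G))).ne']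
    exact Finsupp.prod_of_support_subset _
      (Nat.primeFactors_mono (card_dvd_of_le inf_le_left) Nat.card_pos.ne') _ (by simp))
    (t (fun p => (x p, y p)))
  haveI : Nonempty {z // t z = t (fun p => (x p, y p))} := ⟨⟨_, rfl⟩⟩
  obtain ⟨⟨z, hz⟩⟩ := (Nat.card_pos_iff.mp (h2.symm ▸ Nat.card_pos : 0 < Nat.card
    {z // s z = t (fun p => (x p, y p))})).1
  refine ⟨z.1, z.1.2, z.2, z.2.2, fun a ha e1 e2 => ?_⟩
  have h3 : a ∈ s z := ⟨ha, mem_centralizer_singleton_iff.mpr e1, mem_centralizer_singleton_iff.mpr e2⟩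
  rw [hz] at h3
  have h4 : K ≤ centralizer {a} := CfsgH2.le_of_forall_sylow (fun q hq hd => by
    let p : (Nat.card K).primeFactors := ⟨q, Nat.mem_primeFactors.mpr ⟨hq, hd, Nat.card_pos.ne'⟩⟩
    have h5 := mem_iInf.mp h3.2 p
    exact ⟨P p, hP p, fun u hu => mem_centralizer_singleton_iff.mpr
      (hxy p a ha (mem_centralizer_singleton_iff.mp h5.1) (mem_centralizer_singleton_iff.mp h5.2) u hu)⟩)
  exact fun u hu => mem_centralizer_singleton_iff.mp (h4 hu)

theorem base_ext {A K : Type*} [Group A] [Finite A] [Group K] [Finite K] (φ : A →* MulAut K)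
    (hc : (Nat.card A).Coprime (Nat.card K)) (hs : Group.IsSolvable A) :
    ∃ x y : K, ∀ a, φ a x = x → φ a y = y → ∀ u, φ a u = u := by
  haveI := CfsgH2.sd_finite φ
  obtain ⟨_, ⟨x, rfl⟩, _, ⟨y, rfl⟩, h⟩ := base_amb (CfsgH2.sdR_le_normalizer φ)
    (by rwa [CfsgH2.card_sdL, CfsgH2.card_sdR]) (Group.isSolvable_of_surjective
      (SemidirectProduct.inr : A →* K ⋊[φ] A).rangeRestrict_surjective)
  exact ⟨x, y, fun a h1 h2 u => (CfsgH2.sd_commute_iff φ).mp (h _ ⟨a, rfl⟩
    ((CfsgH2.sd_commute_iff φ).mpr h1).symm ((CfsgH2.sd_commute_iff φ).mpr h2).symm _ ⟨u, rfl⟩)⟩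

open Cfsg CfsgL0 in
theorem hall_three {π : Set ℕ} (hsep : PiSep π G) {H : Subgroup G} (hs : Group.IsSolvable H)
    (hH : IsPiHall π H) : ∃ x y : G, ∀ g : G,
      (g ∈ H ∧ x⁻¹ * g * x ∈ H ∧ y⁻¹ * g * y ∈ H) ↔ g ∈ piCore π G := by
  let f := QuotientGroup.mk' (piCore π G)
  have hf : Function.Surjective f := QuotientGroup.mk'_surjective _
  have h1 : IsPi π (Nat.card (H.map f)) := IsPi.map hH.1 f
  have h2 := isPi_piCore (G := G ⧸ piCore π G) πᶜ
  obtain ⟨x', hx', y', hy', h⟩ := base_amb (A := H.map f) (K := piCore πᶜ (G ⧸ piCore π G))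
    le_normalizer_of_normal (h1.coprime h2)
    (Group.isSolvable_of_surjective (f.subgroupMap_surjective H))
  obtain ⟨x, rfl⟩ := hf x'
  obtain ⟨y, rfl⟩ := hf y'
  have h3 := h1.inf_eq_bot h2
  refine ⟨x, y, fun g => ⟨fun ⟨a1, a2, a3⟩ => ?_, fun hg => ?_⟩⟩
  · have key : ∀ x : G, f x ∈ piCore πᶜ (G ⧸ piCore π G) → x⁻¹ * g * x ∈ H → f g * f x = f x * f g := by
      intro x hx a2
      have k : (f g)⁻¹ * f (x⁻¹ * g * x) ∈ H.map f ⊓ piCore πᶜ (G ⧸ piCore π G) := by
        refine ⟨(H.map f).mul_mem ((H.map f).inv_mem (mem_map_of_mem f a1)) (mem_map_of_mem f a2), ?_⟩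
        have := mul_mem ((piCore_normal πᶜ _).conj_mem _ (inv_mem hx) (f g)⁻¹) hx
        simpa [mul_assoc] using this
      rw [h3, mem_bot, inv_mul_eq_one, map_mul, map_mul, map_inv, mul_assoc,
        eq_inv_mul_iff_mul_eq] at k
      exact k.symm
    have k1 := (hsep.quotient (piCore π G)).compl.centralizer_piCore_le
      (by rw [compl_compl]; exact piCore_quotient π)
      (h _ (mem_map_of_mem f a1) (key x hx' a2) (key y hy' a3))
    have k2 : f g ∈ H.map f ⊓ piCore πᶜ (G ⧸ piCore π G) := ⟨mem_map_of_mem f a1, k1⟩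
    rw [h3, mem_bot] at k2
    exact (QuotientGroup.eq_one_iff g).mp k2
  · have k : piCore π G ≤ H := by
      have k1 : IsPi π (Nat.card (H ⊔ piCore π G : Subgroup G)) :=
        IsPi.sup le_normalizer_of_normal hH.1 (isPi_piCore π)
      have k2 : H.relIndex (H ⊔ piCore π G) = 1 := by
        by_contra hne
        obtain ⟨q, hq, hd⟩ := Nat.exists_prime_and_dvd hne
        exact hH.2 q hq (k1 q hq (hd.trans (relIndex_dvd_card _ _)))
          (hd.trans (relIndex_dvd_index_of_le le_sup_left))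
      exact le_sup_right.trans (relIndex_eq_one.mp k2)
    refine ⟨k hg, k ?_, k ?_⟩
    · simpa using (piCore_normal π G).conj_mem _ hg x⁻¹
    · simpa using (piCore_normal π G).conj_mem _ hg y⁻¹

end CfsgH1.BS
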