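import Cfsg.Agent.H1.Base1

/-! Base sizes, part 2: reduction of colouring theorems to the affine case. -/

set_option autoImplicit false
set_option maxHeartbeats 400000
set_option linter.unusedSectionVars false
set_option linter.style.haveILetI false

namespace CfsgH1.BS

open Subgroup
open scoped commutatorElement IsMulCommutative

universe u

/-- completely reducible -/
def CR (G V : Type*) [AddCommGroup V] [SMul G V] : Prop :=
  ∀ U : AddSubgroup V, (∀ a : G, ∀ v ∈ U, a • v ∈ U) →
    ∃ W : AddSubgroup V, (∀ a : G, ∀ w ∈ W, a • w ∈ W) ∧ U ⊓ W = ⊥ ∧ U ⊔ W = ⊤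

/-- irreducible (or zero) -/
def Irr (G V : Type*) [AddCommGroup V] [SMul G V] : Prop :=
  ∀ U : AddSubgroup V, (∀ a : G, ∀ v ∈ U, a • v ∈ U) → U = ⊥ ∨ U = ⊤

theorem Irr.cr {G V : Type*} [AddCommGroup V] [Group G] [DistribMulAction G V] (h : Irr G V) :
    CR G V := by
  intro U hU
  rcases h U hU with rfl | rfl
  · exact ⟨⊤, fun _ _ _ => trivial, by simp, by simp⟩
  · exact ⟨⊥, fun a w hw => by rw [AddSubgroup.mem_bot.mp hw, smul_zero]; exact zero_mem _,
      by simp, by simp⟩

/-- base theorem for modules of size `< n` -/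
def TT (m c : ℕ) (ι : Type) (n : ℕ) : Prop :=
  ∀ (G V : Type u) [Group G] [Finite G] [AddCommGroup V] [Finite V] [DistribMulAction G V],
    Nat.card V < n → Cl m G → (∀ v : V, c • v = 0) → CR G V → ∃ b : ι → V, IsBase G b

/-- colouring theorem for sets of size `< n` -/
def CC (m : ℕ) (κ : Type) (n : ℕ) : Prop :=
  ∀ (G Ω : Type u) [Group G] [Finite G] [Finite Ω] [MulAction G Ω],
    Nat.card Ω < n → Cl m G → ∃ χ : Ω → κ, Rigid G χ

/-- affine colouring theorem -/
def AA (m : ℕ) (κ : Type) (n : ℕ) : Prop :=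
  ∀ (G V : Type u) [Group G] [Finite G] [AddCommGroup V] [Finite V] [DistribMulAction G V],
    Nat.card V < n → Cl m G → (Nat.card V).Coprime m → Irr G V → Nontrivial V →
      ∃ χ : V → κ, ∀ (a : G) (c : V), (∀ v, χ (a • v + c) = χ v) → c = 0 ∧ ∀ v : V, a • v = v

def MC (m : ℕ) (κ : Type) : Prop :=
  ∀ (G Ω : Type u) [Group G] [Finite G] [Finite Ω] [MulAction G Ω], Cl m G → Nonempty Ω →
    (∃ χ : Ω → κ, Rigid G χ) → Many G (Col Ω κ) κ

/-- action on the additive version of an abelian group -/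
@[reducible] def addAct {A K : Type*} [Group A] [Group K] [IsMulCommutative K] (φ : A →* MulAut K) :
    DistribMulAction A (Additive K) where
  smul a x := Additive.ofMul (φ a x.toMul)
  one_smul x := by show Additive.ofMul (φ 1 x.toMul) = x; simp
  mul_smul a b x := by
    show Additive.ofMul (φ (a * b) x.toMul) = Additive.ofMul (φ a (φ b x.toMul)); simp
  smul_zero a := by show Additive.ofMul (φ a 1) = 0; simp
  smul_add a x y := by
    show Additive.ofMul (φ a (x.toMul * y.toMul)) = Additive.ofMul (φ a x.toMul * φ a y.toMul); simp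

theorem exists_min_normal {G : Type*} [Group G] [Finite G] [Nontrivial G] (hG : Group.IsSolvable G) :
    ∃ N : Subgroup G, N.Normal ∧ N ≠ ⊥ ∧ IsMulCommutative N ∧
      ∀ M : Subgroup G, M.Normal → M ≤ N → M = ⊥ ∨ M = N := by
  obtain ⟨N, ⟨h1, h2⟩, hmin⟩ := WellFounded.has_min (wellFounded_lt (α := Subgroup G))
    {N | N.Normal ∧ N ≠ ⊥} ⟨⊤, inferInstance, top_ne_bot⟩
  have h3 : ∀ M : Subgroup G, M.Normal → M ≤ N → M = ⊥ ∨ M = N := by
    intro M hM hle
    by_contra hc
    push Not at hc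
    exact hmin M ⟨hM, hc.1⟩ (lt_of_le_of_ne hle hc.2)
  refine ⟨N, h1, h2, ?_, h3⟩
  have h4 := Group.IsSolvable.commutator_lt_of_ne_bot h2
  rcases h3 ⁅N, N⁆ inferInstance h4.le with h5 | h5
  · rw [commutator_eq_bot_iff_le_centralizer] at h5
    exact ⟨⟨fun a b => Subtype.ext (h5 b.2 a a.2)⟩⟩
  · exact absurd h5 h4.ne

section Fib

variable {G Ω Ω' : Type*} [Group G] [MulAction G Ω] [MulAction G Ω']

/-- representative of the orbit -/
noncomputable def rep (G : Type*) {Ω : Type*} [Group G] [MulAction G Ω] (ω : Ω) : Ω :=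
  (Quotient.mk (MulAction.orbitRel G Ω) ω).out

theorem rep_smul (g : G) (ω : Ω) : rep G (g • ω) = rep G ω := by
  unfold rep
  congr 1
  exact Quotient.sound ⟨g, rfl⟩

theorem exists_smul_rep (ω : Ω) : ∃ g : G, g • rep G ω = ω := by
  have h : (MulAction.orbitRel G Ω) ω (rep G ω) :=
    Quotient.exact (s := MulAction.orbitRel G Ω) (Quotient.out_eq _).symm
  exact h

/-- fibre of an equivariant map -/
def Fib (π : Ω → Ω') (hπ : ∀ (g : G) ω, π (g • ω) = g • π ω) (ω' : Ω') :
    SubMulAction (MulAction.stabilizer G ω') Ω where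
  carrier := {ω | π ω = ω'}
  smul_mem' g ω h := by
    show π ((g : G) • ω) = ω'
    rw [hπ, h]; exact g.2

theorem rigid_of_fibration {κ : Type} [Nontrivial κ] (π : Ω → Ω')
    (hπ : ∀ (g : G) ω, π (g • ω) = g • π ω) (hs : Function.Surjective π)
    (h1 : ∃ χ : Ω' → κ, Rigid G χ)
    (h2 : ∀ ω', Many (MulAction.stabilizer G ω') (Col (Fib π hπ ω') κ) κ) :
    ∃ χ : Ω → κ, Rigid G χ := by
  classical
  obtain ⟨χ', hχ'⟩ := h1
  have h3 : ∀ ω', ∃ F : κ → Ω → κ,
      (∀ i (g : G), g • ω' = ω' → (∀ ω, π ω = ω' → F i (g • ω) = F i ω) →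
        ∀ ω, π ω = ω' → g • ω = ω) ∧
      (∀ i j (g : G), g • ω' = ω' → (∀ ω, π ω = ω' → F j (g • ω) = F i ω) → i = j) := by
    intro ω'
    obtain ⟨f, hf1, hf2⟩ := h2 ω'
    refine ⟨fun i ω => if h : π ω = ω' then f i ⟨ω, h⟩ else Classical.arbitrary κ, ?_, ?_⟩
    · intro i g hg h ω hω
      have := rigid_of_reg (hf1 i) ⟨g, hg⟩ (fun x => by
        have h4 := h x.1 x.2
        have h5 : π (g • x.1) = ω' := by rw [hπ, x.2, hg]
        simp only [dif_pos h5, dif_pos (show π x.1 = ω' from x.2)] at h4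
        exact h4) ⟨ω, hω⟩
      exact congrArg Subtype.val this
    · intro i j g hg h
      refine (hf2 j i ⟨g, hg⟩⁻¹ ?_).symm
      funext x
      rw [col_smul, inv_inv]
      have h4 := h x.1 x.2
      have h5 : π (g • x.1) = ω' := by rw [hπ, x.2, hg]
      simp only [dif_pos h5, dif_pos (show π x.1 = ω' from x.2)] at h4
      exact h4
  choose F hF1 hF2 using h3
  choose r hr using exists_smul_rep (G := G) (Ω := Ω')
  refine ⟨fun ω => F (rep G (π ω)) (χ' (π ω)) ((r (π ω))⁻¹ • ω), ?_⟩
  intro g hg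
  have key : ∀ ω', ∀ ω, π ω = rep G ω' →
      F (rep G ω') (χ' (g • ω')) (((r (g • ω'))⁻¹ * g * r ω') • ω) = F (rep G ω') (χ' ω') ω := by
    intro ω' ω hω
    have h4 := hg (r ω' • ω)
    have h5 : π (r ω' • ω) = ω' := by rw [hπ, hω, hr]
    simp only [hπ g, h5, rep_smul, inv_smul_smul] at h4
    rw [mul_smul, mul_smul]
    exact h4
  have hst : ∀ ω', ((r (g • ω'))⁻¹ * g * r ω') • rep G ω' = rep G ω' := by
    intro ω'
    rw [mul_smul, mul_smul, hr, inv_smul_eq_iff, ← rep_smul g ω', hr]
  have h6 : ∀ ω' : Ω', g • ω' = ω' :=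
    hχ' g (fun ω' => (hF2 _ _ _ _ (hst ω') (key ω')).symm)
  intro ω
  have h7 := hF1 (rep G (π ω)) (χ' (π ω)) _ (hst (π ω))
    (fun x hx => by have := key (π ω) x hx; rwa [h6 (π ω)] at this ⊢) ((r (π ω))⁻¹ • ω)
    (by rw [hπ, inv_smul_eq_iff, hr])
  rw [h6, mul_smul, mul_smul, smul_inv_smul] at h7
  exact MulAction.injective _ h7

end Fib

section Range

variable (G Ω : Type*) [Group G] [MulAction G Ω]

/-- the induced permutation group -/
abbrev Img := (MulAction.toPermHom G Ω).range

instance [Finite G] : Finite (Img G Ω) :=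
  Finite.of_surjective _ (MulAction.toPermHom G Ω).rangeRestrict_surjective

variable {G Ω}

theorem Cl.img {m : ℕ} [Finite G] (h : Cl m G) : Cl m (Img G Ω) :=
  h.of_surjective _ (MulAction.toPermHom G Ω).rangeRestrict_surjective

theorem img_smul (g : G) (ω : Ω) : (MulAction.toPermHom G Ω).rangeRestrict g • ω = g • ω := rfl

theorem img_exists (a : Img G Ω) : ∃ g : G, ∀ ω : Ω, a • ω = g • ω := by
  obtain ⟨_, g, rfl⟩ := a
  exact ⟨g, fun _ => rfl⟩

theorem img_eq_one {a : Img G Ω} (h : ∀ ω : Ω, a • ω = ω) : a = 1 := by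
  ext ω; exact h ω

end Range

theorem CC_of_AA {m n : ℕ} {κ : Type} [Nontrivial κ] (hA : AA.{u} m κ n) (hM : MC.{u} m κ) :
    CC.{u} m κ n := by
  classical
  suffices H : ∀ k, k ≤ n → CC.{u} m κ k from H n le_rfl
  intro k
  induction k with
  | zero => intro _ G Ω _ _ _ _ h; omega
  | succ k ih =>
  intro hk
  replace ih := ih (by omega)
  suffices H : ∀ (G Ω : Type u) [Group G] [Finite G] [Finite Ω] [MulAction G Ω],
      Nat.card Ω < k + 1 → Cl m G → (∀ g : G, (∀ ω : Ω, g • ω = ω) → g = 1) →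
        ∃ χ : Ω → κ, Rigid G χ by
    intro G Ω _ _ _ _ hc hG
    obtain ⟨χ, hχ⟩ := H (Img G Ω) Ω hc hG.img (fun a => img_eq_one)
    exact ⟨χ, fun g hg => hχ ((MulAction.toPermHom G Ω).rangeRestrict g) hg⟩
  intro G Ω _ _ _ _ hc hG hf
  rcases subsingleton_or_nontrivial G with hs | hs
  · exact ⟨fun _ => Classical.arbitrary κ, fun g _ ω => by rw [Subsingleton.elim g 1, one_smul]⟩
  obtain ⟨N, hN, hN0, hNc, hNm⟩ := exists_min_normal hG.1
  obtain ⟨n₀, hn₀, hn₀1⟩ : ∃ n₀ ∈ N, n₀ ≠ 1 := by
    by_contra h; push Not at h; exact hN0 ((eq_bot_iff_forall _).mpr h)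
  obtain ⟨ω₀, hω₀⟩ : ∃ ω₀ : Ω, n₀ • ω₀ ≠ ω₀ := by
    by_contra h; push Not at h; exact hn₀1 (hf _ h)
  by_cases htr : ∀ ω : Ω, ∃ x ∈ N, x • ω₀ = ω
  · -- affine case
    letI := addAct ((MulAut.conjNormal (H := N)).comp (MulAction.stabilizer G ω₀).subtype)
    have hsm : ∀ (a : MulAction.stabilizer G ω₀) (v : Additive N),
        ((a • v).toMul : G) = a * v.toMul * (a : G)⁻¹ := fun a v => rfl
    let e : Additive N → Ω := fun v => (v.toMul : G) • ω₀
    have he : Function.Bijective e := by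
      constructor
      · intro x y hxy
        have h1 : ((y.toMul : G)⁻¹ * x.toMul) • ω₀ = ω₀ := by
          rw [mul_smul, inv_smul_eq_iff]; exact hxy
        have h2 : (y.toMul : G)⁻¹ * x.toMul = 1 := by
          apply hf
          intro ω
          obtain ⟨z, hz, rfl⟩ := htr ω
          have h3 := congrArg Subtype.val (mul_comm' (y.toMul⁻¹ * x.toMul) ⟨z, hz⟩)
          simp only [Subgroup.coe_mul, Subgroup.coe_inv] at h3
          rw [← mul_smul, h3, mul_smul, h1]
        apply Additive.toMul.injective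
        exact Subtype.ext (inv_mul_eq_one.mp h2).symm
      · intro ω
        obtain ⟨x, hx, rfl⟩ := htr ω
        exact ⟨Additive.ofMul ⟨x, hx⟩, rfl⟩
    have hdec : ∀ g : G, ∃ (a : MulAction.stabilizer G ω₀) (c : N), g = c * a := by
      intro g
      obtain ⟨x, hx, hxg⟩ := htr (g • ω₀)
      refine ⟨⟨x⁻¹ * g, ?_⟩, ⟨x, hx⟩, by simp⟩
      rw [MulAction.mem_stabilizer_iff, mul_smul, ← hxg, inv_smul_smul]
    have hcard : Nat.card (Additive N) = Nat.card Ω := Nat.card_congr (Equiv.ofBijective e he)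
    have hirr : Irr (MulAction.stabilizer G ω₀) (Additive N) := by
      intro U hU
      let M : Subgroup G := (AddSubgroup.toSubgroup' U).map N.subtype
      have hM : M.Normal := by
        constructor
        rintro _ ⟨x, hx, rfl⟩ g
        obtain ⟨a, c, rfl⟩ := hdec g
        refine ⟨(a • Additive.ofMul x).toMul, hU a _ hx, ?_⟩
        have h3 := congrArg Subtype.val (mul_comm' c (a • Additive.ofMul x).toMul)
        simp only [Subgroup.coe_mul, hsm, toMul_ofMul] at h3
        simp only [coe_subtype, hsm, toMul_ofMul]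
        rw [mul_inv_rev, ← mul_assoc, mul_assoc (c : G), mul_assoc (c : G), h3]
        simp
      rcases hNm M hM (map_subtype_le _) with h | h
      · left
        rw [AddSubgroup.eq_bot_iff_forall]
        intro x hx
        have : ((x.toMul : N) : G) ∈ M := ⟨x.toMul, hx, rfl⟩
        rw [h, mem_bot] at this
        apply Additive.toMul.injective
        exact Subtype.ext this
      · right
        rw [eq_top_iff]
        intro x _
        have : ((x.toMul : N) : G) ∈ M := by rw [h]; exact x.toMul.2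
        obtain ⟨y, hy, hyx⟩ := this
        have : y = x.toMul := Subtype.ext hyx
        subst this
        exact hy
    have hnt : Nontrivial (Additive N) := by
      exact ⟨⟨Additive.ofMul ⟨n₀, hn₀⟩, 0, fun h => hn₀1 (congrArg (fun v : Additive N => (v.toMul : G)) h)⟩⟩
    obtain ⟨χ, hχ⟩ := hA (MulAction.stabilizer G ω₀) (Additive N) (by omega) (hG.subgroup _)
      (hG.subgroup N).2 hirr hnt
    · refine ⟨fun ω => χ ((Equiv.ofBijective e he).symm ω), ?_⟩
      intro g hg
      obtain ⟨a, c, rfl⟩ := hdec g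
      have h1 : ∀ v, ((c : G) * a) • e v = e (a • v + Additive.ofMul c) := by
        intro v
        show _ = (((a • v + Additive.ofMul c).toMul : N) : G) • ω₀
        rw [add_comm, toMul_add, Subgroup.coe_mul, hsm, toMul_ofMul]
        show ((c : G) * a) • (v.toMul : G) • ω₀ = _
        have : (a : G)⁻¹ • ω₀ = ω₀ := (a⁻¹).2
        simp only [mul_smul, this]
      obtain ⟨h2, h3⟩ := hχ a (Additive.ofMul c) (fun v => by
        have := hg (e v)
        simp only [h1] at this
        rwa [Equiv.ofBijective_symm_apply_apply, Equiv.ofBijective_symm_apply_apply] at this)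
      intro ω
      obtain ⟨v, rfl⟩ := he.2 ω
      rw [h1, h2, h3, add_zero]
  · -- blocks
    let Ω' := MulAction.orbitRel.Quotient N Ω
    letI : MulAction G Ω' :=
      { smul := fun g => Quotient.map' (fun ω => g • ω) (by
          rintro _ y ⟨x, rfl⟩
          refine ⟨⟨g * x * g⁻¹, hN.conj_mem _ x.2 g⟩, ?_⟩
          show (g * x * g⁻¹) • g • y = g • (x : G) • y
          simp [mul_smul])
        one_smul := by
          rintro ⟨ω⟩
          show Quotient.mk'' ((1 : G) • ω) = Quotient.mk'' ω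
          rw [one_smul]
        mul_smul := by
          rintro g h ⟨ω⟩
          show Quotient.mk'' ((g * h) • ω) = Quotient.mk'' (g • h • ω)
          rw [mul_smul] }
    let π : Ω → Ω' := Quotient.mk''
    have hπ : ∀ (g : G) ω, π (g • ω) = g • π ω := fun _ _ => rfl
    have hs : Function.Surjective π := Quotient.mk''_surjective
    haveI : Finite Ω' := Finite.of_surjective π hs
    refine rigid_of_fibration π hπ hs (ih G Ω' ?_ hG) ?_
    · have : Nat.card Ω' < Nat.card Ω := by
        haveI := Fintype.ofFinite Ω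
        haveI := Fintype.ofFinite Ω'
        rw [Nat.card_eq_fintype_card, Nat.card_eq_fintype_card]
        apply Fintype.card_lt_of_surjective_not_injective π hs
        intro hinj
        exact hω₀ (hinj (Quotient.sound' ⟨⟨n₀, hn₀⟩, rfl⟩))
      omega
    · intro ω'
      obtain ⟨ω₁, rfl⟩ := hs ω'
      refine hM _ _ (hG.subgroup _) ⟨⟨ω₁, rfl⟩⟩ (ih _ _ ?_ (hG.subgroup _))
      have : Nat.card (Fib π hπ (π ω₁)) < Nat.card Ω := by
        apply Finite.card_subtype_lt (p := fun ω => π ω = π ω₁)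
          (x := if π ω₀ = π ω₁ then (not_forall.mp htr).choose else ω₀)
        split_ifs with h
        · intro h2
          apply (not_forall.mp htr).choose_spec
          obtain ⟨x, hx⟩ := Quotient.exact' (h2.trans h.symm)
          exact ⟨x, x.2, hx⟩
        · exact h
      omega

end CfsgH1.BS
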