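import Cfsg.Agent.H1.Base2
import Cfsg.Agent.H2.PGroup

/-! Base sizes, part 3: reduction of base theorems to the quasi-primitive case. -/

set_option autoImplicit false
set_option maxHeartbeats 400000
set_option linter.unusedSectionVars false
set_option linter.style.haveILetI false

namespace CfsgH1.BS

open Subgroup
open scoped commutatorElement

universe u

/-- the quasi-primitive configuration -/
structure QP (V : Type*) {G : Type*} [Group G] [AddCommGroup V] [SMul G V] (Z F : Subgroup G) :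
    Prop where
  zn : Z.Normal
  fn : F.Normal
  zf : Z ≤ F
  zc : ∀ z ∈ Z, ∀ f ∈ F, z * f = f * z
  comm : ∀ f ∈ F, ∀ f' ∈ F, ⁅f, f'⁆ ∈ Z
  cent : ∀ g : G, (∀ f ∈ F, g * f = f * g) → g ∈ Z
  semi : ∀ z ∈ Z, ∀ v : V, z • v = v → v ≠ 0 → z = 1
  sq : ∀ l : ℕ, ∀ f ∈ F, f ^ (l * l) ∈ Z → f ^ l ∈ Z

def MM (m c : ℕ) (ι : Type) (n : ℕ) : Prop :=
  ∀ (G V : Type u) [Group G] [Finite G] [AddCommGroup V] [Finite V] [DistribMulAction G V],
    Nat.card V < n → Cl m G → (∀ v : V, c • v = 0) → Nontrivial V →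
      ∀ Z F : Subgroup G, QP V Z F → ∃ b : ι → V, IsBase G b

def MV (m c : ℕ) (ι κ : Type) : Prop :=
  ∀ (G V : Type u) [Group G] [Finite G] [AddCommGroup V] [Finite V] [DistribMulAction G V],
    Cl m G → (∀ v : V, c • v = 0) → Nontrivial V → (∃ b : ι → V, IsBase G b) → Many G (ι → V) κ

section Struct

variable {G : Type*} [Group G] [Finite G]

theorem exists_ZF (hG : Group.IsSolvable G) : ∃ Z F : Subgroup G, Z.Normal ∧ F.Normal ∧ Z ≤ F ∧
    (∀ z ∈ Z, ∀ f ∈ F, z * f = f * z) ∧ (∀ f ∈ F, ∀ f' ∈ F, ⁅f, f'⁆ ∈ Z) ∧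
    (∀ g : G, (∀ f ∈ F, g * f = f * g) → g ∈ Z) ∧
    ∀ l : ℕ, ∀ f ∈ F, f ^ (l * l) ∈ Z → f ^ l ∈ Z := by
  obtain ⟨Z, ⟨hZn, hZc⟩, hZmax⟩ := WellFounded.has_min (wellFounded_gt (α := Subgroup G))
    {Z | Z.Normal ∧ ∀ a ∈ Z, ∀ b ∈ Z, a * b = b * a} ⟨⊥, inferInstance, by simp⟩
  have hZm : ∀ A : Subgroup G, A.Normal → (∀ a ∈ A, ∀ b ∈ A, a * b = b * a) → Z ≤ A → A ≤ Z := by
    intro A h1 h2 h3
    by_contra h
    exact hZmax A ⟨h1, h2⟩ (lt_of_le_of_ne h3 (fun e => h e.ge))
  obtain ⟨F, ⟨hFn, hZF, hzc, hFc⟩, hFmax⟩ := WellFounded.has_min (wellFounded_gt (α := Subgroup G))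
    {F | F.Normal ∧ Z ≤ F ∧ F ≤ centralizer Z ∧ ⁅F, F⁆ ≤ Z}
    ⟨Z, hZn, le_rfl, fun a ha b hb => hZc b hb a ha, commutator_le_self _⟩
  have hzc' : ∀ z ∈ Z, ∀ f ∈ F, z * f = f * z := fun z hz f hf => hzc hf z hz
  have hcm : ∀ f ∈ F, ∀ f' ∈ F, ⁅f, f'⁆ ∈ Z := fun f hf f' hf' => hFc (commutator_mem_commutator hf hf')
  refine ⟨Z, F, hZn, hFn, hZF, hzc', hcm, ?_, ?_⟩
  · -- centralizer
    let D := centralizer (F : Set G)
    haveI : D.Normal := inferInstance
    have hZD : Z ≤ D := fun z hz f hf => (hzc' z hz f hf).symm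
    have hDF : D ⊓ F ≤ Z := by
      apply hZm _ inferInstance
      · intro a ha b hb; exact (ha.1 b hb.2).symm
      · exact le_inf hZD hZF
    suffices D ≤ Z from fun g hg => this (fun f hf => (hg f hf).symm)
    by_contra hD
    obtain ⟨M, ⟨hMn, hZM, hMD, hMZ⟩, hMmin⟩ := WellFounded.has_min (wellFounded_lt (α := Subgroup G))
      {M | M.Normal ∧ Z ≤ M ∧ M ≤ D ∧ ¬ M ≤ Z} ⟨D, inferInstance, hZD, le_rfl, hD⟩
    have hMM : ⁅M, M⁆ ≤ Z := by
      by_contra h
      have h1 : ⁅M, M⁆ ⊔ Z = M := by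
        by_contra h2
        exact hMmin _ ⟨inferInstance, le_sup_right, (sup_le (commutator_le_self _) hZM).trans hMD,
          fun h3 => h (le_sup_left.trans h3)⟩
          (lt_of_le_of_ne (sup_le (commutator_le_self _) hZM) h2)
      have h2 : ⁅M.map (QuotientGroup.mk' Z), M.map (QuotientGroup.mk' Z)⁆ =
          M.map (QuotientGroup.mk' Z) := by
        rw [← map_commutator]
        conv_rhs => rw [← h1, Subgroup.map_sup]
        rw [QuotientGroup.map_mk'_self, sup_bot_eq]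
      have h3 : M.map (QuotientGroup.mk' Z) ≠ ⊥ := by
        rw [Ne, Subgroup.map_eq_bot_iff, QuotientGroup.ker_mk']; exact hMZ
      exact (Group.IsSolvable.commutator_lt_of_ne_bot h3).ne h2
    have hFM : F ⊔ M = F := by
      by_contra h
      refine hFmax (F ⊔ M) ⟨inferInstance, hZF.trans le_sup_left, sup_le hzc
        (hMD.trans (centralizer_le hZF)), ?_⟩ (lt_of_le_of_ne le_sup_left (Ne.symm h))
      rw [commutator_le]
      intro a ha b hb
      rw [← SetLike.mem_coe, normal_mul] at ha hb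
      obtain ⟨f, hf, x, hx, rfl⟩ := ha
      obtain ⟨f', hf', x', hx', rfl⟩ := hb
      have e1 : f' * x = x * f' := hMD hx f' hf'
      have e2 : f * x' = x' * f := hMD hx' f hf
      have e3 : f * x = x * f := hMD hx f hf
      have e4 : f' * x' = x' * f' := hMD hx' f' hf'
      have h1 := hcm f hf f' hf'
      have h2 := hMM (commutator_mem_commutator hx hx')
      have c1 : Commute f' x := e1
      have c2 : Commute f x' := e2
      have c3 : Commute f x := e3
      have c4 : Commute f' x' := e4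
      have : ⁅f * x, f' * x'⁆ = ⁅f, f'⁆ * ⁅x, x'⁆ := by
        have c5 : Commute (f * f') (x * x' * x⁻¹ * x'⁻¹) := by
          refine Commute.mul_right (Commute.mul_right (Commute.mul_right ?_ ?_) ?_) ?_
          · exact c3.mul_left c1
          · exact c2.mul_left c4
          · exact (c3.mul_left c1).inv_right
          · exact (c2.mul_left c4).inv_right
        have c6 : Commute (f⁻¹ * f'⁻¹) (x * x' * x⁻¹ * x'⁻¹) := by
          refine Commute.mul_right (Commute.mul_right (Commute.mul_right ?_ ?_) ?_) ?_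
          · exact c3.inv_left.mul_left c1.inv_left
          · exact c2.inv_left.mul_left c4.inv_left
          · exact (c3.inv_left.mul_left c1.inv_left).inv_right
          · exact (c2.inv_left.mul_left c4.inv_left).inv_right
        calc ⁅f * x, f' * x'⁆ = f * (x * f') * x' * (x⁻¹ * f⁻¹) * (x'⁻¹ * f'⁻¹) := by
              simp only [commutatorElement_def, mul_inv_rev, mul_assoc]
          _ = f * (f' * x) * x' * (x⁻¹ * (f⁻¹ * x'⁻¹) * f'⁻¹) := by rw [← e1]; simp only [mul_assoc]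
          _ = f * (f' * x) * x' * (x⁻¹ * (x'⁻¹ * f⁻¹) * f'⁻¹) := by rw [c2.inv_inv.eq]
          _ = f * f' * ((x * x' * x⁻¹ * x'⁻¹) * (f⁻¹ * f'⁻¹)) := by simp only [mul_assoc]
          _ = f * f' * ((f⁻¹ * f'⁻¹) * (x * x' * x⁻¹ * x'⁻¹)) := by rw [c6.eq]
          _ = _ := by simp only [commutatorElement_def, mul_assoc]
      rw [this]
      exact mul_mem h1 h2
    exact hMZ ((le_inf hMD (le_sup_right.trans hFM.le)).trans hDF)
  · intro l f hf hfl
    let S : Set G := {x | x ∈ Z ∨ ∃ f ∈ F, f ^ (l * l) ∈ Z ∧ x = f ^ l}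
    have hSF : ∀ x ∈ S, x ∈ F := by
      rintro x (hx | ⟨f, hf, _, rfl⟩)
      · exact hZF hx
      · exact pow_mem hf _
    have hS : ∀ x ∈ S, ∀ y ∈ S, x * y = y * x := by
      rintro x (hx | ⟨f, hf, hfl, rfl⟩) y hy
      · exact hzc' x hx y (hSF y hy)
      rcases hy with hy | ⟨f', hf', hfl', rfl⟩
      · exact (hzc' y hy _ (pow_mem hf _)).symm
      rw [← commutatorElement_eq_one_iff_mul_comm]
      have c1 : ∀ a ∈ F, ∀ b ∈ F, ∀ c ∈ F, Commute c ⁅a, b⁆ :=
        fun a ha b hb c hc => (hzc' _ (hcm a ha b hb) c hc).symm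
      rw [CfsgH2.comm_pow_right (c1 _ (pow_mem hf _) _ hf' _ hf'),
        ← CfsgH2.comm_pow_left (c1 _ (pow_mem hf _) _ hf' _ (pow_mem hf _)), ← pow_mul,
        commutatorElement_eq_one_iff_mul_comm]
      exact hzc' _ hfl _ hf'
    have hn : (closure S).Normal := by
      constructor
      intro x hx g
      induction hx using closure_induction with
      | mem x hx =>
        apply Subgroup.subset_closure
        rcases hx with hx | ⟨f, hf, hfl, rfl⟩
        · exact Or.inl (hZn.conj_mem _ hx g)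
        · refine Or.inr ⟨g * f * g⁻¹, hFn.conj_mem _ hf g, ?_, ?_⟩
          · rw [conj_pow]; exact hZn.conj_mem _ hfl g
          · rw [conj_pow]
      | one => simp
      | mul a b _ _ ha hb =>
        have : g * (a * b) * g⁻¹ = (g * a * g⁻¹) * (g * b * g⁻¹) := by group
        rw [this]; exact mul_mem ha hb
      | inv a _ ha =>
        have : g * a⁻¹ * g⁻¹ = (g * a * g⁻¹)⁻¹ := by group
        rw [this]; exact inv_mem ha
    have hc : ∀ a ∈ closure S, ∀ b ∈ closure S, a * b = b * a := by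
      have h1 : closure S ≤ centralizer S := (closure_le _).mpr (fun a ha b hb => hS b hb a ha)
      have h2 : closure S ≤ centralizer (closure S) := by
        rw [centralizer_closure]; exact h1
      intro a ha b hb
      exact (h2 ha b hb).symm
    exact hZm _ hn hc (fun z hz => Subgroup.subset_closure (Or.inl hz))
      (Subgroup.subset_closure (Or.inr ⟨f, hf, hfl, rfl⟩))

end Struct

/-- action on an invariant subgroup -/
@[reducible] def subAct {H V : Type*} [Group H] [AddCommGroup V] [DistribMulAction H V]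
    (W : AddSubgroup V) (h : ∀ a : H, ∀ v ∈ W, a • v ∈ W) : DistribMulAction H W where
  smul a w := ⟨a • w.1, h a _ w.2⟩
  one_smul w := Subtype.ext (one_smul H w.1)
  mul_smul a b w := Subtype.ext (mul_smul a b w.1)
  smul_zero a := Subtype.ext (smul_zero a)
  smul_add a x y := Subtype.ext (smul_add a x.1 y.1)

instance imgAct {G V : Type*} [Group G] [AddCommGroup V] [DistribMulAction G V] :
    DistribMulAction (Img G V) V where
  smul_zero a := by obtain ⟨g, hg⟩ := img_exists a; rw [hg, smul_zero]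
  smul_add a x y := by obtain ⟨g, hg⟩ := img_exists a; rw [hg, hg, hg, smul_add]

section Mod

variable {G V : Type*} [Group G] [AddCommGroup V] [DistribMulAction G V]

theorem CR.img (h : CR G V) : CR (Img G V) V := by
  intro U hU
  obtain ⟨W, h1, h2⟩ := h U (fun g v hv => hU ((MulAction.toPermHom G V).rangeRestrict g) v hv)
  refine ⟨W, fun a w hw => ?_, h2⟩
  obtain ⟨g, hg⟩ := img_exists a
  rw [hg]; exact h1 g w hw

theorem IsBase.of_img {ι : Type} {b : ι → V} (h : IsBase (Img G V) b) : IsBase G b :=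
  fun g hg => h ((MulAction.toPermHom G V).rangeRestrict g) hg

theorem CR.sub (h : CR G V) (W : AddSubgroup V) (hW : ∀ a : G, ∀ v ∈ W, a • v ∈ W) :
    letI := subAct W hW; CR G W := by
  letI := subAct W hW
  intro U hU
  obtain ⟨X, h1, h2, h3⟩ := h (U.map W.subtype) (by
    rintro a _ ⟨u, hu, rfl⟩
    exact ⟨a • u, hU a u hu, rfl⟩)
  refine ⟨X.addSubgroupOf W, fun a w hw => h1 a _ hw, ?_, ?_⟩
  · rw [eq_bot_iff]
    intro u hu
    have : (u : V) ∈ U.map W.subtype ⊓ X := ⟨⟨u, hu.1, rfl⟩, hu.2⟩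
    rw [h2] at this
    exact Subtype.ext this
  · rw [eq_top_iff]
    intro w _
    have : (w : V) ∈ U.map W.subtype ⊔ X := by rw [h3]; trivial
    obtain ⟨_, ⟨u, hu, rfl⟩, x, hx, hux⟩ := AddSubgroup.mem_sup.mp this
    have hxW : x ∈ W := by
      have : x = w - u := by rw [← hux]; simp
      rw [this]; exact sub_mem w.2 u.2
    exact AddSubgroup.mem_sup.mpr ⟨u, hu, ⟨x, hxW⟩, hx, Subtype.ext hux⟩

theorem card_lt_of_ne_top [Finite V] {W : AddSubgroup V} (h : W ≠ ⊤) : Nat.card W < Nat.card V := by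
  obtain ⟨v, hv⟩ : ∃ v, v ∉ W := by
    by_contra h2; push Not at h2; exact h ((AddSubgroup.eq_top_iff' _).mpr h2)
  exact Finite.card_subtype_lt hv

theorem base_of_imprim [Finite G] {ι κ : Type} (N : Subgroup G) (W : AddSubgroup V)
    (hW : ∀ a : N, ∀ v ∈ W, a • v ∈ W) [Fintype (G ⧸ N)]
    (hind : ∀ w : G ⧸ N → V, (∀ ω, w ω ∈ W) → ∑ ω, ω.out • w ω = 0 → ∀ ω, w ω = 0)
    (hspan : ∀ U : AddSubgroup V, (∀ (g : G), ∀ w ∈ W, g • w ∈ U) → U = ⊤)
    (h1 : ∃ χ : G ⧸ N → κ, Rigid G χ) [Nonempty ι]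
    (h2 : letI := subAct W hW; Many N (ι → W) κ) : ∃ b : ι → V, IsBase G b := by
  letI := subAct W hW
  obtain ⟨χ, hχ⟩ := h1
  obtain ⟨f, hf1, hf2⟩ := h2
  refine ⟨fun k => ∑ ω : G ⧸ N, ω.out • (f (χ ω) k : V), fun g hg => ?_⟩
  have hn : ∀ ω : G ⧸ N, ((g • ω).out)⁻¹ * g * ω.out ∈ N := by
    intro ω
    rw [mul_assoc, ← QuotientGroup.eq, QuotientGroup.out_eq']
    conv_lhs => rw [← ω.out_eq']
    rfl
  have key : ∀ ω : G ⧸ N, (⟨_, hn ω⟩ : N) • f (χ ω) = f (χ (g • ω)) := by
    intro ω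
    funext k
    apply Subtype.ext
    have h3 := hind (fun ω' => ((g • g⁻¹ • ω').out⁻¹ * g * (g⁻¹ • ω').out) • (f (χ (g⁻¹ • ω')) k : V)
        - f (χ ω') k)
      (fun ω' => sub_mem (hW ⟨_, hn _⟩ _ (Subtype.prop _)) (Subtype.prop _)) (by
        simp only [smul_sub, Finset.sum_sub_distrib]
        rw [sub_eq_zero]
        have h4 := hg k
        simp only at h4
        rw [← h4, Finset.smul_sum]
        symm
        apply Fintype.sum_equiv (MulAction.toPerm g)
        intro ω'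
        simp only [MulAction.toPerm_apply, inv_smul_smul, mul_smul, smul_inv_smul]) (g • ω)
    simp only [sub_eq_zero, inv_smul_smul] at h3
    exact h3
  have h5 : ∀ ω : G ⧸ N, g • ω = ω := hχ g (fun ω => (hf2 _ _ _ (key ω)).symm)
  have h6 := hspan (DistribMulAction.toAddMonoidHom V g - AddMonoidHom.id V).ker (by
    intro x w hw
    let ω : G ⧸ N := x
    have h7 : ω.out⁻¹ * x ∈ N := by rw [← QuotientGroup.eq, QuotientGroup.out_eq']
    have h8 := isBase_of_reg (hf1 (χ ω)) ⟨_, hn ω⟩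
      (fun k => (congrFun (key ω) k).trans (by rw [h5 ω])) ⟨_, hW ⟨_, h7⟩ w hw⟩
    have h9 : ((g • ω).out⁻¹ * g * ω.out) • (ω.out⁻¹ * x) • w = (ω.out⁻¹ * x) • w :=
      congrArg Subtype.val h8
    rw [h5 ω] at h9
    simp only [mul_smul, smul_inv_smul] at h9
    have h10 := MulAction.injective _ h9
    simp [AddMonoidHom.mem_ker, h10])
  intro v
  have : v ∈ (DistribMulAction.toAddMonoidHom V g - AddMonoidHom.id V).ker := by rw [h6]; trivial
  simpa [AddMonoidHom.mem_ker, sub_eq_zero] using this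

/-- fixed points of a subgroup -/
def fx (V : Type*) [AddCommGroup V] [DistribMulAction G V] (B : Subgroup G) : AddSubgroup V where
  carrier := {v | ∀ b ∈ B, b • v = v}
  zero_mem' b _ := smul_zero b
  add_mem' := by intro x y hx hy b hb; rw [smul_add, hx b hb, hy b hb]
  neg_mem' := by intro x hx b hb; rw [smul_neg, hx b hb]

theorem mem_fx {B : Subgroup G} {v : V} : v ∈ fx V B ↔ ∀ b ∈ B, b • v = v := Iff.rfl

theorem smul_mem_fx {B : Subgroup G} {g : G} (hg : g ∈ normalizer (B : Set G)) {v : V}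
    (hv : v ∈ fx V B) : g • v ∈ fx V B := by
  intro b hb
  have h1 : g⁻¹ * b * g⁻¹⁻¹ ∈ B := ((inv_mem hg) b).mp hb
  have h2 := hv _ h1
  rw [inv_inv, mul_smul, mul_smul, inv_smul_eq_iff] at h2
  exact h2

end Mod

theorem TT_succ {m c n : ℕ} {ι κ : Type} [Nonempty ι] (hC : CC.{u} m κ n) (hV : MV.{u} m c ι κ)
    (hM : MM.{u} m c ι (n + 1)) (hT : TT.{u} m c ι n) : TT.{u} m c ι (n + 1) := by
  classical
  suffices H : ∀ (G V : Type u) [Group G] [Finite G] [AddCommGroup V] [Finite V]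
      [DistribMulAction G V], Nat.card V < n + 1 → Cl m G → (∀ v : V, c • v = 0) → CR G V →
      (∀ g : G, (∀ v : V, g • v = v) → g = 1) → ∃ b : ι → V, IsBase G b by
    intro G V _ _ _ _ _ hc hG he hcr
    obtain ⟨b, hb⟩ := H (Img G V) V hc hG.img he hcr.img (fun a => img_eq_one)
    exact ⟨b, hb.of_img⟩
  intro G V _ _ _ _ _ hc hG he hcr hf
  have hsub : ∀ (H : Subgroup G) (W : AddSubgroup V) (hW : ∀ a : H, ∀ v ∈ W, a • v ∈ W), W ≠ ⊤ →
      (letI := subAct W hW; CR H W) → letI := subAct W hW; ∃ b : ι → W, IsBase H b := by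
    intro H W hW hne h
    letI := subAct W hW
    exact hT H W (by have := card_lt_of_ne_top hne; omega) (hG.subgroup H)
      (fun v => Subtype.ext (he v)) h
  by_cases hirr : Irr G V
  swap
  · unfold Irr at hirr
    push Not at hirr
    obtain ⟨U, hU, hU0, hU1⟩ := hirr
    obtain ⟨W, hW, h1, h2⟩ := hcr U hU
    have hW1 : W ≠ ⊤ := by rintro rfl; exact hU0 (by simpa using h1)
    letI := subAct U hU
    letI := subAct W hW
    obtain ⟨b, hb⟩ := hT G U (by have := card_lt_of_ne_top hU1; omega) hG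
      (fun v => Subtype.ext (he v)) (hcr.sub U hU)
    obtain ⟨b', hb'⟩ := hT G W (by have := card_lt_of_ne_top hW1; omega) hG
      (fun v => Subtype.ext (he v)) (hcr.sub W hW)
    refine ⟨fun i => b i + b' i, fun g hg v => ?_⟩
    have h3 : ∀ i, g • (b i : V) = b i ∧ g • (b' i : V) = b' i := by
      intro i
      have h4 := hg i
      simp only [smul_add] at h4
      have h5 : g • (b i : V) - b i ∈ U ⊓ W := by
        refine AddSubgroup.mem_inf.mpr ⟨sub_mem (hU _ _ (b i).2) (b i).2, ?_⟩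
        have : g • (b i : V) - b i = b' i - g • (b' i : V) := by
          rw [sub_eq_sub_iff_add_eq_add, h4, add_comm]
        rw [this]
        exact sub_mem (b' i).2 (hW _ _ (b' i).2)
      rw [h1, AddSubgroup.mem_bot, sub_eq_zero] at h5
      rw [h5] at h4
      exact ⟨h5, add_left_cancel h4⟩
    have : v ∈ U ⊔ W := by rw [h2]; trivial
    obtain ⟨x, hx, y, hy, rfl⟩ := AddSubgroup.mem_sup.mp this
    have h6 : g • x = x := congrArg Subtype.val (hb g (fun i => Subtype.ext (h3 i).1) ⟨x, hx⟩)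
    have h7 : g • y = y := congrArg Subtype.val (hb' g (fun i => Subtype.ext (h3 i).2) ⟨y, hy⟩)
    rw [smul_add, h6, h7]
  rcases subsingleton_or_nontrivial V with hs | hs
  · exact ⟨fun _ => 0, fun _ _ _ => Subsingleton.elim _ _⟩
  obtain ⟨Z, F, hZn, hFn, hZF, hzc, hcm, hce, hsq⟩ := exists_ZF hG.1
  by_cases hsemi : ∀ z ∈ Z, ∀ v : V, z • v = v → v ≠ 0 → z = 1
  · exact hM G V hc hG he hs Z F ⟨hZn, hFn, hZF, hzc, hcm, hce, hsemi, hsq⟩
  push Not at hsemi
  obtain ⟨z₀, hz₀, v₀, hzv, hv₀, hz1⟩ := hsemi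
  obtain ⟨B, ⟨hBZ, hB0⟩, hBmax⟩ := WellFounded.has_min
    (InvImage.wf (fun B : Subgroup G => Nat.card G - Nat.card B) wellFounded_lt)
    {B | B ≤ Z ∧ fx V B ≠ ⊥} ⟨Z ⊓ MulAction.stabilizer G v₀, inf_le_left, by
      intro h
      have : v₀ ∈ fx V (Z ⊓ MulAction.stabilizer G v₀) := fun b hb => hb.2
      rw [h] at this
      exact hv₀ this⟩
  have hBmax' : ∀ B' : Subgroup G, B' ≤ Z → ∀ v ∈ fx V B', v ≠ 0 → Nat.card B' ≤ Nat.card B := by
    intro B' h1 v hv hv0
    have h2 := hBmax B' ⟨h1, fun h => hv0 (by rw [h] at hv; exact hv)⟩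
    have h3 := Subgroup.card_le_card_group B'
    have h4 := Subgroup.card_le_card_group B
    simp only [InvImage] at h2
    omega
  have hst : ∀ (g : G), ∀ v ∈ fx V B, v ≠ 0 → ∀ z ∈ Z, z • g • v = g • v → g⁻¹ * z * g ∈ B := by
    intro g v hv hv0 z hz h
    have h1 : B ≤ Z ⊓ MulAction.stabilizer G v := le_inf hBZ (fun b hb => hv b hb)
    have h2 := hBmax' (Z ⊓ MulAction.stabilizer G v) inf_le_left v (fun b hb => hb.2) hv0
    have h3 := eq_of_le_of_card_ge h1 h2
    rw [h3]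
    refine ⟨by simpa using hZn.conj_mem z hz g⁻¹, ?_⟩
    show (g⁻¹ * z * g) • v = v
    rw [mul_smul, mul_smul, h, inv_smul_smul]
  have hB1 : B ≠ ⊥ := by
    intro h
    have := hBmax' (Z ⊓ MulAction.stabilizer G v₀) inf_le_left v₀ (fun b hb => hb.2) hv₀
    rw [h, card_bot] at this
    have h2 := (card_le_one_iff_eq_bot _).mp this
    have : z₀ ∈ Z ⊓ MulAction.stabilizer G v₀ := ⟨hz₀, hzv⟩
    rw [h2] at this
    exact hz1 this
  let N := normalizer (B : Set G)
  let W := fx V B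
  have hW : ∀ a : N, ∀ v ∈ W, a • v ∈ W := fun a v hv => smul_mem_fx a.2 hv
  have hZN : Z ≤ N := by
    intro z hz x
    have : ∀ x ∈ Z, z * x * z⁻¹ = x := fun x hx => by
      rw [hzc z hz x (hZF hx), mul_inv_cancel_right]
    constructor
    · intro hx; rw [this x (hBZ hx)]; exact hx
    · intro hx
      have h1 : x ∈ Z := by simpa [mul_assoc] using hZn.conj_mem _ (hBZ hx) z⁻¹
      rwa [this x h1] at hx
  haveI := Fintype.ofFinite (G ⧸ N)
  have hind : ∀ w : G ⧸ N → V, (∀ ω, w ω ∈ W) → ∑ ω, ω.out • w ω = 0 → ∀ ω, w ω = 0 := by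
    intro w hw hsum ω
    have := indep_of_sep (fun ω : G ⧸ N => W.map (DistribMulAction.toAddMonoidHom V ω.out)) ?_
      Finset.univ (fun ω => ω.out • w ω) (fun ω => ⟨w ω, hw ω, rfl⟩) hsum ω (Finset.mem_univ _)
    · exact (smul_eq_zero_iff_eq _).mp this
    intro i j hij
    obtain ⟨b, hb, hb2⟩ : ∃ b ∈ B, j.out⁻¹ * (i.out * b * i.out⁻¹) * j.out ∉ B := by
      by_contra hcon
      push Not at hcon
      apply hij
      rw [← i.out_eq', ← j.out_eq', eq_comm, QuotientGroup.eq]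
      apply mem_normalizer_fintype
      intro b hb
      have := hcon b hb
      simpa [mul_assoc] using this
    have hz : i.out * b * i.out⁻¹ ∈ Z := hZn.conj_mem _ (hBZ hb) _
    refine ⟨DistribMulAction.toAddMonoidHom V (i.out * b * i.out⁻¹) - AddMonoidHom.id V, ?_, ?_, ?_⟩
    · rintro k _ ⟨w, hw, rfl⟩
      have h1 : k.out⁻¹ * (i.out * b * i.out⁻¹) * k.out ∈ N :=
        hZN (by simpa using hZn.conj_mem _ hz k.out⁻¹)
      refine ⟨(k.out⁻¹ * (i.out * b * i.out⁻¹) * k.out) • w - w, sub_mem (hW ⟨_, h1⟩ w hw) hw, ?_⟩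
      simp [smul_sub, mul_smul]
    · rintro _ ⟨w, hw, rfl⟩
      simp [mul_smul, hw b hb]
    · rintro _ ⟨w, hw, rfl⟩ h
      by_contra h0
      apply hb2
      apply hst _ w hw (fun e => h0 (by simp [e])) _ hz
      simpa [sub_eq_zero] using h
  have hspan : ∀ W' : AddSubgroup V, W' ≠ ⊥ →
      ∀ U : AddSubgroup V, (∀ (g : G), ∀ w ∈ W', g • w ∈ U) → U = ⊤ := by
    intro W' hW' U hU
    let X : AddSubgroup V := ⨅ g : G, U.comap (DistribMulAction.toAddMonoidHom V g)
    have hX : ∀ v, v ∈ X ↔ ∀ g : G, g • v ∈ U := fun v => by simp [X, AddSubgroup.mem_iInf]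
    rcases hirr X (fun a v hv => by
      rw [hX] at hv ⊢; intro g; rw [← mul_smul]; exact hv _) with h | h
    · exfalso; apply hW'
      rw [eq_bot_iff, ← h]
      intro w hw; rw [hX]; exact fun g => hU g w hw
    · rw [eq_top_iff]
      intro v _
      have : v ∈ X := by rw [h]; trivial
      simpa using (hX v).mp this 1
  have hW1 : W ≠ ⊤ := by
    intro h
    apply hB1
    rw [eq_bot_iff]
    intro b hb
    exact hf b (fun v => (show v ∈ W by rw [h]; trivial) b hb)
  letI := subAct W hW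
  haveI hWnt : Nontrivial W := (AddSubgroup.nontrivial_iff_ne_bot W).mpr hB0
  refine base_of_imprim (κ := κ) N W hW hind (hspan W hB0) (hC G _ ?_ hG) ?_
  · obtain ⟨w₀, hw₀⟩ := exists_ne (0 : W)
    have hw₀' : (w₀ : V) ≠ 0 := fun e => hw₀ (Subtype.ext e)
    have : Nat.card (G ⧸ N) ≤ Nat.card {v : V // v ≠ 0} := by
      apply Nat.card_le_card_of_injective
        (fun ω : G ⧸ N => (⟨ω.out • (w₀ : V), fun e => hw₀' ((smul_eq_zero_iff_eq _).mp e)⟩ :
          {v : V // v ≠ 0}))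
      intro i j hij
      by_contra hne
      have h1 : i.out • (w₀ : V) = j.out • (w₀ : V) := congrArg Subtype.val hij
      have h2 := hind (fun ω => (if ω = i then (w₀ : V) else 0) - if ω = j then (w₀ : V) else 0)
        (fun ω => sub_mem (by split_ifs; exacts [w₀.2, zero_mem _])
          (by split_ifs; exacts [w₀.2, zero_mem _])) (by
          simp only [smul_sub, Finset.sum_sub_distrib, smul_ite, smul_zero, Finset.sum_ite_eq',
            Finset.mem_univ, if_true, h1, sub_self]) i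
      simp [hne] at h2
      exact hw₀ h2
    have h2 : Nat.card {v : V // v ≠ 0} < Nat.card V :=
      Finite.card_subtype_lt (x := 0) (by simp)
    omega
  · refine hV N W (hG.subgroup N) (fun v => Subtype.ext (he v)) hWnt (hsub N W hW hW1 (Irr.cr ?_))
    intro U hU
    by_cases hU0 : U = ⊥
    · exact Or.inl hU0
    right
    let X : AddSubgroup V :=
      { carrier := {v | ∃ w : G ⧸ N → W, (∀ ω, w ω ∈ U) ∧ v = ∑ ω, ω.out • (w ω : V)}
        zero_mem' := ⟨0, fun _ => zero_mem _, by simp⟩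
        add_mem' := by
          rintro _ _ ⟨w, hw, rfl⟩ ⟨w', hw', rfl⟩
          exact ⟨w + w', fun ω => add_mem (hw ω) (hw' ω), by simp [Finset.sum_add_distrib]⟩
        neg_mem' := by
          rintro _ ⟨w, hw, rfl⟩
          exact ⟨-w, fun ω => neg_mem (hw ω), by simp⟩ }
    have hX := hspan (U.map W.subtype) (by
      rw [Ne, AddSubgroup.map_eq_bot_iff_of_injective _ W.subtype_injective]; exact hU0) X (by
      rintro g _ ⟨u, hu, rfl⟩
      have h7 : (g : G ⧸ N).out⁻¹ * g ∈ N := by rw [← QuotientGroup.eq, QuotientGroup.out_eq']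
      refine ⟨fun ω => if ω = (g : G ⧸ N) then (⟨_, h7⟩ : N) • u else 0, fun ω => ?_, ?_⟩
      · simp only; split_ifs; exacts [hU _ _ hu, zero_mem _]
      · rw [Finset.sum_eq_single (g : G ⧸ N)]
        · simp only [if_true]
          show _ = _ • ((g : G ⧸ N).out⁻¹ * g) • (u : V)
          simp [mul_smul]
        · intro b _ hb; simp [hb]
        · simp)
    rw [eq_top_iff]
    intro w _
    let ω₁ : G ⧸ N := ((1 : G) : G ⧸ N)
    have h7 : ω₁.out ∈ N := by
      have : ω₁.out⁻¹ * 1 ∈ N := by rw [← QuotientGroup.eq, QuotientGroup.out_eq']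
      simpa using this
    have : ω₁.out • (w : V) ∈ X := by rw [hX]; trivial
    obtain ⟨w', hw', h8⟩ := this
    have h9 := hind (fun ω => (w' ω : V) - if ω = ω₁ then (w : V) else 0)
      (fun ω => sub_mem (w' ω).2 (by split_ifs; exacts [w.2, zero_mem _])) (by
        simp only [smul_sub, Finset.sum_sub_distrib, smul_ite, smul_zero, Finset.sum_ite_eq',
            Finset.mem_univ, if_true, ← h8, sub_self]) ω₁
    simp only [if_true, sub_eq_zero] at h9
    rw [← Subtype.ext h9]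
    exact hw' _

end CfsgH1.BS
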