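import Cfsg.Agent.H1.Base3
import Cfsg.Agent.H2.SdpAct
import Cfsg.Agent.H2.Coprime2

/-! Base sizes, part 4: structure of the quasi-primitive configuration. -/

set_option autoImplicit false
set_option maxHeartbeats 400000
set_option linter.unusedSectionVars false
set_option linter.style.haveILetI false

namespace CfsgH1.BS

open Subgroup
open scoped commutatorElement IsMulCommutative

/-- the action as automorphisms of the multiplicative version -/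
def mulAutOf (G V : Type*) [Group G] [AddCommGroup V] [DistribMulAction G V] :
    G →* MulAut (Multiplicative V) :=
  (MulAutMultiplicative V).symm.toMonoidHom.comp (DistribMulAction.toAddAut G V)

theorem mulAutOf_apply {G V : Type*} [Group G] [AddCommGroup V] [DistribMulAction G V] (g : G)
    (v : Multiplicative V) : mulAutOf G V g v = Multiplicative.ofAdd (g • v.toAdd) := rfl

theorem exists_primary {G : Type*} [Group G] [Finite G] {D : Subgroup G} {c : G} (hc : c ∉ D) :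
    ∃ l : ℕ, l.Prime ∧ ∃ c' ∈ zpowers c, c' ∉ D ∧ ∃ a : ℕ, c' ^ l ^ a = 1 := by
  by_contra h
  push Not at h
  apply hc
  apply CfsgH2.le_of_forall_sylow (H := zpowers c) (K := D) _ (mem_zpowers c)
  intro q hq _
  haveI := Fact.mk hq
  obtain ⟨P, hP⟩ := CfsgH2.exists_isSylowOf (p := q) (zpowers c)
  refine ⟨P, hP, fun x hx => ?_⟩
  by_contra hxD
  obtain ⟨a, ha⟩ := hP.2.1 ⟨x, hx⟩
  exact h q hq x (hP.1 hx) hxD a (congrArg Subtype.val ha)

variable {G V : Type*} [Group G] [Finite G] [AddCommGroup V] [Finite V] [DistribMulAction G V]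

/-- centralizer in `F` -/
def CF (F B : Subgroup G) : Subgroup G := F ⊓ centralizer (B : Set G)

theorem mem_CF {F B : Subgroup G} {c : G} : c ∈ CF F B ↔ c ∈ F ∧ ∀ b ∈ B, b * c = c * b := Iff.rfl

theorem smul_mem_fx_of_CF {F B : Subgroup G} {c : G} (hc : c ∈ CF F B) {v : V} (hv : v ∈ fx V B) :
    c • v ∈ fx V B := fun b hb => by rw [← mul_smul, hc.2 b hb, mul_smul, hv b hb]

/-- a maximal vector stabilizer -/
def MaxSt (V : Type*) [AddCommGroup V] [DistribMulAction G V] (F M : Subgroup G) : Prop :=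
  M ≤ F ∧ fx V M ≠ ⊥ ∧ ∀ v ∈ fx V M, v ≠ 0 → ∀ f ∈ F, f • v = v → f ∈ M

theorem exists_maxSt [Nontrivial V] (F : Subgroup G) : ∃ M, MaxSt V F M := by
  obtain ⟨M, ⟨h1, h2⟩, hmax⟩ := WellFounded.has_min (wellFounded_gt (α := Subgroup G))
    {B | B ≤ F ∧ fx V B ≠ ⊥} ⟨⊥, bot_le, by
      obtain ⟨v, hv⟩ := exists_ne (0 : V)
      intro h
      have : v ∈ fx V (⊥ : Subgroup G) := fun b hb => by rw [mem_bot.mp hb, one_smul]
      rw [h] at this
      exact hv this⟩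
  refine ⟨M, h1, h2, fun v hv hv0 f hf hfv => ?_⟩
  have h3 : M ≤ F ⊓ MulAction.stabilizer G v := le_inf h1 (fun b hb => hv b hb)
  have h4 : M = F ⊓ MulAction.stabilizer G v := by
    by_contra hne
    refine hmax _ ⟨inf_le_left, fun h => hv0 ?_⟩ (lt_of_le_of_ne h3 hne)
    have : v ∈ fx V (F ⊓ MulAction.stabilizer G v) := fun b hb => hb.2
    rwa [h] at this
  rw [h4]; exact ⟨hf, hfv⟩

theorem exists_ne_zero_mem {W : AddSubgroup V} (h : W ≠ ⊥) : ∃ x ∈ W, x ≠ 0 := by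
  by_contra h2; push Not at h2; exact h ((AddSubgroup.eq_bot_iff_forall _).mpr h2)

namespace QP

variable {Z F : Subgroup G} (h : QP V Z F)
include h

theorem commute {z f : G} (hz : z ∈ Z) (hf : f ∈ F) : Commute z f := h.zc z hz f hf

theorem cl {a b c : G} (ha : a ∈ F) (hb : b ∈ F) (hc : c ∈ F) : Commute c ⁅a, b⁆ :=
  (h.commute (h.comm a ha b hb) hc).symm

theorem comm_mul_left {a b c : G} (ha : a ∈ F) (hb : b ∈ F) (hc : c ∈ F) :
    ⁅a * b, c⁆ = ⁅a, c⁆ * ⁅b, c⁆ := by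
  have h1 : ⁅a * b, c⁆ = a * ⁅b, c⁆ * a⁻¹ * ⁅a, c⁆ := by
    simp only [commutatorElement_def]; group
  rw [h1, (h.cl hb hc ha).eq, mul_inv_cancel_right, (h.cl ha hc (h.zf (h.comm _ hb _ hc))).eq]

theorem comm_mul_right {a b c : G} (ha : a ∈ F) (hb : b ∈ F) (hc : c ∈ F) :
    ⁅a, b * c⁆ = ⁅a, b⁆ * ⁅a, c⁆ := by
  have h1 : ⁅a, b * c⁆ = ⁅a, b⁆ * (b * ⁅a, c⁆ * b⁻¹) := by
    simp only [commutatorElement_def]; group
  rw [h1, (h.cl ha hc hb).eq, mul_inv_cancel_right]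

theorem comm_pow_left {a b : G} (ha : a ∈ F) (hb : b ∈ F) (n : ℕ) : ⁅a ^ n, b⁆ = ⁅a, b⁆ ^ n :=
  CfsgH2.comm_pow_left (h.cl ha hb ha) n

theorem comm_pow_right {a b : G} (ha : a ∈ F) (hb : b ∈ F) (n : ℕ) : ⁅a, b ^ n⁆ = ⁅a, b⁆ ^ n :=
  CfsgH2.comm_pow_right (h.cl ha hb hb) n

theorem mul_pow' {a b : G} (ha : a ∈ F) (hb : b ∈ F) (n : ℕ) :
    (a * b) ^ n = a ^ n * b ^ n * ⁅b, a⁆ ^ n.choose 2 :=
  CfsgH2.mul_pow_class_two (h.cl hb ha ha) (h.cl hb ha hb) n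

theorem comm_z_left {z f : G} (hz : z ∈ Z) (hf : f ∈ F) : ⁅z, f⁆ = 1 :=
  commutatorElement_eq_one_iff_mul_comm.mpr (h.zc z hz f hf)

theorem comm_z_right {z f : G} (hz : z ∈ Z) (hf : f ∈ F) : ⁅f, z⁆ = 1 :=
  commutatorElement_eq_one_iff_mul_comm.mpr (h.zc z hz f hf).symm

theorem z_inj {z z' : G} (hz : z ∈ Z) (hz' : z' ∈ Z) {v : V} (hv : v ≠ 0) (e : z • v = z' • v) :
    z = z' := by
  have := h.semi (z'⁻¹ * z) (mul_mem (inv_mem hz') hz) v (by rw [mul_smul, e, inv_smul_smul]) hv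
  exact (inv_mul_eq_one.mp this).symm

theorem pow_mem_of_pow_pow {l : ℕ} {f : G} (hf : f ∈ F) : ∀ a : ℕ, f ^ l ^ a ∈ Z → f ^ l ∈ Z := by
  intro a
  induction a using Nat.strong_induction_on with
  | _ a ih =>
    intro ha
    match a, ih, ha with
    | 0, _, ha => exact pow_mem (by simpa using ha) _
    | 1, _, ha => simpa using ha
    | a + 2, ih, ha =>
      apply ih (a + 1) (by omega)
      have := h.sq l (f ^ l ^ a) (pow_mem hf _) (by rw [← pow_mul, ← mul_assoc, ← pow_succ, ← pow_succ]; exact ha)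
      rwa [← pow_mul, ← pow_succ] at this

theorem card_modEq {l : ℕ} (hl : l.Prime) {ζ : G} (hζ : ζ ∈ Z) (h1 : ζ ≠ 1) (h2 : ζ ^ l = 1) :
    Nat.card V ≡ 1 [MOD l] := by
  haveI := Fact.mk hl
  have hp : IsPGroup l (zpowers ζ) := by
    apply IsPGroup.of_card (n := 1)
    rw [Nat.card_zpowers, pow_one, orderOf_eq_prime h2 h1]
  have h3 := hp.card_modEq_card_fixedPoints V
  have h4 : MulAction.fixedPoints (zpowers ζ) V = {0} := by
    ext v
    simp only [MulAction.mem_fixedPoints, Set.mem_singleton_iff]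
    constructor
    · intro hv
      by_contra hv0
      exact h1 (h.semi ζ hζ v (hv ⟨ζ, mem_zpowers ζ⟩) hv0)
    · rintro rfl m; exact smul_zero m
  rwa [h4, Nat.card_coe_set_eq, Set.ncard_singleton] at h3

theorem nsmul_ne_zero {l : ℕ} (hl : l.Prime) {ζ : G} (hζ : ζ ∈ Z) (h1 : ζ ≠ 1) (h2 : ζ ^ l = 1)
    {x : V} (hx : x ≠ 0) : l • x ≠ 0 := by
  intro e
  have h3 := h.card_modEq hl hζ h1 h2
  have h4 : addOrderOf x ∣ l := addOrderOf_dvd_of_nsmul_eq_zero e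
  have h5 : addOrderOf x ∣ Nat.card V := addOrderOf_dvd_natCard x
  have h6 : (Nat.card V).Coprime l := by
    rw [Nat.coprime_comm, Nat.Prime.coprime_iff_not_dvd hl]
    intro hd
    have := (Nat.ModEq.dvd_iff h3 (dvd_refl l)).mp hd
    exact hl.one_lt.ne' (Nat.dvd_one.mp this)
  exact hx (AddMonoid.addOrderOf_eq_one_iff.mp (Nat.eq_one_of_dvd_coprimes h6 h5 h4))

theorem coprime_card : (Nat.card Z).Coprime (Nat.card V) := by
  apply Nat.Coprime.symm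
  apply Nat.coprime_of_dvd
  intro l hl h1 h2
  haveI := Fact.mk hl
  obtain ⟨ζ, hζ⟩ := exists_prime_orderOf_dvd_card' l h2
  have h3 := h.card_modEq hl ζ.2 (fun e => by
    have : ζ = 1 := Subtype.ext e
    rw [this, orderOf_one] at hζ
    exact hl.one_lt.ne hζ) (by
      have := pow_orderOf_eq_one ζ
      rw [hζ] at this
      exact congrArg Subtype.val this)
  have := (Nat.ModEq.dvd_iff h3 (dvd_refl l)).mp h1
  exact hl.one_lt.ne' (Nat.dvd_one.mp this)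

theorem zcomm : IsMulCommutative Z := ⟨⟨fun a b => Subtype.ext (h.zc a a.2 b (h.zf b.2))⟩⟩

theorem isCyclic [Nontrivial V] : IsCyclic Z := by
  by_contra hc
  have := CfsgH2.eq_top_of_noncyclic ((mulAutOf G V).comp Z.subtype) h.zcomm hc h.coprime_card
    (K := ⊥) (by
      intro a ha x hx
      by_contra hx0
      exact ha (Subtype.ext (h.semi a a.2 x.toAdd (congrArg Multiplicative.toAdd hx) hx0)))
  exact bot_ne_top this

theorem exists_gen [Nontrivial V] : ∃ z₀ ∈ Z, ∀ z ∈ Z, ∃ n : ℕ, z = z₀ ^ n := by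
  obtain ⟨z₀, hz₀⟩ := h.isCyclic.exists_monoid_generator
  refine ⟨z₀, z₀.2, fun z hz => ?_⟩
  obtain ⟨n, hn⟩ := hz₀ ⟨z, hz⟩
  exact ⟨n, (congrArg Subtype.val hn).symm⟩

theorem sum_pow_smul {η : G} (hη : η ∈ Z) (h1 : η ≠ 1) {l : ℕ} (h2 : η ^ l = 1) (v : V) :
    ∑ k ∈ Finset.range l, η ^ k • v = 0 := by
  by_contra h0
  apply h1
  refine h.semi η hη _ ?_ h0
  rw [Finset.smul_sum]
  have h3 := Finset.sum_range_succ' (fun k => η ^ k • v) l
  rw [Finset.sum_range_succ, h2, pow_zero, add_left_inj] at h3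
  rw [h3]
  exact Finset.sum_congr rfl (fun k _ => by rw [pow_succ', mul_smul])

theorem eig {l : ℕ} (hl : l.Prime) {ζ u : G} (hζ : ζ ∈ Z) (h1 : ζ ≠ 1) (h2 : ζ ^ l = 1)
    (hu : u ∈ F) (hul : u ^ l = 1) (U : AddSubgroup V) (hU : U ≠ ⊥) (hUu : ∀ v ∈ U, u • v ∈ U)
    (hUζ : ∀ v ∈ U, ζ • v ∈ U) : ∃ w ∈ U, w ≠ 0 ∧ ∃ k : ℕ, (ζ ^ k * u) • w = w := by
  obtain ⟨x, hx, hx0⟩ := exists_ne_zero_mem hU
  haveI := Fact.mk hl
  have hc : ∀ k : ℕ, Commute (ζ ^ k) u := fun k => h.commute (pow_mem hζ k) hu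
  have hpow : ∀ (g : G), (∀ v ∈ U, g • v ∈ U) → ∀ n : ℕ, ∀ v ∈ U, g ^ n • v ∈ U := by
    intro g hg n
    induction n with
    | zero => intro v hv; simpa using hv
    | succ n ih => intro v hv; rw [pow_succ', mul_smul]; exact hg _ (ih v hv)
  by_contra hcon
  push Not at hcon
  have h3 : ∀ k : ℕ, ∑ j ∈ Finset.range l, (ζ ^ k * u) ^ j • x = 0 := by
    intro k
    by_contra h0
    refine hcon _ (sum_mem (fun j _ => hpow _ (fun v hv => ?_) j x hx)) h0 k ?_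
    · rw [mul_smul]; exact hpow ζ hUζ k _ (hUu v hv)
    · rw [Finset.smul_sum]
      have h3 := Finset.sum_range_succ' (fun j => (ζ ^ k * u) ^ j • x) l
      have h4 : (ζ ^ k * u) ^ l = 1 := by
        rw [(hc k).mul_pow, hul, ← pow_mul, mul_comm, pow_mul, h2, one_pow, one_mul]
      rw [Finset.sum_range_succ, h4, pow_zero, add_left_inj] at h3
      rw [h3]
      exact Finset.sum_congr rfl (fun k _ => by rw [pow_succ' _ k, mul_smul _ (_ ^ k)])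
  have h4 : ∑ k ∈ Finset.range l, ∑ j ∈ Finset.range l, (ζ ^ k * u) ^ j • x = 0 :=
    Finset.sum_eq_zero (fun k _ => h3 k)
  rw [Finset.sum_comm, Finset.sum_eq_single 0] at h4
  · exact h.nsmul_ne_zero hl hζ h1 h2 hx0 (by simpa using h4)
  · intro j hj hj0
    have h5 : ζ ^ j ≠ 1 := by
      intro e
      have := orderOf_dvd_of_pow_eq_one e
      rw [orderOf_eq_prime h2 h1] at this
      exact hj0 (Nat.eq_zero_of_dvd_of_lt this (Finset.mem_range.mp hj))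
    rw [← h.sum_pow_smul (pow_mem hζ j) h5 (l := l) (by rw [← pow_mul, mul_comm, pow_mul, h2, one_pow])
      (u ^ j • x)]
    refine Finset.sum_congr rfl (fun k _ => ?_)
    rw [(hc k).mul_pow, mul_smul, ← pow_mul, ← pow_mul, mul_comm]
  · intro h0; exact absurd (Finset.mem_range.mpr hl.pos) h0

theorem root [Nontrivial V] {l : ℕ} (hl : l.Prime) {ζ η : G} (hζ : ζ ∈ Z) (h1 : ζ ≠ 1)
    (h2 : ζ ^ l = 1) (hη : η ∈ Z) (h3 : η ^ l = 1) : ∃ k : ℕ, η = ζ ^ k := by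
  obtain ⟨w, _, hw, k, hk⟩ := h.eig hl hζ h1 h2 (inv_mem (h.zf hη)) (by rw [inv_pow, h3, inv_one]) ⊤
    top_ne_bot (fun _ _ => trivial) (fun _ _ => trivial)
  have := h.semi _ (mul_mem (pow_mem hζ k) (inv_mem hη)) w hk hw
  exact ⟨k, (mul_inv_eq_one.mp this).symm⟩

theorem neg_of_invol {ε : G} (hε : ε ∈ Z) (h1 : ε ≠ 1) (h2 : ε * ε = 1) (v : V) : ε • v = -v := by
  have := h.sum_pow_smul hε h1 (l := 2) (by rw [pow_two, h2]) v
  simp only [Finset.sum_range_succ, Finset.sum_range_zero, pow_zero, one_smul, pow_one, zero_add] at this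
  exact eq_neg_of_add_eq_zero_right this

theorem invol_cases [Nontrivial V] {ε η : G} (hε : ε ∈ Z) (h1 : ε ≠ 1) (h2 : ε * ε = 1)
    (hη : η ∈ Z) (h3 : η * η = 1) : η = 1 ∨ η = ε := by
  by_cases h4 : η = 1
  · exact Or.inl h4
  obtain ⟨v, hv⟩ := exists_ne (0 : V)
  exact Or.inr (h.z_inj hη hε hv (by rw [h.neg_of_invol hε h1 h2, h.neg_of_invol hη h4 h3]))

theorem dual [Nontrivial V] {B : Subgroup G} (hB : B ≤ F) {b : G} (hb : b ∈ F) (hbB : b ∉ B ⊔ Z) :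
    ∃ c ∈ CF F B, ⁅b, c⁆ ≠ 1 := by
  classical
  haveI := h.zn
  haveI := h.isCyclic
  haveI : NeZero (Nat.card Z) := ⟨Nat.card_pos.ne'⟩
  let ι : Z →* ℂˣ := (rootsOfUnity (Nat.card Z) ℂ).subtype.comp
    (mulEquivOfCyclicCardEq (G := Z) (G' := rootsOfUnity (Nat.card Z) ℂ)
      (Complex.card_rootsOfUnity _).symm).toMonoidHom
  have hι : Function.Injective ι :=
    (Subgroup.subtype_injective _).comp (MulEquiv.injective _)
  haveI : IsMulCommutative (F ⧸ Z.subgroupOf F) := by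
    constructor; constructor
    intro a b
    obtain ⟨a, rfl⟩ := QuotientGroup.mk_surjective a
    obtain ⟨b, rfl⟩ := QuotientGroup.mk_surjective b
    rw [← QuotientGroup.mk_mul, ← QuotientGroup.mk_mul, QuotientGroup.eq, mem_subgroupOf]
    have := h.comm _ (inv_mem b.2) _ (inv_mem a.2)
    simpa [commutatorElement_def, mul_assoc] using this
  let χ : F → (F →* ℂˣ) := fun c => MonoidHom.mk' (fun f => ι ⟨⁅(f : G), (c : G)⁆, h.comm _ f.2 _ c.2⟩)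
    (fun a b => by rw [← map_mul]; congr 1; exact Subtype.ext (h.comm_mul_left a.2 b.2 c.2))
  have hχ : ∀ c, ∀ x ∈ Z.subgroupOf F, χ c x = 1 := by
    intro c x hx
    show ι _ = 1
    rw [← map_one ι]; congr 1
    exact Subtype.ext (h.comm_z_left hx c.2)
  let Θ : F ⧸ Z.subgroupOf F → (F ⧸ Z.subgroupOf F →* ℂˣ) :=
    fun q => QuotientGroup.lift _ (χ q.out) (hχ _)
  haveI : NeZero ((Monoid.exponent (F ⧸ Z.subgroupOf F) : ℕ) : ℂ) :=
    ⟨Nat.cast_ne_zero.mpr Monoid.exponent_ne_zero_of_finite⟩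
  have hcard := CommGroup.card_monoidHom_of_hasEnoughRootsOfUnity (F ⧸ Z.subgroupOf F) ℂ
  have hinj : Function.Injective Θ := by
    intro q q' e
    rw [← q.out_eq', ← q'.out_eq', QuotientGroup.eq, mem_subgroupOf]
    apply h.cent
    intro f hf
    have h1 : χ q.out ⟨f, hf⟩ = χ q'.out ⟨f, hf⟩ :=
      DFunLike.congr_fun e (QuotientGroup.mk (⟨f, hf⟩ : F))
    have h2 : ⁅f, (q.out : G)⁆ = ⁅f, (q'.out : G)⁆ := congrArg Subtype.val (hι h1)
    have h3 := h.comm_mul_right hf q.out.2 (mul_mem (inv_mem q.out.2) q'.out.2)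
    rw [mul_inv_cancel_left, ← h2, left_eq_mul, commutatorElement_eq_one_iff_mul_comm] at h3
    exact h3.symm
  haveI : Finite (F ⧸ Z.subgroupOf F →* ℂˣ) := by
    apply Nat.finite_of_card_ne_zero; rw [hcard]; exact Nat.card_pos.ne'
  have hsurj : Function.Surjective Θ :=
    ((Nat.bijective_iff_injective_and_card Θ).mpr ⟨hinj, hcard.symm⟩).2
  have hn : (QuotientGroup.mk ⟨b, hb⟩ : F ⧸ Z.subgroupOf F) ∉
      (B.subgroupOf F).map (QuotientGroup.mk' _) := by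
    rintro ⟨x, hx, hxb⟩
    apply hbB
    have : x⁻¹ * ⟨b, hb⟩ ∈ Z.subgroupOf F := QuotientGroup.eq.mp hxb
    have h2 : (x : G) * ((x⁻¹ * ⟨b, hb⟩ : F) : G) ∈ B ⊔ Z := mul_mem_sup hx this
    simpa using h2
  rw [← CommGroup.forall_monoidHom_apply_eq_one_iff (M := ℂ)] at hn
  push Not at hn
  obtain ⟨φ, h1, h2⟩ := hn
  obtain ⟨q, rfl⟩ := hsurj φ
  refine ⟨q.out, ⟨q.out.2, fun x hx => ?_⟩, fun e => h2 ?_⟩
  · have := h1 _ ⟨⟨x, hB hx⟩, hx, rfl⟩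
    have h3 : ι ⟨⁅x, (q.out : G)⁆, h.comm _ (hB hx) _ q.out.2⟩ = ι 1 := by rw [map_one]; exact this
    exact commutatorElement_eq_one_iff_mul_comm.mp (congrArg Subtype.val (hι h3))
  · show ι _ = 1
    rw [← map_one ι]; congr 1
    exact Subtype.ext e

theorem z_le_CF {B : Subgroup G} (hB : B ≤ F) : Z ≤ CF F B :=
  fun z hz => ⟨h.zf hz, fun b hb => (h.zc z hz b (hB hb)).symm⟩

theorem eq_one_of_fix {B : Subgroup G} (hB : fx V B ≠ ⊥) {b : G} (hb : b ∈ B) (hz : b ∈ Z) :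
    b = 1 := by
  obtain ⟨x, hx, hx0⟩ := exists_ne_zero_mem hB
  exact h.semi b hz x (hx b hb) hx0

theorem le_CF {B : Subgroup G} (hBF : B ≤ F) (hB : fx V B ≠ ⊥) : B ≤ CF F B := fun b hb =>
  ⟨hBF hb, fun b' hb' => commutatorElement_eq_one_iff_mul_comm.mp (h.eq_one_of_fix hB
    (commutator_le_self B (commutator_mem_commutator hb' hb)) (h.comm _ (hBF hb') _ (hBF hb)))⟩

theorem comm_eq_one_of_mem_sup {B : Subgroup G} {d c : G} (hd : d ∈ B ⊔ Z) (hc : c ∈ CF F B) :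
    ⁅d, c⁆ = 1 := by
  have : B ⊔ Z ≤ centralizer {c} := sup_le
    (fun b hb => mem_centralizer_singleton_iff.mpr (hc.2 b hb))
    (fun z hz => mem_centralizer_singleton_iff.mpr (h.zc z hz c hc.1))
  exact commutatorElement_eq_one_iff_mul_comm.mpr (mem_centralizer_singleton_iff.mp (this hd))

variable [Nontrivial V] {M : Subgroup G} (hM : MaxSt V F M)
include hM

theorem pel_ne {l : ℕ} (hl : l.Prime) {c : G} (hc : c ∈ CF F M) (hcM : c ∉ M ⊔ Z) {z : G}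
    (hz : z ∈ Z) : c ^ l ≠ z ^ l := by
  intro e
  obtain ⟨d, hd, hcd⟩ := h.dual hM.1 hc.1 hcM
  have hζ := h.comm _ hc.1 _ hd.1
  have h1 : ⁅c, d⁆ ^ l = 1 := by
    rw [← h.comm_pow_left hc.1 hd.1, e, h.comm_z_left (pow_mem hz _) hd.1]
  have hu : c * z⁻¹ ∈ CF F M := mul_mem hc (h.z_le_CF hM.1 (inv_mem hz))
  obtain ⟨w, hw, hw0, k, hk⟩ := h.eig hl hζ hcd h1 hu.1 (by
    rw [(h.commute (inv_mem hz) hc.1).symm.mul_pow, e, inv_pow, mul_inv_cancel]) (fx V M) hM.2.1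
    (fun v hv => smul_mem_fx_of_CF hu hv) (fun v hv => smul_mem_fx_of_CF (h.z_le_CF hM.1 hζ) hv)
  have h2 := hM.2.2 w hw hw0 _ (mul_mem (pow_mem (h.zf hζ) k) hu.1) hk
  apply hcM
  have : c = (⁅c, d⁆ ^ k)⁻¹ * (⁅c, d⁆ ^ k * (c * z⁻¹)) * z := by group
  rw [this]
  exact mul_mem (mul_mem (mem_sup_right (inv_mem (pow_mem hζ k))) (mem_sup_left h2)) (mem_sup_right hz)

theorem exists_pel {c : G} (hc : c ∈ CF F M) {D : Subgroup G} (hD : c ∉ D) :
    ∃ l : ℕ, l.Prime ∧ ∃ c' ∈ zpowers c, c' ∈ CF F M ∧ c' ∉ D ∧ c' ^ l ∈ Z := by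
  obtain ⟨l, hl, c', h1, h2, a, ha⟩ := exists_primary hD
  have h3 : c' ∈ CF F M := (zpowers_le.mpr hc) h1
  exact ⟨l, hl, c', h1, h3, h2, h.pow_mem_of_pow_pow h3.1 a (by rw [ha]; exact one_mem _)⟩

theorem pel_two {l : ℕ} (hl : l.Prime) {c : G} (hc : c ∈ CF F M) (hcM : c ∉ M ⊔ Z)
    (hcl : c ^ l ∈ Z) : l = 2 ∧ ∃ e ∈ CF F M, e ^ 2 ∈ Z ∧ ⁅c, e⁆ ≠ 1 ∧ ∀ z ∈ Z, ⁅c, e⁆ ≠ z ^ 2 := by
  obtain ⟨d, hd, hcd⟩ := h.dual hM.1 hc.1 hcM
  obtain ⟨q, hq, e, _, he, he2, heq⟩ := h.exists_pel hM hd (D := centralizer {c}) (fun h1 =>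
    hcd (commutatorElement_eq_one_iff_mul_comm.mpr (mem_centralizer_singleton_iff.mp h1).symm))
  have hce : ⁅c, e⁆ ≠ 1 := fun h1 =>
    he2 (mem_centralizer_singleton_iff.mpr (commutatorElement_eq_one_iff_mul_comm.mp h1).symm)
  have h1 : ⁅c, e⁆ ^ l = 1 := by rw [← h.comm_pow_left hc.1 he.1, h.comm_z_left hcl he.1]
  have h2 : ⁅c, e⁆ ^ q = 1 := by rw [← h.comm_pow_right hc.1 he.1, h.comm_z_right heq hc.1]
  have hql : q = l := by
    haveI := Fact.mk hl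
    haveI := Fact.mk hq
    rw [← orderOf_eq_prime h1 hce, orderOf_eq_prime h2 hce]
  subst hql
  obtain ⟨z₀, hz₀, hgen⟩ := h.exists_gen
  obtain ⟨α, hα⟩ := hgen _ hcl
  obtain ⟨β, hβ⟩ := hgen _ heq
  have hαl : ¬ q ∣ α := by
    rintro ⟨k, rfl⟩
    exact h.pel_ne hM hl hc hcM (pow_mem hz₀ k) (by rw [hα, ← pow_mul, mul_comm])
  obtain ⟨k, s, hks⟩ : ∃ k s : ℕ, α * k + β = q * s := by
    haveI := Fact.mk hl
    have h3 : (α : ZMod q) ≠ 0 := fun e => hαl ((ZMod.natCast_eq_zero_iff _ _).mp e)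
    have h4 : ((α * (-(β : ZMod q) / α).val + β : ℕ) : ZMod q) = 0 := by
      push_cast
      rw [ZMod.natCast_zmod_val]
      field_simp
      ring
    obtain ⟨s, hs⟩ := (ZMod.natCast_eq_zero_iff _ _).mp h4
    exact ⟨_, s, hs⟩
  have hx : c ^ k * e ∈ CF F M := mul_mem (pow_mem hc k) he
  have hxM : c ^ k * e ∉ M ⊔ Z := by
    intro h3
    have h4 := h.comm_eq_one_of_mem_sup h3 hc
    rw [h.comm_mul_left (pow_mem hc.1 k) he.1 hc.1, h.comm_pow_left hc.1 hc.1,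
      commutatorElement_self, one_pow, one_mul] at h4
    exact hce (by rw [← commutatorElement_inv, h4, inv_one])
  have hxp : (c ^ k * e) ^ q = (z₀ ^ s) ^ q * (⁅c, e⁆⁻¹ ^ k) ^ q.choose 2 := by
    rw [h.mul_pow' (pow_mem hc.1 k) he.1, h.comm_pow_right he.1 hc.1, commutatorElement_inv,
      ← pow_mul c, mul_comm k q, pow_mul c, hα, hβ, ← pow_mul, ← pow_add, hks, ← pow_mul z₀ s q,
      mul_comm s q]
  have hq2 : q = 2 := by
    by_contra hne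
    obtain ⟨t, ht⟩ := hl.dvd_choose_self (k := 2) (by omega) (by have := hl.two_le; omega)
    apply h.pel_ne hM hl hx hxM (pow_mem hz₀ s)
    rw [hxp, ht, pow_mul, ← pow_mul _ k q, mul_comm k q, pow_mul, inv_pow, h1]
    simp
  subst hq2
  refine ⟨rfl, e, he, heq, hce, fun z hz hez => ?_⟩
  apply h.pel_ne hM hl hx hxM (mul_mem (pow_mem hz₀ s) (pow_mem (inv_mem hz) k))
  rw [hxp, hez, (h.commute (pow_mem hz₀ s) (h.zf (pow_mem (inv_mem hz) k))).mul_pow]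
  simp only [Nat.choose_self, pow_one, inv_pow, ← pow_mul, mul_comm k 2]

omit hM in
theorem nonsq_mul {a b : G} (ha : a ∈ Z) (hb : b ∈ Z) (h1 : ∀ z ∈ Z, a ≠ z ^ 2)
    (h2 : ∀ z ∈ Z, b ≠ z ^ 2) : ∃ w ∈ Z, a * b = w ^ 2 := by
  obtain ⟨z₀, hz₀, hgen⟩ := h.exists_gen
  obtain ⟨α, rfl⟩ := hgen _ ha
  obtain ⟨β, rfl⟩ := hgen _ hb
  rcases Nat.even_or_odd' α with ⟨s, rfl | rfl⟩
  · exact absurd (by rw [← pow_mul, mul_comm]) (h1 _ (pow_mem hz₀ s))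
  rcases Nat.even_or_odd' β with ⟨t, rfl | rfl⟩
  · exact absurd (by rw [← pow_mul, mul_comm]) (h2 _ (pow_mem hz₀ t))
  exact ⟨z₀ ^ (s + t + 1), pow_mem hz₀ _, by rw [← pow_add, ← pow_mul]; congr 1; ring⟩

theorem struct : CF F M ≤ M ⊔ Z ∨ ∃ i ∈ CF F M, ∃ j ∈ CF F M, ∃ ε ∈ Z, ε ≠ 1 ∧ ε * ε = 1 ∧
    i * i = ε ∧ j * j = ε ∧ ⁅i, j⁆ = ε ∧ (∀ z ∈ Z, ε ≠ z ^ 2) ∧
      ∀ u ∈ CF F M, ∃ a b : ℕ, u * i ^ a * j ^ b ∈ M ⊔ Z := by
  by_cases h0 : CF F M ≤ M ⊔ Z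
  · exact Or.inl h0
  right
  obtain ⟨c₀, hc₀, hc₀M⟩ := SetLike.not_le_iff_exists.mp h0
  obtain ⟨l, hl, c, _, hc, hcM, hcl⟩ := h.exists_pel hM hc₀ hc₀M
  obtain ⟨rfl, e, he, he2, hce, hns⟩ := h.pel_two hM hl hc hcM hcl
  have hε := h.comm _ hc.1 _ he.1
  have hεε : ⁅c, e⁆ * ⁅c, e⁆ = 1 := by
    rw [← pow_two, ← h.comm_pow_left hc.1 he.1, h.comm_z_left hcl he.1]
  have heM : e ∉ M ⊔ Z := fun h1 =>
    hce (by rw [← commutatorElement_inv, h.comm_eq_one_of_mem_sup h1 hc, inv_one])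
  have norm : ∀ c ∈ CF F M, c ∉ M ⊔ Z → c ^ 2 ∈ Z → ∀ ε ∈ Z, ε * ε = 1 → (∀ z ∈ Z, ε ≠ z ^ 2) →
      ∃ w ∈ Z, (c * w) * (c * w) = ε := by
    intro c hc hcM hc2 ε hε hεε hns
    obtain ⟨w, hw, hw2⟩ := h.nonsq_mul hc2 hε (fun z hz => h.pel_ne hM hl hc hcM hz) hns
    refine ⟨w⁻¹, inv_mem hw, ?_⟩
    rw [← pow_two, (h.commute (inv_mem hw) hc.1).symm.mul_pow, inv_pow, ← hw2, mul_inv_rev,
      ← mul_assoc, ← (h.commute (inv_mem hε) (pow_mem hc.1 2)).eq, mul_inv_cancel_right,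
      inv_eq_iff_mul_eq_one, hεε]
  obtain ⟨w, hw, hi⟩ := norm c hc hcM hcl _ hε hεε hns
  obtain ⟨w', hw', hj⟩ := norm e he heM he2 _ hε hεε hns
  have hiC : c * w ∈ CF F M := mul_mem hc (h.z_le_CF hM.1 hw)
  have hjC : e * w' ∈ CF F M := mul_mem he (h.z_le_CF hM.1 hw')
  have hij : ⁅c * w, e * w'⁆ = ⁅c, e⁆ := by
    rw [h.comm_mul_left hc.1 (h.zf hw) hjC.1, h.comm_z_left hw hjC.1, mul_one,
      h.comm_mul_right hc.1 he.1 (h.zf hw'), h.comm_z_right hw' hc.1, mul_one]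
  refine ⟨c * w, hiC, e * w', hjC, _, hε, hce, hεε, hi, hj, hij, hns, ?_⟩
  generalize c * w = i at hi hiC hij
  generalize e * w' = j at hj hjC hij
  generalize ⁅c, e⁆ = ε at hi hj hij hε hεε hns hce
  have hji : ⁅j, i⁆ = ε := by rw [← commutatorElement_inv, hij, inv_eq_iff_mul_eq_one, hεε]
  intro u hu
  have hcase : ∀ x ∈ CF F M, x * x = ε → ∀ u ∈ CF F M, ∃ a : ℕ, ⁅u, x⁆ * ε ^ a = 1 := by
    intro x hx hxx u hu
    rcases h.invol_cases hε hce hεε (h.comm _ hu.1 _ hx.1) (by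
      rw [← h.comm_mul_right hu.1 hx.1 hx.1, hxx, h.comm_z_right hε hu.1]) with h1 | h1
    · exact ⟨0, by rw [h1]; simp⟩
    · exact ⟨1, by rw [h1, pow_one, hεε]⟩
  obtain ⟨a, ha⟩ := hcase j hjC hj u hu
  obtain ⟨b, hb⟩ := hcase i hiC hi u hu
  refine ⟨a, b, ?_⟩
  have hu' : u * i ^ a * j ^ b ∈ CF F M := mul_mem (mul_mem hu (pow_mem hiC a)) (pow_mem hjC b)
  have h1 : ⁅u * i ^ a * j ^ b, i⁆ = 1 := by
    rw [h.comm_mul_left (mul_mem hu.1 (pow_mem hiC.1 a)) (pow_mem hjC.1 b) hiC.1,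
      h.comm_mul_left hu.1 (pow_mem hiC.1 a) hiC.1, h.comm_pow_left hiC.1 hiC.1,
      h.comm_pow_left hjC.1 hiC.1, commutatorElement_self, one_pow, mul_one, hji, hb]
  have h2 : ⁅u * i ^ a * j ^ b, j⁆ = 1 := by
    rw [h.comm_mul_left (mul_mem hu.1 (pow_mem hiC.1 a)) (pow_mem hjC.1 b) hjC.1,
      h.comm_mul_left hu.1 (pow_mem hiC.1 a) hjC.1, h.comm_pow_left hiC.1 hjC.1,
      h.comm_pow_left hjC.1 hjC.1, commutatorElement_self, one_pow, mul_one, hij, ha]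
  by_contra hcon
  obtain ⟨q, hq, c', hc'z, hc', hc'M, hc'q⟩ := h.exists_pel hM hu' hcon
  obtain ⟨rfl, -⟩ := h.pel_two hM hq hc' hc'M hc'q
  have h3 : ∀ x, ⁅u * i ^ a * j ^ b, x⁆ = 1 → Commute c' x := fun x hx =>
    mem_centralizer_singleton_iff.mp ((zpowers_le.mpr (mem_centralizer_singleton_iff.mpr
      (commutatorElement_eq_one_iff_mul_comm.mp hx))) hc'z)
  obtain ⟨w, hw, hw2⟩ := h.nonsq_mul hc'q hε (fun z hz => h.pel_ne hM hq hc' hc'M hz) hns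
  refine h.pel_ne hM hq (mul_mem hc' hiC) (fun h4 => ?_) hw ?_
  · have h5 := h.comm_eq_one_of_mem_sup h4 hjC
    rw [h.comm_mul_left hc'.1 hiC.1 hjC.1, commutatorElement_eq_one_iff_mul_comm.mpr (h3 j h2),
      one_mul, hij] at h5
    exact hce h5
  · rw [(h3 i h1).mul_pow, pow_two i, hi, hw2]

end QP

end CfsgH1.BS
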