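import Cfsg.Agent.H1.Base4

/-! Base sizes, part 5: the eigenspace decomposition and the one-step construction. -/

set_option autoImplicit false
set_option maxHeartbeats 400000
set_option linter.unusedSectionVars false
set_option linter.style.haveILetI false

namespace CfsgH1.BS

open Subgroup
open scoped commutatorElement

universe u

theorem eq_top_of_large {X : Type*} [Group X] [Finite X] (D : Subgroup X) (T : Set X)
    (h : 2 * T.ncard < Nat.card X) (hD : ∀ x, x ∉ T → x ∈ D) : D = ⊤ := by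
  by_contra hne
  have h1 : 2 ≤ D.index := by
    have := D.index_ne_zero_of_finite
    have h2 : D.index ≠ 1 := fun e => hne (index_eq_one.mp e)
    omega
  have h2 := D.index_mul_card
  have h3 : Tᶜ.ncard ≤ Nat.card D := by
    rw [← Nat.card_coe_set_eq]
    exact Nat.card_le_card_of_injective (fun x : ↥Tᶜ => (⟨x.1, hD _ x.2⟩ : D))
      (fun a b e => Subtype.ext (congrArg (fun y : D => (y : X)) e))
  have h4 := Set.ncard_add_ncard_compl T
  nlinarith

variable {G V : Type*} [Group G] [Finite G] [AddCommGroup V] [Finite V] [DistribMulAction G V]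

/-- elements of `C_F(B)` fixed by `g` modulo `B` -/
def KS (F B : Subgroup G) (g : G) : Subgroup G where
  carrier := {c | c ∈ CF F B ∧ c⁻¹ * (g * c * g⁻¹) ∈ B}
  one_mem' := ⟨one_mem _, by simp⟩
  mul_mem' := by
    rintro a b ⟨ha, ha'⟩ ⟨hb, hb'⟩
    refine ⟨mul_mem ha hb, ?_⟩
    have : (a * b)⁻¹ * (g * (a * b) * g⁻¹) =
        b⁻¹ * ((a⁻¹ * (g * a * g⁻¹)) * b) * (b⁻¹ * (g * b * g⁻¹)) := by group
    rw [this, hb.2 _ ha', inv_mul_cancel_left]
    exact mul_mem ha' hb'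
  inv_mem' := by
    rintro a ⟨ha, ha'⟩
    refine ⟨inv_mem ha, ?_⟩
    have : a⁻¹⁻¹ * (g * a⁻¹ * g⁻¹) = a * (a⁻¹ * (g * a * g⁻¹))⁻¹ * a⁻¹ := by group
    rw [this, ← ha.2 _ (inv_mem ha'), mul_inv_cancel_right]
    exact inv_mem ha'

theorem mem_KS {F B : Subgroup G} {g c : G} :
    c ∈ KS F B g ↔ c ∈ CF F B ∧ c⁻¹ * (g * c * g⁻¹) ∈ B := Iff.rfl

/-- `g` acts trivially on `C_F(B)/B` -/
def Kill (F B : Subgroup G) (g : G) : Prop := CF F B ≤ KS F B g

/-- `B` is the stabilizer of `x` in `F` -/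
def IsSt (F B : Subgroup G) (x : V) : Prop :=
  x ≠ 0 ∧ B ≤ F ∧ x ∈ fx V B ∧ ∀ f ∈ F, f • x = x → f ∈ B

theorem MaxSt.isSt {F M : Subgroup G} (h : MaxSt V F M) {x : V} (hx : x ∈ fx V M) (h0 : x ≠ 0) :
    IsSt F M x := ⟨h0, h.1, hx, h.2.2 x hx h0⟩

theorem IsSt.ne_bot {F B : Subgroup G} {x : V} (h : IsSt F B x) : fx V B ≠ ⊥ := fun e => by
  have := h.2.2.1
  rw [e] at this
  exact h.1 this

theorem IsSt.mem_normalizer {F B : Subgroup G} [hF : F.Normal] {x : V} (h : IsSt F B x) {g : G}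
    (hg : g • x = x) : g ∈ normalizer (B : Set G) := by
  apply mem_normalizer_fintype
  intro b hb
  apply h.2.2.2 _ (hF.conj_mem _ (h.2.1 hb) g)
  rw [mul_smul, mul_smul, inv_smul_eq_iff.mpr hg.symm, h.2.2.1 b hb, hg]

theorem conj_mem_CF {F B : Subgroup G} [hF : F.Normal] {g : G} (hg : g ∈ normalizer (B : Set G))
    {c : G} (hc : c ∈ CF F B) : g * c * g⁻¹ ∈ CF F B := by
  refine ⟨hF.conj_mem _ hc.1 g, fun b hb => ?_⟩
  have h1 := hc.2 _ (((inv_mem hg) b).mp hb)
  calc b * (g * c * g⁻¹) = g * (g⁻¹ * b * g⁻¹⁻¹ * c) * g⁻¹ := by group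
    _ = _ := by rw [h1]; group

theorem IsSt.mem_KS {F B : Subgroup G} [hF : F.Normal] {x : V} (h : IsSt F B x) {g : G}
    (hg : g • x = x) {c : G} (hc : c ∈ CF F B) (hgc : g • c • x = c • x) : c ∈ KS F B g := by
  refine ⟨hc, h.2.2.2 _ (mul_mem (inv_mem hc.1) (hF.conj_mem _ hc.1 g)) ?_⟩
  rw [mul_smul, mul_smul, mul_smul, inv_smul_eq_iff.mpr hg.symm, hgc, inv_smul_smul]

theorem KS.smul {F B : Subgroup G} {g c : G} (hc : c ∈ KS F B g) {x : V} (hx : x ∈ fx V B)
    (hg : g • x = x) : g • c • x = c • x := by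
  have := hx _ hc.2
  rwa [mul_smul, mul_smul, mul_smul, inv_smul_eq_iff.mpr hg.symm, inv_smul_eq_iff] at this

namespace QP

variable {Z F : Subgroup G} (h : QP V Z F)
include h

theorem le_KS {B : Subgroup G} (hBF : B ≤ F) (hB : fx V B ≠ ⊥) {g : G}
    (hg : g ∈ normalizer (B : Set G)) : B ≤ KS F B g := fun b hb =>
  ⟨h.le_CF hBF hB hb, mul_mem (inv_mem hb) ((hg b).mp hb)⟩

theorem comm_of_mem_KS {B : Subgroup G} (hB : fx V B ≠ ⊥) {g z : G} (hz : z ∈ Z)
    (hk : z ∈ KS F B g) : g * z = z * g := by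
  have := h.eq_one_of_fix hB hk.2 (mul_mem (inv_mem hz) (h.zn.conj_mem _ hz g))
  rw [inv_mul_eq_one, eq_mul_inv_iff_mul_eq] at this
  exact this.symm

theorem eq_one_of_kill_bot {g : G} (hk : Kill F ⊥ g) {x : V} (hx : x ≠ 0) (hg : g • x = x) :
    g = 1 := by
  refine h.semi g (h.cent g (fun f hf => ?_)) x hg hx
  have := (hk ⟨hf, fun b hb => by rw [mem_bot.mp hb]; simp⟩).2
  rw [mem_bot, inv_mul_eq_one, eq_mul_inv_iff_mul_eq] at this
  exact this.symm

theorem exists_gen2 [Nontrivial V] {M : Subgroup G} (hM : MaxSt V F M) :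
    ∃ a ∈ CF F M, ∃ b ∈ CF F M, (CF F M ≤ M ⊔ Z → b = 1) ∧
      ∀ D : Subgroup G, M ≤ D → a ∈ D → b ∈ D → CF F M ≤ D := by
  obtain ⟨z₀, hz₀, hgen⟩ := h.exists_gen
  by_cases h0 : CF F M ≤ M ⊔ Z
  · refine ⟨z₀, h.z_le_CF hM.1 hz₀, 1, one_mem _, fun _ => rfl, fun D h1 h2 _ => h0.trans (sup_le h1 ?_)⟩
    intro z hz
    obtain ⟨n, rfl⟩ := hgen z hz
    exact pow_mem h2 n
  obtain ⟨i, hi, j, hj, ε, hε, h1, h2, h3, h4, h5, h6, h7⟩ := (h.struct hM).resolve_left h0
  refine ⟨i * z₀, mul_mem hi (h.z_le_CF hM.1 hz₀), j, hj, fun e => absurd e h0, fun D hD ha hb => ?_⟩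
  have e1 : ε ∈ D := h4 ▸ mul_mem hb hb
  have e2 : z₀ ^ 2 ∈ D := by
    have : z₀ ^ 2 = ε⁻¹ * (i * z₀) ^ 2 := by
      rw [(h.commute hz₀ hi.1).symm.mul_pow, pow_two i, h3, inv_mul_cancel_left]
    rw [this]; exact mul_mem (inv_mem e1) (pow_mem ha 2)
  have e3 : z₀ ∈ D := by
    obtain ⟨n, hn⟩ := hgen ε hε
    rcases Nat.even_or_odd' n with ⟨s, rfl | rfl⟩
    · exact absurd (by rw [hn, ← pow_mul, mul_comm]) (h6 _ (pow_mem hz₀ s))
    · have : z₀ = ((z₀ ^ 2) ^ s)⁻¹ * ε := by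
        rw [hn, pow_succ z₀ (2 * s), pow_mul, inv_mul_cancel_left]
      rw [this]; exact mul_mem (inv_mem (pow_mem e2 s)) e1
  have e4 : i ∈ D := by simpa using mul_mem ha (inv_mem e3)
  have e5 : M ⊔ Z ≤ D := sup_le hD (fun z hz => by obtain ⟨n, rfl⟩ := hgen z hz; exact pow_mem e3 n)
  intro u hu
  obtain ⟨a, b, hab⟩ := h7 u hu
  simpa using mul_mem (mul_mem (e5 hab) (inv_mem (pow_mem hb b))) (inv_mem (pow_mem e4 a))

end QP

/-- the index set of the eigenspaces -/
abbrev Lam (F B : Subgroup G) := F ⧸ (CF F B).subgroupOf F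

/-- conjugation action on the index set -/
@[reducible] def lamAct (F B : Subgroup G) [F.Normal] (H : Subgroup G)
    (hH : H ≤ normalizer (B : Set G)) : MulAction H (Lam F B) where
  smul g := Quotient.map' (fun f => MulAut.conjNormal (g : G) f) (by
    intro a b hab
    rw [QuotientGroup.leftRel_apply] at hab ⊢
    rw [← map_inv, ← map_mul]
    exact conj_mem_CF (hH g.2) hab)
  one_smul := by
    rintro ⟨f⟩
    show (QuotientGroup.mk (MulAut.conjNormal ((1 : H) : G) f) : Lam F B) = QuotientGroup.mk f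
    simp
  mul_smul := by
    rintro g g' ⟨f⟩
    show (QuotientGroup.mk (MulAut.conjNormal ((g * g' : H) : G) f) : Lam F B) =
      QuotientGroup.mk (MulAut.conjNormal (g : G) (MulAut.conjNormal (g' : G) f))
    simp

/-- eigenspaces -/
noncomputable def UL (V : Type*) [AddCommGroup V] [DistribMulAction G V] (F B : Subgroup G)
    (l : Lam F B) : AddSubgroup V :=
  (fx V B).comap (DistribMulAction.toAddMonoidHom V ((l.out : F) : G)⁻¹)

theorem mem_UL {F B : Subgroup G} {f : F} {v : V} :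
    v ∈ UL V F B (QuotientGroup.mk f) ↔ (f : G)⁻¹ • v ∈ fx V B := by
  have h1 : (QuotientGroup.mk f : Lam F B).out⁻¹ * f ∈ (CF F B).subgroupOf F := by
    rw [← QuotientGroup.eq, QuotientGroup.out_eq']
  have h2 : (((QuotientGroup.mk f : Lam F B).out : F) : G)⁻¹ * f ∈ CF F B := h1
  show (((QuotientGroup.mk f : Lam F B).out : F) : G)⁻¹ • v ∈ fx V B ↔ _
  constructor
  · intro h
    have := smul_mem_fx_of_CF (inv_mem h2) h
    simpa [mul_smul] using this
  · intro h
    have := smul_mem_fx_of_CF h2 h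
    simpa [mul_smul] using this

theorem out_smul_mem_UL {F B : Subgroup G} (l : Lam F B) {v : V} (hv : v ∈ fx V B) :
    ((l.out : F) : G) • v ∈ UL V F B l := by
  show ((l.out : F) : G)⁻¹ • ((l.out : F) : G) • v ∈ fx V B
  rwa [inv_smul_smul]

namespace QP

variable {Z F : Subgroup G} (h : QP V Z F)
include h

theorem smul_UL {B : Subgroup G} (hB : B ≤ F) {f : F} {v : V} (hv : v ∈ UL V F B (QuotientGroup.mk f))
    {b : G} (hb : b ∈ B) : b • v = ⁅b, (f : G)⁆ • v := by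
  rw [mem_UL] at hv
  have h1 := hv b hb
  have h2 : b = ⁅b, (f : G)⁆ * (f * b * (f : G)⁻¹) := by simp only [commutatorElement_def]; group
  conv_lhs => rw [h2]
  rw [mul_smul, mul_smul, mul_smul, h1, smul_inv_smul]

theorem indep_UL {B : Subgroup G} (hB : B ≤ F) (hB0 : fx V B ≠ ⊥) [Fintype (Lam F B)]
    (w : Lam F B → V) (hw : ∀ l, w l ∈ UL V F B l) (hs : ∑ l, w l = 0) (l : Lam F B) : w l = 0 := by
  refine indep_of_sep (UL V F B) ?_ Finset.univ w hw hs l (Finset.mem_univ _)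
  intro i j hij
  obtain ⟨f, rfl⟩ := QuotientGroup.mk_surjective i
  obtain ⟨f', rfl⟩ := QuotientGroup.mk_surjective j
  obtain ⟨b, hb, hne⟩ : ∃ b ∈ B, ⁅b, (f : G)⁆ ≠ ⁅b, (f' : G)⁆ := by
    by_contra hc
    push Not at hc
    apply hij
    rw [QuotientGroup.eq]
    refine ⟨(f⁻¹ * f').2, fun b hb => ?_⟩
    have h3 := h.comm_mul_right (hB hb) f.2 (mul_mem (inv_mem f.2) f'.2)
    rw [mul_inv_cancel_left, ← hc b hb, left_eq_mul, commutatorElement_eq_one_iff_mul_comm] at h3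
    exact h3
  have hz := h.comm _ (hB hb) _ f.2
  refine ⟨DistribMulAction.toAddMonoidHom V b - DistribMulAction.toAddMonoidHom V ⁅b, (f : G)⁆,
    ?_, ?_, ?_⟩
  · intro k w hw
    obtain ⟨f'', rfl⟩ := QuotientGroup.mk_surjective k
    have key : ∀ z ∈ Z, z • w ∈ UL V F B (QuotientGroup.mk f'') := by
      intro z hz
      rw [mem_UL] at hw ⊢
      rw [← mul_smul, ← h.zc z hz _ (inv_mem f''.2), mul_smul]
      exact smul_mem_fx_of_CF (h.z_le_CF hB hz) hw
    show b • w - ⁅b, (f : G)⁆ • w ∈ _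
    rw [h.smul_UL hB hw hb]
    exact sub_mem (key _ (h.comm _ (hB hb) _ f''.2)) (key _ hz)
  · intro w hw
    show b • w - ⁅b, (f : G)⁆ • w = 0
    rw [h.smul_UL hB hw hb, sub_self]
  · intro w hw e
    have e' : b • w - ⁅b, (f : G)⁆ • w = 0 := e
    rw [h.smul_UL hB hw hb, sub_eq_zero] at e'
    by_contra h0
    exact hne (h.z_inj (h.comm _ (hB hb) _ f'.2) hz h0 e').symm

theorem comp_UL [F.Normal] {B : Subgroup G} (hB : B ≤ F) (hB0 : fx V B ≠ ⊥) [Fintype (Lam F B)]
    {H : Subgroup G} (hH : H ≤ normalizer (B : Set G)) (Y : Lam F B → V)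
    (hY : ∀ l, Y l ∈ UL V F B l) (g : H) (hg : (g : G) • ∑ l, Y l = ∑ l, Y l) (l : Lam F B) :
    letI := lamAct F B H hH; (g : G) • Y l = Y (g • l) := by
  letI := lamAct F B H hH
  have h1 : ∀ l : Lam F B, (g : G) • Y l ∈ UL V F B (g • l) := by
    intro l
    obtain ⟨f, rfl⟩ := QuotientGroup.mk_surjective l
    show _ ∈ UL V F B (QuotientGroup.mk (MulAut.conjNormal (g : G) f))
    rw [mem_UL, MulAut.conjNormal_apply]
    have := smul_mem_fx (hH g.2) (mem_UL.mp (hY (QuotientGroup.mk f)))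
    simpa [mul_smul] using this
  have h2 := h.indep_UL hB hB0 (fun l => (g : G) • Y (g⁻¹ • l) - Y l)
    (fun l => sub_mem (by simpa using h1 (g⁻¹ • l)) (hY l)) (by
      rw [Finset.sum_sub_distrib, sub_eq_zero, ← hg, Finset.smul_sum]
      exact (Fintype.sum_equiv (MulAction.toPerm g) _ _ (fun l => by simp)).symm) (g • l)
  simpa [sub_eq_zero] using h2

omit h in
theorem card_lam_lt {B : Subgroup G} {x : V} (hx : IsSt F B x) (hB : B ≤ CF F B) :
    Nat.card (Lam F B) < Nat.card V := by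
  have : Nat.card (Lam F B) ≤ Nat.card {v : V // v ≠ 0} := by
    apply Nat.card_le_card_of_injective
      (fun l : Lam F B => (⟨((l.out : F) : G) • x, fun e => hx.1 ((smul_eq_zero_iff_eq _).mp e)⟩ :
        {v : V // v ≠ 0}))
    intro i j hij
    have h1 : ((i.out : F) : G) • x = ((j.out : F) : G) • x := congrArg Subtype.val hij
    rw [← i.out_eq', ← j.out_eq', QuotientGroup.eq]
    apply hB
    apply hx.2.2.2 _ (i.out⁻¹ * j.out).2
    simp [mul_smul, ← h1]
  have h2 : Nat.card {v : V // v ≠ 0} < Nat.card V := Finite.card_subtype_lt (x := 0) (by simp)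
  omega

theorem finish {B : Subgroup G} {x : V} (hx : IsSt F B x) {g : G} (hg : g • x = x)
    (hk : Kill F B g) (T : Set (Lam F B)) (hT : 4 * T.ncard < Nat.card (Lam F B))
    (hS : ∀ l, l ∉ T → ∃ f : F, QuotientGroup.mk f = l ∧ g • (f : G) • x = (f : G) • x) : g = 1 := by
  haveI := h.fn
  let T' : Set F := QuotientGroup.mk ⁻¹' T
  have hT' : 4 * T'.ncard < Nat.card F := by
    have h1 := QuotientGroup.card_preimage_mk ((CF F B).subgroupOf F) T
    rw [Nat.card_coe_set_eq, Nat.card_coe_set_eq] at h1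
    rw [card_eq_card_quotient_mul_card_subgroup ((CF F B).subgroupOf F), h1]
    have : 0 < Nat.card ((CF F B).subgroupOf F) := Nat.card_pos
    nlinarith
  have h1 : ∀ f : F, f ∉ T' → (f : G)⁻¹ * (g * f * g⁻¹) ∈ B := by
    intro f hf
    obtain ⟨f', hf', h2⟩ := hS _ hf
    have hc0 : f'⁻¹ * f ∈ (CF F B).subgroupOf F := QuotientGroup.eq.mp hf'
    have hc : (f' : G)⁻¹ * f ∈ CF F B := hc0
    apply hx.2.2.2 _ (mul_mem (inv_mem f.2) (h.fn.conj_mem _ f.2 g))
    have h3 : (f' : G)⁻¹ * (g * f' * g⁻¹) ∈ B := by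
      apply hx.2.2.2 _ (mul_mem (inv_mem f'.2) (h.fn.conj_mem _ f'.2 g))
      rw [mul_smul, mul_smul, mul_smul, inv_smul_eq_iff.mpr hg.symm, h2, inv_smul_smul]
    have h4 := KS.smul (hk hc) hx.2.2.1 hg
    have h5 := smul_mem_fx_of_CF hc hx.2.2.1 _ h3
    have h6 : (f : G)⁻¹ * (g * f * g⁻¹) = (f : G)⁻¹ * f' * ((f' : G)⁻¹ * (g * f' * g⁻¹)) *
        g * ((f' : G)⁻¹ * f) * g⁻¹ := by group
    rw [h6, mul_smul, inv_smul_eq_iff.mpr hg.symm, mul_smul, mul_smul, h4, mul_smul, h5, ← mul_smul]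
    simp
  have h2 : ∀ f : F, f ∉ T' → g * f = f * g := by
    intro f hf
    have hb := h1 f hf
    have h3 := eq_top_of_large ((centralizer {(f : G)⁻¹ * (g * f * g⁻¹)}).subgroupOf F)
      (T' ∪ (fun y => f * y) ⁻¹' T') (by
        have e1 := Set.ncard_union_le T' ((fun y => f * y) ⁻¹' T')
        have e2 : ((fun y => f * y) ⁻¹' T').ncard = T'.ncard :=
          Set.ncard_preimage_of_injective_subset_range (mul_right_injective f)
            (by rw [(Group.mulLeft_bijective f).2.range_eq]; exact Set.subset_univ _)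
        omega) (by
        intro y hy
        simp only [Set.mem_union, Set.mem_preimage, not_or] at hy
        have e1 := h1 y hy.1
        have e2 := h1 (f * y) hy.2
        rw [mem_subgroupOf, mem_centralizer_singleton_iff]
        have e3 : ⁅(y : G)⁻¹, (f : G)⁻¹ * (g * f * g⁻¹)⁆ =
            (((f * y : F) : G)⁻¹ * (g * (f * y : F) * g⁻¹)) * ((y : G)⁻¹ * (g * y * g⁻¹))⁻¹ *
              ((f : G)⁻¹ * (g * f * g⁻¹))⁻¹ := by
          simp only [commutatorElement_def, Subgroup.coe_mul]; group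
        have e4 := h.eq_one_of_fix hx.ne_bot (e3 ▸ mul_mem (mul_mem e2 (inv_mem e1)) (inv_mem hb))
          (h.comm _ (inv_mem y.2) _ (hx.2.1 hb))
        have e5 : Commute (y : G)⁻¹ _ := commutatorElement_eq_one_iff_mul_comm.mp e4
        exact (Commute.inv_left_iff.mp e5).eq)
    have h4 : (f : G)⁻¹ * (g * f * g⁻¹) ∈ Z := h.cent _ (fun y hy => by
      have : (⟨y, hy⟩ : F) ∈ (centralizer {(f : G)⁻¹ * (g * f * g⁻¹)}).subgroupOf F := by
        rw [h3]; trivial
      exact (mem_centralizer_singleton_iff.mp this).symm)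
    have h5 := h.eq_one_of_fix hx.ne_bot hb h4
    rw [inv_mul_eq_one, eq_mul_inv_iff_mul_eq] at h5
    exact h5.symm
  have h3 := eq_top_of_large ((centralizer {g}).subgroupOf F) T' (by omega)
    (fun f hf => mem_centralizer_singleton_iff.mpr (h2 f hf).symm)
  refine h.semi g (h.cent g (fun y hy => ?_)) x hg hx.1
  have : (⟨y, hy⟩ : F) ∈ (centralizer {g}).subgroupOf F := by rw [h3]; trivial
  exact (mem_centralizer_singleton_iff.mp this).symm

end QP

theorem exists_small_class {Ω : Type*} [Finite Ω] {k : ℕ} [NeZero k] (S : Set Ω) (χ : Ω → Fin k) :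
    ∃ c, k * (S ∩ χ ⁻¹' {c}).ncard ≤ S.ncard := by
  classical
  haveI := Fintype.ofFinite Ω
  by_contra hc
  push Not at hc
  have h1 : S.toFinset.card = ∑ c : Fin k, (S.toFinset.filter (fun x => χ x = c)).card :=
    Finset.card_eq_sum_card_fiberwise (fun _ _ => Finset.mem_univ _)
  have h2 : ∀ c, (S ∩ χ ⁻¹' {c}).ncard = (S.toFinset.filter (fun x => χ x = c)).card := by
    intro c
    rw [← Set.ncard_coe_finset]; congr 1; ext; simp
  have h3 : ∑ _c : Fin k, S.ncard < ∑ c : Fin k, k * (S ∩ χ ⁻¹' {c}).ncard :=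
    Finset.sum_lt_sum_of_nonempty Finset.univ_nonempty (fun c _ => hc c)
  rw [← Finset.mul_sum] at h3
  simp only [h2, ← h1, Finset.sum_const, Finset.card_univ, Fintype.card_fin, smul_eq_mul,
    Set.ncard_eq_toFinset_card'] at h3
  omega

theorem MM_three {n : ℕ} (hC : CC.{u} 1 (Fin 5) n) : MM.{u} 1 0 (Fin 3) (n + 1) := by
  classical
  intro G V _ _ _ _ _ hc hG _ _ Z F h
  haveI := h.fn
  by_cases hZ : ∃ z₁ ∈ Z, z₁ ≠ 1
  swap
  · push Not at hZ
    refine ⟨fun _ => 0, fun g _ v => ?_⟩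
    have h1 : ∀ f ∈ F, f = 1 := fun f hf => hZ f (h.cent f (fun f' hf' =>
      commutatorElement_eq_one_iff_mul_comm.mp (hZ _ (h.comm f hf f' hf'))))
    rw [hZ g (h.cent g (fun f hf => by rw [h1 f hf]; simp)), one_smul]
  obtain ⟨z₁, hz₁, hz₁1⟩ := hZ
  obtain ⟨M, hM⟩ := exists_maxSt (V := V) F
  obtain ⟨x, hx, hx0⟩ := exists_ne_zero_mem hM.2.1
  have hst := hM.isSt hx hx0
  obtain ⟨a, ha, b, hb, -, hab⟩ := h.exists_gen2 hM
  let H := MulAction.stabilizer G x
  have hH : H ≤ normalizer (M : Set G) := fun g hg => hst.mem_normalizer hg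
  letI := lamAct F M H hH
  haveI := Fintype.ofFinite (Lam F M)
  obtain ⟨χ₀, hχ₀⟩ := hC H (Lam F M) (by
    have := QP.card_lam_lt hst (h.le_CF hM.1 hM.2.1); omega) (hG.subgroup H)
  obtain ⟨c₀, hc₀⟩ := exists_small_class Set.univ χ₀
  let χ : Lam F M → Fin 5 := fun l => Equiv.swap c₀ 0 (χ₀ l)
  have hχ : Rigid H χ := fun g hg => hχ₀ g (fun l => (Equiv.swap c₀ 0).injective (hg l))
  let u₁ : Fin 5 → V := ![0, x, 0, x, x]
  let u₂ : Fin 5 → V := ![0, 0, x, x, z₁ • x]
  have hzx := smul_mem_fx_of_CF (h.z_le_CF hM.1 hz₁) hx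
  have hu₁ : ∀ c, u₁ c ∈ fx V M := by intro c; fin_cases c <;> first | exact hx | exact zero_mem _
  have hu₂ : ∀ c, u₂ c ∈ fx V M := by
    intro c; fin_cases c <;> first | exact hx | exact zero_mem _ | exact hzx
  let l₁ : Lam F M := QuotientGroup.mk 1
  let Y : G → (Fin 5 → V) → Lam F M → V := fun a u l =>
    if l = l₁ then a • x else ((l.out : F) : G) • u (χ l)
  have hY : ∀ a ∈ CF F M, ∀ u : Fin 5 → V, (∀ c, u c ∈ fx V M) → ∀ l, Y a u l ∈ UL V F M l := by
    intro a ha u hu l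
    by_cases hl : l = l₁
    · subst hl
      simp only [Y, if_true]
      rw [mem_UL]
      simpa using smul_mem_fx_of_CF ha hx
    · simp only [Y, if_neg hl]
      exact out_smul_mem_UL l (hu _)
  refine ⟨![x, ∑ l, Y a u₁ l, ∑ l, Y b u₂ l], fun g hg v => ?_⟩
  have hgx : g • x = x := hg 0
  let g' : H := ⟨g, hgx⟩
  have e₁ : ∀ l, g • Y a u₁ l = Y a u₁ (g' • l) :=
    h.comp_UL hM.1 hM.2.1 hH _ (hY a ha u₁ hu₁) g' (hg 1)
  have e₂ : ∀ l, g • Y b u₂ l = Y b u₂ (g' • l) :=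
    h.comp_UL hM.1 hM.2.1 hH _ (hY b hb u₂ hu₂) g' (hg 2)
  have hl₁ : g' • l₁ = l₁ := by
    show (QuotientGroup.mk (MulAut.conjNormal g 1) : Lam F M) = QuotientGroup.mk 1
    rw [map_one]
  have hk : Kill F M g := by
    apply hab _ (h.le_KS hM.1 hM.2.1 (hH hgx))
    · apply hst.mem_KS hgx ha
      have := e₁ l₁
      rwa [hl₁, show Y a u₁ l₁ = a • x from if_pos rfl] at this
    · apply hst.mem_KS hgx hb
      have := e₂ l₁
      rwa [hl₁, show Y b u₂ l₁ = b • x from if_pos rfl] at this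
  have hgz := h.comm_of_mem_KS hM.2.1 hz₁ (hk (h.z_le_CF hM.1 hz₁))
  have hne : ∀ l, l ≠ l₁ → g' • l ≠ l₁ := fun l hl e => hl (MulAction.injective g' (e.trans hl₁.symm))
  have e₃ : ∀ l, l ≠ l₁ → ∃ k : G, k * z₁ = z₁ * k ∧ k • u₁ (χ l) = u₁ (χ (g' • l)) ∧
      k • u₂ (χ l) = u₂ (χ (g' • l)) := by
    intro l hl
    refine ⟨(((g' • l).out : F) : G)⁻¹ * g * ((l.out : F) : G), ?_, ?_, ?_⟩
    · have c1 := (h.commute hz₁ (inv_mem (g' • l).out.2)).symm
      have c2 := (h.commute hz₁ l.out.2).symm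
      exact (Commute.mul_left (Commute.mul_left c1 hgz) c2).eq
    · have := e₁ l
      simp only [Y, if_neg hl, if_neg (hne l hl)] at this
      rw [mul_smul, mul_smul, this, inv_smul_smul]
    · have := e₂ l
      simp only [Y, if_neg hl, if_neg (hne l hl)] at this
      rw [mul_smul, mul_smul, this, inv_smul_smul]
  have hzx1 : z₁ • x ≠ x := fun e => hz₁1 (h.semi _ hz₁ x e hx0)
  have e₄ : ∀ (k : G) (c c' : Fin 5), k * z₁ = z₁ * k → k • u₁ c = u₁ c' → k • u₂ c = u₂ c' → c = c' := by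
    intro k c c' h1 h2 h3
    have h4 : ∀ y : V, k • y = 0 ↔ y = 0 := fun y => smul_eq_zero_iff_eq k
    have h5 : z₁ • x ≠ 0 := fun e => hx0 ((smul_eq_zero_iff_eq _).mp e)
    have h6 : k • z₁ • x = z₁ • k • x := by rw [← mul_smul, h1, mul_smul]
    fin_cases c <;> fin_cases c' <;> simp [u₁, u₂, h4, hx0, hx0.symm, h5, h5.symm] at h2 h3 ⊢
    · exact hzx1 (h3.symm.trans h2)
    · rw [h6, h2] at h3; exact hzx1 h3
  have e₅ : ∀ l : Lam F M, g' • l = l := hχ g' (fun l => by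
    by_cases hl : l = l₁
    · rw [hl, hl₁]
    · obtain ⟨k, h1, h2, h3⟩ := e₃ l hl
      exact (e₄ k _ _ h1 h2 h3).symm)
  rw [h.finish hst hgx hk (χ ⁻¹' {0}) ?_ ?_, one_smul]
  · have h1 : χ ⁻¹' {0} = Set.univ ∩ χ₀ ⁻¹' {c₀} := by
      ext l; simp [χ, Equiv.swap_apply_eq_iff]
    rw [h1]
    rw [Set.ncard_univ] at hc₀
    have : 0 < Nat.card (Lam F M) := Nat.card_pos
    omega
  · intro l hl
    by_cases hl1 : l = l₁
    · exact ⟨1, hl1.symm, by simpa using hgx⟩
    refine ⟨l.out, l.out_eq', ?_⟩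
    have h1 := e₁ l
    have h2 := e₂ l
    simp only [Y, e₅, if_neg hl1] at h1 h2
    have hl' : χ l ≠ 0 := hl
    generalize χ l = c at h1 h2 hl'
    fin_cases c
    · exact absurd rfl hl'
    · exact h1
    · exact h2
    · exact h1
    · exact h1

theorem MM_odd {n : ℕ} (hC : CC.{u} 2 (Fin 2) n) : MM.{u} 2 0 (Fin 2) (n + 1) := by
  classical
  intro G V _ _ _ _ _ hc hG _ _ Z F h
  haveI := h.fn
  obtain ⟨M, hM⟩ := exists_maxSt (V := V) F
  obtain ⟨x, hx, hx0⟩ := exists_ne_zero_mem hM.2.1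
  have hst := hM.isSt hx hx0
  obtain ⟨a, ha, b, -, hb, hab⟩ := h.exists_gen2 hM
  have hodd : ∀ g : G, g * g = 1 → g = 1 := fun g hg =>
    mem_bot.mp (mem_of_pow_mem' hG.2 (by rw [pow_two, hg]; exact one_mem _))
  replace hb : b = 1 := hb ((h.struct hM).resolve_right (by
    rintro ⟨_, _, _, _, ε, _, h1, h2, _⟩; exact h1 (hodd ε h2)))
  subst hb
  let H := MulAction.stabilizer G x
  have hH : H ≤ normalizer (M : Set G) := fun g hg => hst.mem_normalizer hg
  letI := lamAct F M H hH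
  haveI := Fintype.ofFinite (Lam F M)
  haveI : ((CF F M).subgroupOf F).Normal := by
    constructor
    intro c hc f
    have h1 : ((f * c * f⁻¹ : F) : G) = ⁅(f : G), (c : G)⁆ * c := by
      simp [commutatorElement_def]
    rw [mem_subgroupOf, h1]
    exact mul_mem (h.z_le_CF hM.1 (h.comm _ f.2 _ c.2)) hc
  have hinv : ∀ (g : H) (l : Lam F M), g • l⁻¹ = (g • l)⁻¹ := by
    intro g l
    obtain ⟨f, rfl⟩ := QuotientGroup.mk_surjective l
    show (QuotientGroup.mk (MulAut.conjNormal (g : G) f⁻¹) : Lam F M) =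
      (QuotientGroup.mk (MulAut.conjNormal (g : G) f))⁻¹
    rw [map_inv, QuotientGroup.mk_inv]
  have hone : ∀ g : H, g • (1 : Lam F M) = 1 := by
    intro g
    show (QuotientGroup.mk (MulAut.conjNormal (g : G) 1) : Lam F M) = QuotientGroup.mk 1
    rw [map_one]
  have hself : ∀ l : Lam F M, l⁻¹ = l → l = 1 := by
    intro l hl
    have h1 : (Nat.card (Lam F M)).Coprime 2 :=
      ((hG.subgroup F).of_surjective _ (QuotientGroup.mk'_surjective _)).2
    exact mem_bot.mp (mem_of_pow_mem' h1 (by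
      rw [pow_two, mem_bot]; nth_rewrite 1 [← hl]; exact inv_mul_cancel l))
  let s : Setoid (Lam F M) := ⟨fun l m => m = l ∨ m = l⁻¹, fun _ => Or.inl rfl,
    by rintro l m (rfl | rfl); exacts [Or.inl rfl, Or.inr (inv_inv _).symm],
    by rintro l m k (rfl | rfl) (rfl | rfl); exacts [Or.inl rfl, Or.inr rfl, Or.inr rfl,
      Or.inl (inv_inv _)]⟩
  letI : MulAction H (Quotient s) :=
    { smul := fun g => Quotient.map' (fun l => g • l) (by
        rintro l m (rfl | rfl)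
        exacts [Or.inl rfl, Or.inr (hinv g l)])
      one_smul := by
        rintro ⟨l⟩
        show Quotient.mk'' ((1 : H) • l) = Quotient.mk'' l
        rw [one_smul]
      mul_smul := by
        rintro g g' ⟨l⟩
        show Quotient.mk'' ((g * g') • l) = Quotient.mk'' (g • g' • l)
        rw [mul_smul] }
  let π : Lam F M → Quotient s := Quotient.mk''
  have hπ : ∀ (g : H) l, π (g • l) = g • π l := fun _ _ => rfl
  obtain ⟨χ, hχ⟩ := hC H (Quotient s) (by
    have := QP.card_lam_lt hst (h.le_CF hM.1 hM.2.1)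
    have h2 : Nat.card (Quotient s) ≤ Nat.card (Lam F M) :=
      Nat.card_le_card_of_surjective π Quotient.mk''_surjective
    omega) (hG.subgroup H)
  obtain ⟨c, hc⟩ := exists_small_class {l : Lam F M | l ≠ 1} (fun l => χ (π l))
  let T : Set (Lam F M) := {l | l ≠ 1 ∧ χ (π l) = c ∧ (π l).out = l}
  have hT : 4 * T.ncard < Nat.card (Lam F M) := by
    have h1 : T ∪ T⁻¹ ⊆ {l : Lam F M | l ≠ 1} ∩ (fun l => χ (π l)) ⁻¹' {c} := by
      rintro l (hl | hl)
      · exact ⟨hl.1, hl.2.1⟩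
      · refine ⟨fun e => hl.1 (by rw [e, inv_one]), ?_⟩
        have : π l = π l⁻¹ := Quotient.sound' (Or.inr rfl)
        show χ (π l) = c
        rw [this]; exact hl.2.1
    have h2 : Disjoint T T⁻¹ := by
      rw [Set.disjoint_left]
      intro l hl hl'
      have : π l = π l⁻¹ := Quotient.sound' (Or.inr rfl)
      apply hl.1
      apply hself
      rw [← hl'.2.2, ← this, hl.2.2]
    have h3 := Set.ncard_le_ncard h1
    rw [Set.ncard_union_eq h2, Set.ncard_inv] at h3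
    have h4 : {l : Lam F M | l ≠ 1}.ncard < Nat.card (Lam F M) := by
      rw [← Set.ncard_univ]
      exact Set.ncard_lt_ncard ⟨Set.subset_univ _, fun h => h (Set.mem_univ 1) rfl⟩
    omega
  let Y : Lam F M → V := fun l =>
    if l = 1 then a • x else if l ∈ T then 0 else ((l.out : F) : G) • x
  have hY : ∀ l, Y l ∈ UL V F M l := by
    intro l
    by_cases hl : l = 1
    · subst hl
      simp only [Y, if_true]
      rw [← QuotientGroup.mk_one, mem_UL]
      simpa using smul_mem_fx_of_CF ha hx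
    · simp only [Y, if_neg hl]
      split_ifs
      exacts [zero_mem _, out_smul_mem_UL l hx]
  refine ⟨![x, ∑ l, Y l], fun g hg v => ?_⟩
  have hgx : g • x = x := hg 0
  let g' : H := ⟨g, hgx⟩
  have e₁ : ∀ l, g • Y l = Y (g' • l) := h.comp_UL hM.1 hM.2.1 hH _ hY g' (hg 1)
  have hk : Kill F M g := by
    apply hab _ (h.le_KS hM.1 hM.2.1 (hH hgx)) _ (one_mem _)
    apply hst.mem_KS hgx ha
    have := e₁ 1
    rwa [hone, show Y 1 = a • x from if_pos rfl] at this
  have hne : ∀ l : Lam F M, l ≠ 1 → g' • l ≠ 1 := fun l hl e =>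
    hl (MulAction.injective g' (e.trans (hone g').symm))
  have hY0 : ∀ l, l ≠ 1 → (Y l = 0 ↔ l ∈ T) := by
    intro l hl
    simp only [Y, if_neg hl]
    split_ifs with h1
    · simp [h1]
    · simp [h1, hx0, smul_eq_zero_iff_eq]
  have e₂ : ∀ l, l ≠ 1 → (g' • l ∈ T ↔ l ∈ T) := by
    intro l hl
    rw [← hY0 l hl, ← hY0 _ (hne l hl), ← e₁, smul_eq_zero_iff_eq]
  have hout : ∀ q : Quotient s, π q.out = q := fun q => Quotient.out_eq' q
  have e₃ : ∀ q : Quotient s, g' • q = q := hχ g' (fun q => by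
    by_cases hq : q.out = 1
    · rw [← hout q, ← hπ, hq, hone]
    have h1 : χ (g' • q) = c ↔ χ q = c := by
      constructor
      · intro h1
        have h2 : (g' • q).out ≠ 1 := by
          intro e
          have : g' • q = g' • π 1 := by rw [← hπ, hone, ← e, hout]
          have h3 := MulAction.injective g' this
          have h4 : s 1 q.out := Quotient.exact' (h3.symm.trans (hout q).symm)
          rcases h4 with h4 | h4
          · exact hq h4
          · exact hq (by rw [h4, inv_one])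
        have h3 : (g' • q).out ∈ T := ⟨h2, by rw [hout]; exact h1, by rw [hout]⟩
        have h4 : g'⁻¹ • (g' • q).out ∈ T := by
          rw [← e₂ _ (fun e => h2 (by rw [inv_smul_eq_iff, hone] at e; exact e)), smul_inv_smul]
          exact h3
        have h5 := h4.2.1
        rwa [hπ, hout, inv_smul_smul] at h5
      · intro h1
        have h3 : q.out ∈ T := ⟨hq, by rw [hout]; exact h1, by rw [hout]⟩
        have h5 := ((e₂ _ hq).mpr h3).2.1
        rwa [hπ, hout] at h5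
    exact (by decide : ∀ c c1 c2 : Fin 2, (c1 = c ↔ c2 = c) → c1 = c2) _ _ _ h1)
  have e₅ : ∀ l : Lam F M, g' • l = l := by
    intro l
    have h1 : s l (g' • l) := Quotient.exact' (e₃ (π l)).symm
    rcases h1 with h1 | h1
    · exact h1
    · apply fix_of_pow (hG.subgroup H).2
      rw [pow_two, mul_smul, h1, hinv, h1, inv_inv]
  rw [h.finish hst hgx hk T hT ?_, one_smul]
  intro l hl
  by_cases hl1 : l = 1
  · exact ⟨1, hl1.symm, by simpa using hgx⟩
  refine ⟨l.out, l.out_eq', ?_⟩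
  have h1 := e₁ l
  simpa only [Y, e₅, if_neg hl1, if_neg hl] using h1

end CfsgH1.BS
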