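import Cfsg.Agent.H1.Base5

/-! Base sizes, part 6: affine colourings; the theorems for three vectors and for odd order. -/

set_option autoImplicit false
set_option maxHeartbeats 400000
set_option linter.unusedSectionVars false
set_option linter.style.haveILetI false

namespace CfsgH1.BS

open Subgroup Matrix

universe u

theorem AA_five {n : ℕ} (hT : TT.{u} 1 0 (Fin 3) n) : AA.{u} 1 (Fin 5) n := by
  classical
  intro G V _ _ _ _ _ hc hG _ hirr _
  obtain ⟨b, hb⟩ := hT G V hc hG (fun v => zero_smul _ v) hirr.cr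
  let χ : V → Fin 5 := fun v =>
    if v = 0 then 0 else if v = b 0 then 1 else if v = b 1 then 2 else if v = b 2 then 3 else 4
  have h1 : ∀ u w, χ u = χ w → χ w ≠ 4 → u = w := by
    intro u w
    simp only [χ]
    split_ifs <;> simp_all
  refine ⟨χ, fun a c h => ?_⟩
  have h2 : c = 0 := by simpa using h1 _ _ (h 0) (by simp [χ])
  subst h2
  refine ⟨rfl, hb a (fun i => ?_)⟩
  have := h1 _ _ (h (b i)) (by fin_cases i <;> simp only [χ] <;> split_ifs <;> simp_all)
  simpa using this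

section Odd

variable {G V : Type*} [Group G] [Finite G] [AddCommGroup V] [Finite V] [DistribMulAction G V]

theorem eq_zero_of_smul_eq_neg (hG : (Nat.card G).Coprime 2) (hV : (Nat.card V).Coprime 2) {a : G}
    {v : V} (h : a • v = -v) : v = 0 := by
  have h1 : a • v = v := fix_of_pow hG (by rw [pow_two, mul_smul, h, smul_neg, h, neg_neg])
  have h2 : 2 • v = 0 := by rw [two_smul]; nth_rewrite 1 [← h1]; rw [h, neg_add_cancel]
  exact AddMonoid.addOrderOf_eq_one_iff.mp (Nat.eq_one_of_dvd_coprimes hV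
    (addOrderOf_dvd_natCard v) (addOrderOf_dvd_of_nsmul_eq_zero h2))

theorem aff_of_set (T : Set V)
    (h : ∀ (a : G) (c : V), (∀ v ∈ T, a • v + c ∈ T) → c = 0 ∧ ∀ v : V, a • v = v) :
    ∃ χ : V → Fin 2, ∀ (a : G) (c : V), (∀ v, χ (a • v + c) = χ v) → c = 0 ∧ ∀ v : V, a • v = v := by
  classical
  refine ⟨fun v => if v ∈ T then 0 else 1, fun a c hc => h a c (fun v hv => ?_)⟩
  have := hc v
  by_contra h2
  simp [hv, h2] at this

theorem aff_three (hG : (Nat.card G).Coprime 2) (hV : (Nat.card V).Coprime 2) {v w : V}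
    (hb : ∀ a : G, a • v = v → a • w = w → ∀ u : V, a • u = u) (hv : v ≠ 0) (hw : w ≠ 0)
    (hvw : v ≠ w) (hn : ¬ ∃ a : G, a • w = -v) (a : G) (c : V)
    (h : ∀ u ∈ ({0, v, w} : Set V), a • u + c ∈ ({0, v, w} : Set V)) :
    c = 0 ∧ ∀ u : V, a • u = u := by
  have h0 := h 0 (by simp)
  have h1 := h v (by simp)
  have h2 := h w (by simp)
  have i1 : ∀ u : V, a • u = 0 ↔ u = 0 := fun u => smul_eq_zero_iff_eq a
  have i2 : a • v ≠ a • w := fun e => hvw (MulAction.injective a e)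
  simp only [smul_zero, zero_add, Set.mem_insert_iff, Set.mem_singleton_iff] at h0 h1 h2
  rcases h0 with rfl | rfl | rfl
  · simp only [add_zero, i1, hv, hw, false_or] at h1 h2
    rcases h1 with h1 | h1 <;> rcases h2 with h2 | h2
    · exact absurd (h1.trans h2.symm) i2
    · exact ⟨rfl, hb a h1 h2⟩
    · have : a • v = v := fix_of_pow hG (by rw [pow_two, mul_smul, h1, h2])
      exact absurd (this.symm.trans h1) hvw
    · exact absurd (h1.trans h2.symm) i2
  · exfalso
    simp only [add_eq_right, i1, hv, hw, false_or] at h1 h2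
    rcases h1 with h1 | h1
    · exact hv (eq_zero_of_smul_eq_neg hG hV (eq_neg_of_add_eq_zero_left h1))
    rcases h2 with h2 | h2
    · exact hn ⟨a, eq_neg_of_add_eq_zero_left h2⟩
    · exact i2 (add_right_cancel (h1.trans h2.symm))
  · exfalso
    simp only [add_eq_right, i1, hv, hw, or_false] at h1 h2
    rcases h2 with h2 | h2
    · exact hw (eq_zero_of_smul_eq_neg hG hV (eq_neg_of_add_eq_zero_left h2))
    rcases h1 with h1 | h1
    · refine hn ⟨a⁻¹, ?_⟩
      rw [inv_smul_eq_iff, smul_neg, eq_neg_of_add_eq_zero_left h1, neg_neg]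
    · exact i2 (add_right_cancel (h1.trans h2.symm))

end Odd

theorem AA_two {n : ℕ} (hT : TT.{u} 2 0 (Fin 2) n) : AA.{u} 2 (Fin 2) n := by
  intro G V _ _ _ _ _ hc hG hV hirr _
  obtain ⟨b, hb⟩ := hT G V hc hG (fun v => zero_smul _ v) hirr.cr
  have hb' : ∀ a : G, a • b 0 = b 0 → a • b 1 = b 1 → ∀ u : V, a • u = u :=
    fun a h0 h1 => hb a (fun i => by fin_cases i; exacts [h0, h1])
  generalize b 0 = v at hb'
  generalize b 1 = w at hb'
  by_cases h1 : ∃ u : V, ∀ a : G, a • u = u → ∀ u : V, a • u = u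
  · obtain ⟨u, hu⟩ := h1
    refine aff_of_set {0, u} (fun a c h => ?_)
    have h0 := h 0 (by simp)
    have h1 := h u (by simp)
    have i1 : ∀ u : V, a • u = 0 ↔ u = 0 := fun u => smul_eq_zero_iff_eq a
    simp only [smul_zero, zero_add, Set.mem_insert_iff, Set.mem_singleton_iff] at h0 h1
    have h2 : c = 0 := by
      rcases h0 with h0 | rfl
      · exact h0
      rcases h1 with h1 | h1
      · exact eq_zero_of_smul_eq_neg hG.2 hV (eq_neg_of_add_eq_zero_left h1)
      · simpa [i1] using h1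
    subst h2
    refine ⟨rfl, hu a ?_⟩
    rcases h1 with h1 | h1
    · have : u = 0 := by simpa [i1] using h1
      rw [this, smul_zero]
    · simpa using h1
  have hv : v ≠ 0 := fun e => h1 ⟨w, fun a ha => hb' a (by rw [e, smul_zero]) ha⟩
  have hw : w ≠ 0 := fun e => h1 ⟨v, fun a ha => hb' a ha (by rw [e, smul_zero])⟩
  have hvw : v ≠ w := fun e => h1 ⟨v, fun a ha => hb' a ha (e ▸ ha)⟩
  have hvw' : v ≠ -w := fun e => h1 ⟨w, fun a ha => hb' a (by rw [e, smul_neg, ha]) ha⟩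
  by_cases h2 : ∃ a : G, a • w = -v
  · refine aff_of_set {0, v, -w} (aff_three hG.2 hV (fun a h0 h1 => hb' a h0 (by
      rwa [smul_neg, neg_inj] at h1)) hv (neg_ne_zero.mpr hw) hvw' ?_)
    rintro ⟨a', ha'⟩
    obtain ⟨a, ha⟩ := h2
    rw [smul_neg, neg_inj] at ha'
    apply hw
    apply eq_zero_of_smul_eq_neg hG.2 hV (a := a⁻¹ * a')
    rw [mul_smul, ha', inv_smul_eq_iff, smul_neg, ha, neg_neg]
  · exact aff_of_set {0, v, w} (aff_three hG.2 hV hb' hv hw hvw h2)

theorem MC_five : MC.{u} 1 (Fin 5) := fun _ _ _ _ _ _ hG _ ⟨_, h⟩ => many_col_five hG.1 h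

theorem MC_prime {p : ℕ} (hp : p.Prime) : MC.{u} p (Fin p) :=
  fun _ _ _ _ _ _ hG _ ⟨_, h⟩ => many_col_prime hp hG.2 h

theorem TT_zero {m c : ℕ} {ι : Type} : TT.{u} m c ι 0 := fun _ _ _ _ _ _ _ h => absurd h (by omega)

theorem TT_three (n : ℕ) : TT.{u} 1 0 (Fin 3) n := by
  induction n with
  | zero => exact TT_zero
  | succ n ih =>
    have hC := CC_of_AA (AA_five ih) MC_five
    exact TT_succ hC (fun _ _ _ _ _ _ _ hG _ _ ⟨_, h⟩ => many_vec_three hG.1 h) (MM_three hC) ih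

theorem CC_five (n : ℕ) : CC.{u} 1 (Fin 5) n := CC_of_AA (AA_five (TT_three n)) MC_five

theorem TT_odd (n : ℕ) : TT.{u} 2 0 (Fin 2) n := by
  induction n with
  | zero => exact TT_zero
  | succ n ih =>
    have hC := CC_of_AA (AA_two ih) (MC_prime Nat.prime_two)
    exact TT_succ hC (fun _ _ _ _ _ _ _ hG _ _ ⟨_, h⟩ => many_vec_two hG.2 h) (MM_odd hC) ih

theorem base_of_TT {m c : ℕ} {ι : Type} (hT : ∀ n, TT.{u} m c ι n) (G : Type*) (V : Type u) [Group G]
    [Finite G] [AddCommGroup V] [Finite V] [DistribMulAction G V] (hG : Cl m G)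
    (hc : ∀ v : V, c • v = 0) (hcr : CR G V) : ∃ b : ι → V, IsBase G b := by
  obtain ⟨b, hb⟩ := hT _ (Img G V) V (Nat.lt_succ_self _) hG.img hc hcr.img
  exact ⟨b, hb.of_img⟩

section Three

variable {G V : Type*} [Group G] [Finite G] [AddCommGroup V] [Finite V] [DistribMulAction G V]

/-- a set whose stabilizer acts trivially -/
def GoodSet (G : Type*) {V : Type*} [SMul G V] (B : Set V) : Prop :=
  ∀ a : G, (∀ u ∈ B, a • u ∈ B) → ∀ v : V, a • v = v

theorem good_of_pair (hG : (Nat.card G).Coprime 3) {v w : V}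
    (hb : ∀ a : G, a • v = v → a • w = w → ∀ u : V, a • u = u) : ∃ B : Set V, GoodSet G B := by
  have key : ∀ v w : V, (∀ a : G, a • v = v → a • w = w → ∀ u : V, a • u = u) →
      GoodSet G ({v, w} : Set V) ∨ (v ≠ w ∧ ∃ a : G, a • v = w ∧ a • w = v) := by
    intro v w hb
    by_contra hc
    push Not at hc
    apply hc.1
    intro a ha
    have h1 := ha v (by simp)
    have h2 := ha w (by simp)
    simp only [Set.mem_insert_iff, Set.mem_singleton_iff] at h1 h2
    by_cases hvw : v = w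
    · subst hvw; simp only [or_self] at h1; exact hb a h1 h1
    rcases h1 with h1 | h1 <;> rcases h2 with h2 | h2
    · exact absurd (MulAction.injective a (h1.trans h2.symm)) hvw
    · exact hb a h1 h2
    · exact absurd h2 (hc.2 hvw a h1)
    · exact absurd (MulAction.injective a (h1.trans h2.symm)) hvw
  rcases key v w hb with h | ⟨hvw, a, ha1, ha2⟩
  · exact ⟨_, h⟩
  rcases key v (v + w) (fun a h1 h2 => hb a h1 (by rwa [smul_add, h1, add_right_inj] at h2)) with
    h | ⟨-, a', hb1, hb2⟩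
  · exact ⟨_, h⟩
  exfalso
  have h3 : a' • w = -w := by
    rw [smul_add, hb1, add_assoc, add_eq_left] at hb2
    exact eq_neg_of_add_eq_zero_right hb2
  have h4 : (a * a') • v = v + w := by rw [mul_smul, hb1, smul_add, ha1, ha2, add_comm]
  have h5 : (a * a') • w = -v := by rw [mul_smul, h3, smul_neg, ha2]
  generalize a * a' = k at h4 h5
  have h6 : (k * k) • v = w := by rw [mul_smul, h4, smul_add, h4, h5]; abel
  have h7 : (k * k) • w = -(v + w) := by rw [mul_smul, h5, smul_neg, h4]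
  have h8 : (k * k) ^ 3 • v = v := by
    rw [pow_succ, pow_two, mul_smul, mul_smul, h6, h7, smul_neg, smul_add, h6, h7]; abel
  exact hvw ((fix_of_pow hG h8).symm.trans h6)

/-- integral combinations -/
def cmb (b : Fin 3 → V) (c : Fin 3 → ℤ) : V := ∑ i, c i • b i

def Ind (G : Type*) [SMul G V] (b : Fin 3 → V) (M : Matrix (Fin 3) (Fin 3) ℤ) : Prop :=
  ∃ a : G, ∀ c, a • cmb b c = cmb b (M *ᵥ c)

theorem cmb_mulVec (b : Fin 3 → V) (T : Matrix (Fin 3) (Fin 3) ℤ) (d : Fin 3 → ℤ) :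
    cmb b (T *ᵥ d) = ∑ j, d j • cmb b (fun i => T i j) := by
  simp only [cmb, mulVec, dotProduct, Finset.sum_smul, Finset.smul_sum, smul_smul]
  rw [Finset.sum_comm]
  simp only [mul_comm]

theorem cmb_single (b : Fin 3 → V) (i : Fin 3) : cmb b (Pi.single i 1) = b i := by
  fin_cases i <;> simp [cmb, Fin.sum_univ_three]

theorem cmb_sub (b : Fin 3 → V) (c d : Fin 3 → ℤ) : cmb b (c - d) = cmb b c - cmb b d := by
  simp [cmb, sub_smul, Finset.sum_sub_distrib]

def refls (T : Matrix (Fin 3) (Fin 3) ℤ × Matrix (Fin 3) (Fin 3) ℤ) : List (Matrix (Fin 3) (Fin 3) ℤ) :=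
  [T.1.submatrix id ![1, 0, 2] * T.2, T.1.submatrix id ![2, 1, 0] * T.2,
    T.1.submatrix id ![0, 2, 1] * T.2]

theorem tri_lemma (hG : (Nat.card G).Coprime 3) {b : Fin 3 → V} (hb : IsBase G b) {r : ℕ}
    (hr : r.Prime) (hind : ∀ c, cmb b c = 0 → ∀ i, (r : ℤ) ∣ c i)
    (T : Matrix (Fin 3) (Fin 3) ℤ × Matrix (Fin 3) (Fin 3) ℤ) (hT : T.1 * T.2 = 1)
    (hn : ¬ ∃ B : Set V, GoodSet G B) : ∃ M ∈ refls T, Ind G b M := by
  have hT' : T.2 * T.1 = 1 := mul_eq_one_comm.mp hT
  have h1 : ¬ GoodSet G (Set.range (fun j => cmb b (fun i => T.1 i j))) := fun h => hn ⟨_, h⟩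
  unfold GoodSet at h1
  push Not at h1
  obtain ⟨a, ha, hna⟩ := h1
  have h2 : ∀ j, ∃ k, a • cmb b (fun i => T.1 i j) = cmb b (fun i => T.1 i k) := fun j => by
    obtain ⟨k, hk⟩ := ha _ ⟨j, rfl⟩
    exact ⟨k, hk.symm⟩
  choose π hπ using h2
  have hinj : Function.Injective π := by
    intro i j hij
    by_contra hne
    have h3 : cmb b (fun k => T.1 k i) = cmb b (fun k => T.1 k j) :=
      MulAction.injective a (by simp only [hπ, hij])
    have h4 := hind _ ((cmb_sub b _ _).trans (sub_eq_zero.mpr h3))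
    have h5 : (r : ℤ) ∣ ∑ k, T.2 i k * (T.1 k i - T.1 k j) :=
      Finset.dvd_sum (fun k _ => Dvd.dvd.mul_left (h4 k) _)
    simp only [mul_sub, Finset.sum_sub_distrib, ← Matrix.mul_apply, hT', one_apply_eq,
      one_apply_ne hne, sub_zero] at h5
    exact hr.one_lt.ne' (Nat.dvd_one.mp (Int.natCast_dvd_natCast.mp h5))
  have h3 : ∀ c, a • cmb b c = cmb b ((T.1.submatrix id π * T.2) *ᵥ c) := by
    intro c
    rw [← mulVec_mulVec, cmb_mulVec]
    conv_lhs => rw [← one_mulVec c, ← hT, ← mulVec_mulVec, cmb_mulVec, Finset.smul_sum]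
    refine Finset.sum_congr rfl (fun j _ => ?_)
    rw [smul_comm, hπ]; rfl
  have h4 : (∀ j, π (π (π j)) = j) ∨ π = ![1, 0, 2] ∨ π = ![2, 1, 0] ∨ π = ![0, 2, 1] := by
    revert hinj; generalize π = π; revert π; decide
  rcases h4 with h4 | h4 | h4 | h4
  · exfalso
    obtain ⟨v, hv⟩ := hna
    refine hv (hb a (fun i => ?_) v)
    have h5 : ∀ j, a • cmb b (fun i => T.1 i j) = cmb b (fun i => T.1 i j) := fun j =>
      fix_of_pow hG (by rw [pow_succ, pow_two, mul_smul, mul_smul, hπ, hπ, hπ, h4])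
    rw [← cmb_single b i, ← one_mulVec (Pi.single i 1), ← hT, ← mulVec_mulVec, cmb_mulVec,
      Finset.smul_sum]
    exact Finset.sum_congr rfl (fun j _ => by rw [smul_comm, h5])
  all_goals exact ⟨_, by simp [refls, h4], a, h3⟩

def conf (M N : Matrix (Fin 3) (Fin 3) ℤ) : Bool :=
  decide (M * N * (M * N) * (M * N) = 1) &&
    (List.finRange 3).any fun i => (List.finRange 3).any fun j =>
      (decide ((M * N - 1 : Matrix (Fin 3) (Fin 3) ℤ) i j = (1 : ℤ)) ||
        decide ((M * N - 1 : Matrix (Fin 3) (Fin 3) ℤ) i j = (-1 : ℤ)))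

def bad (ch : List (Matrix (Fin 3) (Fin 3) ℤ)) : List (List (Matrix (Fin 3) (Fin 3) ℤ)) → Bool
  | [] => false
  | t :: ts => t.all (fun s => ch.any (conf s) || bad (s :: ch) ts)

theorem conf_false (hG : (Nat.card G).Coprime 3) {b : Fin 3 → V} {r : ℕ}
    (hr : r.Prime) (hind : ∀ c, cmb b c = 0 → ∀ i, (r : ℤ) ∣ c i) {M N : Matrix (Fin 3) (Fin 3) ℤ}
    (hM : Ind G b M) (hN : Ind G b N) (h : conf M N = true) : False := by
  obtain ⟨a, ha⟩ := hM
  obtain ⟨a', ha'⟩ := hN
  simp only [conf, Bool.and_eq_true, decide_eq_true_eq, List.any_eq_true, Bool.or_eq_true] at h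
  obtain ⟨h1, i, -, j, -, h2⟩ := h
  have h3 : ∀ c, (a * a') • cmb b c = cmb b ((M * N) *ᵥ c) := fun c => by
    rw [mul_smul, ha', ha, mulVec_mulVec]
  have h4 : ∀ c, (a * a') • cmb b c = cmb b c := fun c => fix_of_pow hG (by
    rw [pow_succ, pow_two, mul_smul, mul_smul, h3, h3, h3, mulVec_mulVec, mulVec_mulVec, h1,
      one_mulVec])
  have h5 := hind ((M * N - 1) *ᵥ Pi.single j 1) (by
    rw [sub_mulVec, cmb_sub, ← h3, h4, one_mulVec, sub_self]) i
  rw [mulVec_single_one] at h5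
  have h6 : (r : ℤ) ∣ 1 := by
    rcases h2 with h2 | h2
    · rw [← h2]; exact h5
    · rw [← dvd_neg, ← h2]; exact h5
  exact hr.one_lt.ne' (Nat.dvd_one.mp (Int.natCast_dvd_natCast.mp h6))

theorem bad_false {P : Matrix (Fin 3) (Fin 3) ℤ → Prop}
    (hP : ∀ M N, P M → P N → conf M N = true → False) :
    ∀ (ts : List (List (Matrix (Fin 3) (Fin 3) ℤ))) (ch : List (Matrix (Fin 3) (Fin 3) ℤ)),
      (∀ M ∈ ch, P M) → (∀ t ∈ ts, ∃ M ∈ t, P M) → bad ch ts = true → False := by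
  intro ts
  induction ts with
  | nil => intro ch _ _ h; simp [bad] at h
  | cons t ts ih =>
    intro ch h1 h2 h
    obtain ⟨M, hM, hPM⟩ := h2 t (by simp)
    simp only [bad, List.all_eq_true, Bool.or_eq_true, List.any_eq_true] at h
    rcases h M hM with ⟨N, hN, hc⟩ | h3
    · exact hP M N hPM (h1 N hN) hc
    · exact ih (M :: ch) (by simpa using ⟨hPM, h1⟩) (fun t ht => h2 t (by simp [ht])) h3

def tris : List (Matrix (Fin 3) (Fin 3) ℤ × Matrix (Fin 3) (Fin 3) ℤ) :=
  [(!![-1, -1, 0; 0, 1, -1; -1, -1, 1], !![0, -1, -1; -1, 1, 1; -1, 0, 1]),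
   (!![-1, 0, 0; 1, 0, 1; -1, -1, -1], !![-1, 0, 0; 0, -1, -1; 1, 1, 0]),
   (!![-1, 0, 0; 1, 0, 1; 0, 1, 1], !![-1, 0, 0; -1, -1, 1; 1, 1, 0]),
   (!![-1, -1, 0; 0, 1, -1; 0, 0, -1], !![-1, -1, 1; 0, 1, -1; 0, 0, -1]),
   (!![-1, 0, 0; 0, -1, 0; -1, 0, 1], !![-1, 0, 0; 0, -1, 0; -1, 0, 1]),
   (!![-1, 0, 0; 0, 0, 1; 0, -1, 0], !![-1, 0, 0; 0, 0, -1; 0, 1, 0])]

theorem tris_inv : ∀ T ∈ tris, T.1 * T.2 = 1 := by decide +kernel

theorem tris_bad : bad [] (tris.map refls) = true := by decide +kernel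

theorem exists_goodSet (hG : (Nat.card G).Coprime 3) {b : Fin 3 → V} (hb : IsBase G b) {r : ℕ}
    (hr : r.Prime) (hV : ∀ v : V, r • v = 0) : ∃ B : Set V, GoodSet G B := by
  by_contra hn
  have hind : ∀ c, cmb b c = 0 → ∀ i, (r : ℤ) ∣ c i := by
    intro c hc i
    by_contra hd
    obtain ⟨j, k, hjk⟩ : ∃ j k : Fin 3, ∀ l, l = i ∨ l = j ∨ l = k :=
      (by decide : ∀ i : Fin 3, ∃ j k : Fin 3, ∀ l, l = i ∨ l = j ∨ l = k) i
    apply hn
    apply good_of_pair hG (v := b j) (w := b k)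
    intro a h1 h2
    by_contra h3
    apply h3
    apply hb
    have h4 : ∀ l, l ≠ i → a • b l = b l := by
      intro l hl
      rcases hjk l with h | rfl | rfl
      exacts [absurd h hl, h1, h2]
    have h5 : c i • (a • b i - b i) = 0 := by
      have h6 : a • cmb b c - cmb b c = 0 := by rw [hc, smul_zero, sub_self]
      rw [cmb, Finset.smul_sum, ← Finset.sum_sub_distrib, Finset.sum_eq_single i] at h6
      · rw [smul_sub, smul_comm]; exact h6
      · intro l _ hl; rw [smul_comm, h4 l hl, sub_self]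
      · simp
    have h6 : a • b i - b i = 0 := by
      have hcop : IsCoprime (r : ℤ) (c i) :=
        (Nat.prime_iff_prime_int.mp hr).irreducible.coprime_iff_not_dvd.mpr hd
      obtain ⟨s, t, hst⟩ := hcop
      rw [← one_smul ℤ (a • b i - b i), ← hst, add_smul, mul_smul, mul_smul, h5, natCast_zsmul, hV]
      simp
    intro l
    by_cases hl : l = i
    · rw [hl]; exact sub_eq_zero.mp h6
    · exact h4 l hl
  refine bad_false (P := Ind G b) (fun M N => conf_false hG hr hind) _ [] (by simp) ?_ tris_bad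
  intro t ht
  obtain ⟨T, hT, rfl⟩ := List.mem_map.mp ht
  exact tri_lemma hG hb hr hind T (tris_inv T hT) hn

theorem Irr.exists_prime (h : Irr G V) [Nontrivial V] : ∃ r : ℕ, r.Prime ∧ ∀ v : V, r • v = 0 := by
  obtain ⟨r, hr, hd⟩ := Nat.exists_prime_and_dvd (Finite.one_lt_card (α := V)).ne'
  haveI := Fact.mk hr
  obtain ⟨x, hx⟩ := exists_prime_addOrderOf_dvd_card' r hd
  refine ⟨r, hr, fun v => ?_⟩
  rcases h (nsmulAddMonoidHom r).ker (fun a v hv => by
    have : r • v = 0 := hv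
    show r • a • v = 0
    rw [smul_comm, this, smul_zero]) with h1 | h1
  · exfalso
    have : x ∈ (nsmulAddMonoidHom r : V →+ V).ker := by
      show r • x = 0
      rw [← hx]; exact addOrderOf_nsmul_eq_zero x
    rw [h1, AddSubgroup.mem_bot] at this
    rw [this, addOrderOf_zero] at hx
    exact hr.one_lt.ne hx
  · have : v ∈ (nsmulAddMonoidHom r : V →+ V).ker := by rw [h1]; trivial
    exact this

end Three

theorem AA_three (n : ℕ) : AA.{u} 3 (Fin 3) n := by
  classical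
  intro G V _ _ _ _ _ hc hG _ hirr _
  obtain ⟨b, hb⟩ := TT_three n G V hc hG.one (fun v => zero_smul _ v) hirr.cr
  obtain ⟨r, hr, hV⟩ := hirr.exists_prime
  obtain ⟨B, hB⟩ := exists_goodSet hG.2 hb hr hV
  refine ⟨fun v => if v = 0 then 0 else if v ∈ B then 1 else 2, fun a c h => ?_⟩
  have h2 : c = 0 := by
    have := h 0
    by_contra h3
    simp only [smul_zero, zero_add, if_neg h3, if_true] at this
    split_ifs at this <;> simp at this
  subst h2
  refine ⟨rfl, hB a (fun u hu => ?_)⟩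
  by_cases h0 : u = 0
  · rw [h0, smul_zero, ← h0]; exact hu
  have := h u
  by_contra h3
  have h4 : a • u ≠ 0 := fun e => h0 ((smul_eq_zero_iff_eq a).mp e)
  simp [h0, hu, h3, h4] at this

theorem CC_three (n : ℕ) : CC.{u} 3 (Fin 3) n := CC_of_AA (AA_three n) (MC_prime Nat.prime_three)

end CfsgH1.BS
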