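import Cfsg.Agent.H1.Base6

/-! Base sizes, part 7: descending along a chain of vector stabilizers. -/

set_option autoImplicit false
set_option maxHeartbeats 400000
set_option linter.unusedSectionVars false
set_option linter.style.haveILetI false

namespace CfsgH1.BS

open Subgroup
open scoped commutatorElement

variable {G V : Type*} [Group G] [Finite G] [AddCommGroup V] [Finite V] [DistribMulAction G V]

def KP (F B : Subgroup G) (x y : V) : Prop := ∀ g : G, g • x = x → g • y = y → Kill F B g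

def WSt (V : Type*) [AddCommGroup V] [DistribMulAction G V] (F B : Subgroup G) : Prop :=
  ∃ x y : V, IsSt F B x ∧ y ∈ fx V B ∧ KP F B x y

def St (V : Type*) [AddCommGroup V] [DistribMulAction G V] (F B : Subgroup G) : Prop :=
  ∃ x y : V, IsSt F B x ∧ y ∈ fx V B ∧ KP F B x y ∧ y ≠ 0 ∧ ∀ c ∈ CF F B, c • x ≠ y

theorem St.wSt {F B : Subgroup G} (h : St V F B) : WSt V F B := by
  obtain ⟨x, y, h1, h2, h3, -⟩ := h
  exact ⟨x, y, h1, h2, h3⟩

structure Step (V : Type*) [AddCommGroup V] [DistribMulAction G V] (F B B' : Subgroup G) (l : ℕ)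
    (b f : G) : Prop where
  prime : l.Prime
  le : B ≤ B'
  leF : B' ≤ F
  ne : fx V B' ≠ ⊥
  mem : b ∈ B'
  nmem : b ∉ B
  pow : b ^ l = 1
  dec : ∀ β ∈ B', ∃ b₀ ∈ B, ∃ k : ℕ, β = b₀ * b ^ k
  fC : f ∈ CF F B
  fne : ⁅b, f⁆ ≠ 1

theorem fx_anti {B B' : Subgroup G} (h : B ≤ B') : fx V B' ≤ fx V B := fun _ hv b hb => hv b (h hb)

theorem CF_anti {F B B' : Subgroup G} (h : B ≤ B') : CF F B' ≤ CF F B :=
  fun _ hc => ⟨hc.1, fun b hb => hc.2 b (h hb)⟩

namespace QP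

variable {Z F : Subgroup G} (h : QP V Z F)
include h

theorem eig_comp {b : G} (hb : b ∈ F) {n : ℕ} (α : Fin n → G) (w : Fin n → V)
    (hα : ∀ i, α i ∈ Z) (hw : ∀ i, b • w i = α i • w i) (hs : ∑ i, w i = 0) (η : G)
    [DecidableEq G] : ∑ i, (if α i = η then w i else 0) = 0 := by
  classical
  by_cases hη : η ∈ Z
  swap
  · exact Finset.sum_eq_zero (fun i _ => if_neg (fun e : α i = η => hη (e ▸ hα i)))
  haveI := Fintype.ofFinite Z
  let W : Z → AddSubgroup V := fun z =>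
    (DistribMulAction.toAddMonoidHom V b - DistribMulAction.toAddMonoidHom V (z : G)).ker
  have hW : ∀ (z : Z) (v : V), v ∈ W z ↔ b • v = (z : G) • v := fun z v => by
    simp [W, AddMonoidHom.mem_ker, sub_eq_zero]
  refine indep_of_sep W ?_ Finset.univ (fun z : Z => ∑ i, if α i = z then w i else 0) ?_ ?_ ⟨η, hη⟩
    (Finset.mem_univ _)
  · intro i j hij
    refine ⟨DistribMulAction.toAddMonoidHom V b - DistribMulAction.toAddMonoidHom V (i : G), ?_,
      fun w hw => hw, ?_⟩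
    · intro k v hv
      rw [hW] at hv ⊢
      show b • (b • v - (i : G) • v) = (k : G) • (b • v - (i : G) • v)
      rw [smul_sub, smul_sub, ← mul_smul b (i : G), ← h.zc _ i.2 b hb, mul_smul, hv, ← mul_smul b,
        ← h.zc _ k.2 b hb, mul_smul, hv, ← mul_smul (i : G), h.zc _ i.2 _ (h.zf k.2), mul_smul]
    · intro v hv e
      have e' : b • v - (i : G) • v = 0 := e
      rw [(hW _ _).mp hv, sub_eq_zero] at e'
      by_contra h0
      exact hij (Subtype.ext (h.z_inj j.2 i.2 h0 e').symm)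
  · intro z
    refine sum_mem (fun i _ => ?_)
    split_ifs with e
    · rw [hW, ← e]; exact hw i
    · exact zero_mem _
  · rw [Finset.sum_comm]
    refine Eq.trans (Finset.sum_congr rfl (fun i _ => ?_)) hs
    rw [Finset.sum_eq_single ⟨α i, hα i⟩]
    · simp
    · intro z _ hz; exact if_neg (fun e : α i = z => hz (Subtype.ext e.symm))
    · simp

theorem eig4 {b : G} (hb : b ∈ F) {α₁ α₂ α₃ α₄ : G} {w₁ w₂ w₃ w₄ : V}
    (h1 : α₁ ∈ Z) (h2 : α₂ ∈ Z) (h3 : α₃ ∈ Z) (h4 : α₄ ∈ Z)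
    (k1 : b • w₁ = α₁ • w₁) (k2 : b • w₂ = α₂ • w₂) (k3 : b • w₃ = α₃ • w₃) (k4 : b • w₄ = α₄ • w₄)
    (hs : w₁ + w₂ + w₃ + w₄ = 0) (η : G) [DecidableEq G] :
    (if α₁ = η then w₁ else 0) + (if α₂ = η then w₂ else 0) + (if α₃ = η then w₃ else 0) +
      (if α₄ = η then w₄ else 0) = 0 := by
  have := h.eig_comp hb ![α₁, α₂, α₃, α₄] ![w₁, w₂, w₃, w₄]
    (fun i => by fin_cases i; exacts [h1, h2, h3, h4])
    (fun i => by fin_cases i; exacts [k1, k2, k3, k4]) (by rw [Fin.sum_univ_four]; exact hs) η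
  rw [Fin.sum_univ_four] at this
  exact this

theorem eig6 {b : G} (hb : b ∈ F) {α₁ α₂ α₃ α₄ α₅ α₆ : G} {w₁ w₂ w₃ w₄ w₅ w₆ : V}
    (h1 : α₁ ∈ Z) (h2 : α₂ ∈ Z) (h3 : α₃ ∈ Z) (h4 : α₄ ∈ Z) (h5 : α₅ ∈ Z) (h6 : α₆ ∈ Z)
    (k1 : b • w₁ = α₁ • w₁) (k2 : b • w₂ = α₂ • w₂) (k3 : b • w₃ = α₃ • w₃) (k4 : b • w₄ = α₄ • w₄)
    (k5 : b • w₅ = α₅ • w₅) (k6 : b • w₆ = α₆ • w₆)
    (hs : w₁ + w₂ + w₃ + w₄ + w₅ + w₆ = 0) (η : G) [DecidableEq G] :
    (if α₁ = η then w₁ else 0) + (if α₂ = η then w₂ else 0) + (if α₃ = η then w₃ else 0) +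
      (if α₄ = η then w₄ else 0) + (if α₅ = η then w₅ else 0) + (if α₆ = η then w₆ else 0) = 0 := by
  have := h.eig_comp hb ![α₁, α₂, α₃, α₄, α₅, α₆] ![w₁, w₂, w₃, w₄, w₅, w₆]
    (fun i => by fin_cases i; exacts [h1, h2, h3, h4, h5, h6])
    (fun i => by fin_cases i; exacts [k1, k2, k3, k4, k5, k6])
    (by rw [Fin.sum_univ_six]; exact hs) η
  rw [Fin.sum_univ_six] at this
  exact this

theorem smul_eig {b c : G} {v : V} (hv : b • v = v) : b • c • v = ⁅b, c⁆ • c • v := by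
  have h2 : b * c = ⁅b, c⁆ * (c * b) := by simp only [commutatorElement_def]; group
  rw [← mul_smul, h2, mul_smul, mul_smul, hv]

theorem mem_CF_of_fix {B : Subgroup G} (hB : B ≤ F) {y : V} (hy : y ∈ fx V B) (hy0 : y ≠ 0) {u : G}
    (hu : u ∈ F) (huy : u • y = y) : u ∈ CF F B := by
  refine ⟨hu, fun b hb => commutatorElement_eq_one_iff_mul_comm.mp
    (h.semi _ (h.comm _ (hB hb) _ hu) y ?_ hy0)⟩
  have := h.smul_eig (c := u) (hy b hb)
  rw [huy, hy b hb] at this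
  exact this.symm

/-- elements of order dividing an odd number -/
def oddSub {n : ℕ} (hn : Odd n) : Subgroup G where
  carrier := {u | u ∈ F ∧ u ^ n = 1}
  one_mem' := ⟨one_mem _, one_pow _⟩
  mul_mem' := by
    rintro a b ⟨ha, ha'⟩ ⟨hb, hb'⟩
    refine ⟨mul_mem ha hb, ?_⟩
    obtain ⟨k, hk⟩ := hn
    have h1 : n.choose 2 = n * k := by
      rw [Nat.choose_two_right, hk, Nat.add_sub_cancel, ← mul_assoc, mul_comm _ 2, mul_assoc,
        Nat.mul_div_cancel_left _ two_pos]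
    rw [h.mul_pow' ha hb, ha', hb', h1, pow_mul, ← h.comm_pow_left hb ha, hb']
    simp
  inv_mem' := by
    rintro a ⟨ha, ha'⟩
    exact ⟨inv_mem ha, by rw [inv_pow, ha', inv_one]⟩

theorem parity {n : ℕ} (hn : Odd n) {c : G} (hc : c ∈ h.oddSub hn) {x : V} (hx : c • x = -x)
    (h2 : ∀ v : V, -v = v → v = 0) : x = 0 := by
  apply h2
  obtain ⟨k, hk⟩ := hn
  have h1 : c ^ 2 • x = x := by rw [pow_two, mul_smul, hx, smul_neg, hx, neg_neg]
  have h3 : (c ^ 2) ^ k • x = x := pow_mem (show c ^ 2 ∈ MulAction.stabilizer G x from h1) k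
  have h4 : c ^ n = 1 := hc.2
  rw [← hx]
  conv_rhs => rw [← one_smul G x, ← h4, hk, pow_succ' c (2 * k), pow_mul, mul_smul, h3]

variable [Nontrivial V]

theorem exists_compl {B : Subgroup G} (hB : B ≤ F) (hB0 : fx V B ≠ ⊥) {b : G} (hb : b ∈ B)
    (hb1 : b ≠ 1) {l : ℕ} (hl : l.Prime) (hbl : b ^ l = 1) : ∃ B₀ f, Step V F B₀ B l b f := by
  obtain ⟨B₀, ⟨h1, h2⟩, hmax⟩ := WellFounded.has_min (wellFounded_gt (α := Subgroup G))
    {B₀ | B₀ ≤ B ∧ b ∉ B₀} ⟨⊥, bot_le, fun e => hb1 (mem_bot.mp e)⟩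
  have hdec : ∀ u ∈ B, ∀ β ∈ B₀ ⊔ zpowers u, ∃ b₀ ∈ B₀, ∃ k : ℕ, β = b₀ * u ^ k := by
    intro u hu
    let S : Subgroup G :=
      { carrier := {β | ∃ b₀ ∈ B₀, ∃ k : ℕ, β = b₀ * u ^ k}
        one_mem' := ⟨1, one_mem _, 0, by simp⟩
        mul_mem' := by
          rintro _ _ ⟨a, ha, k, rfl⟩ ⟨a', ha', k', rfl⟩
          refine ⟨a * a', mul_mem ha ha', k + k', ?_⟩
          have := (h.le_CF hB hB0 (h1 ha')).2 _ (pow_mem hu k)
          rw [mul_assoc, ← mul_assoc (u ^ k), this, pow_add]; simp only [mul_assoc]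
        inv_mem' := by
          rintro _ ⟨a, ha, k, rfl⟩
          obtain ⟨m, hm⟩ := (mem_powers_iff_mem_zpowers (x := u) (y := (u ^ k)⁻¹)).mpr
            (inv_mem (npow_mem_zpowers u k))
          refine ⟨a⁻¹, inv_mem ha, m, ?_⟩
          have := (h.le_CF hB hB0 (h1 (inv_mem ha))).2 _ (pow_mem hu m)
          simp only at hm
          rw [mul_inv_rev, ← hm, this] }
    have : B₀ ⊔ zpowers u ≤ S := sup_le (fun a ha => ⟨a, ha, 0, by simp⟩)
      (zpowers_le.mpr ⟨1, one_mem _, 1, by simp⟩)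
    exact fun β hβ => this hβ
  have h3 : B ≤ B₀ ⊔ zpowers b := by
    intro u hu
    by_contra hcon
    obtain ⟨q, hq, u', hu', hu'2, a, ha⟩ := exists_primary hcon
    have hu'B : u' ∈ B := (zpowers_le.mpr hu) hu'
    have hq1 : u' ^ q = 1 := h.eq_one_of_fix hB0 (pow_mem hu'B q)
      (h.pow_mem_of_pow_pow (hB hu'B) a (by rw [ha]; exact one_mem _))
    have h4 : b ∈ B₀ ⊔ zpowers u' := by
      by_contra h5
      refine hmax _ ⟨sup_le h1 (zpowers_le.mpr hu'B), h5⟩ (lt_of_le_of_ne le_sup_left (fun e => ?_))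
      exact hu'2 (mem_sup_left (e ▸ mem_sup_right (mem_zpowers u')))
    obtain ⟨b₀, hb₀, k, hk⟩ := hdec u' hu'B b h4
    have h5 : u' ^ k ∈ B₀ ⊔ zpowers b := by
      have : u' ^ k = b₀⁻¹ * b := by rw [hk]; simp
      rw [this]; exact mul_mem_sup (inv_mem hb₀) (mem_zpowers b)
    by_cases h6 : q ∣ k
    · obtain ⟨m, rfl⟩ := h6
      rw [pow_mul, hq1, one_pow, mul_one] at hk
      exact h2 (hk ▸ hb₀)
    · obtain ⟨m, hm⟩ := exists_pow_eq_self_of_coprime (x := u') (n := k)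
        (Nat.Coprime.coprime_dvd_right (orderOf_dvd_of_pow_eq_one hq1)
          ((Nat.Prime.coprime_iff_not_dvd hq).mpr h6).symm)
      exact hu'2 (hm ▸ pow_mem h5 m)
  haveI := h.zn
  obtain ⟨f, hf, hf1⟩ := h.dual (h1.trans hB) (hB hb) (by
    intro h4
    rw [← SetLike.mem_coe, mul_normal] at h4
    obtain ⟨b₀, hb₀, z, hz, e⟩ := h4
    have : z = 1 := h.eq_one_of_fix hB0 (by
      have : z = b₀⁻¹ * b := by rw [← e]; simp
      rw [this]; exact mul_mem (inv_mem (h1 hb₀)) hb) hz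
    rw [this] at e
    exact h2 (by rw [← e]; simpa using hb₀))
  exact ⟨B₀, f, hl, h1, hB, hB0, hb, h2, hbl, fun β hβ => hdec b hb β (h3 hβ), hf, hf1⟩

theorem exists_prime_elt {B : Subgroup G} (hB : B ≤ F) (hB0 : fx V B ≠ ⊥) {u : G} (hu : u ∈ B)
    {D : Subgroup G} (hD : u ∉ D) : ∃ l : ℕ, l.Prime ∧ ∃ b ∈ B, b ∉ D ∧ b ^ l = 1 := by
  obtain ⟨q, hq, u', hu', hu'2, a, ha⟩ := exists_primary hD
  have hu'B : u' ∈ B := (zpowers_le.mpr hu) hu'
  exact ⟨q, hq, u', hu'B, hu'2, h.eq_one_of_fix hB0 (pow_mem hu'B q)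
    (h.pow_mem_of_pow_pow (hB hu'B) a (by rw [ha]; exact one_mem _))⟩

variable {B B' : Subgroup G} {l : ℕ} {b f : G} (hs : Step V F B B' l b f)
include hs

theorem step_pow {c : G} (hc : c ∈ F) : ⁅b, c⁆ ^ l = 1 := by
  rw [← h.comm_pow_left (hs.leF hs.mem) hc, hs.pow, commutatorElement_one_left]

theorem step_memC {c : G} (hc : c ∈ CF F B) (h1 : ⁅b, c⁆ = 1) : c ∈ CF F B' := by
  refine ⟨hc.1, fun β hβ => ?_⟩
  obtain ⟨b₀, hb₀, k, rfl⟩ := hs.dec β hβ
  have c1 : Commute b c := commutatorElement_eq_one_iff_mul_comm.mp h1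
  exact (Commute.mul_left (hc.2 b₀ hb₀) (c1.pow_left k)).eq

theorem step_memB {β : G} (hβ : β ∈ B') (h1 : ⁅β, f⁆ = 1) : β ∈ B := by
  haveI := Fact.mk hs.prime
  obtain ⟨b₀, hb₀, k, rfl⟩ := hs.dec β hβ
  have hbF := hs.leF hs.mem
  rw [h.comm_mul_left (hs.leF (hs.le hb₀)) (pow_mem hbF k) hs.fC.1,
    commutatorElement_eq_one_iff_mul_comm.mpr (hs.fC.2 b₀ hb₀), one_mul,
    h.comm_pow_left hbF hs.fC.1] at h1
  have h2 := orderOf_dvd_of_pow_eq_one h1
  rw [orderOf_eq_prime (h.step_pow hs hs.fC.1) hs.fne] at h2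
  obtain ⟨m, rfl⟩ := h2
  rw [pow_mul, hs.pow, one_pow, mul_one]
  exact hb₀

theorem step_dec {c : G} (hc : c ∈ CF F B) : ∃ k : ℕ, (f ^ k)⁻¹ * c ∈ CF F B' := by
  have hbF := hs.leF hs.mem
  obtain ⟨k, hk⟩ := h.root hs.prime (h.comm _ hbF _ hs.fC.1) hs.fne (h.step_pow hs hs.fC.1)
    (h.comm _ hbF _ hc.1) (h.step_pow hs hc.1)
  have h1 : (f ^ k)⁻¹ * c ∈ CF F B := mul_mem (inv_mem (pow_mem hs.fC k)) hc
  refine ⟨k, h.step_memC hs h1 ?_⟩
  have := h.comm_mul_right hbF (pow_mem hs.fC.1 k) h1.1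
  rwa [mul_inv_cancel_left, h.comm_pow_right hbF hs.fC.1, ← hk, left_eq_mul] at this

theorem kill_step {g : G} (hk : Kill F B' g) (h1 : f⁻¹ * (g * f * g⁻¹) ∈ B')
    (h2 : (f * f)⁻¹ * (g * (f * f) * g⁻¹) ∈ B') : Kill F B g := by
  have hf := hs.fC.1
  have e1 : f ∈ KS F B g := by
    refine ⟨hs.fC, h.step_memB hs h1 ?_⟩
    generalize hψ : f⁻¹ * (g * f * g⁻¹) = ψ at h1
    have h3 : (f * f)⁻¹ * (g * (f * f) * g⁻¹) = ⁅f⁻¹, ψ⁆ * ψ * ψ := by
      rw [← hψ]; simp only [commutatorElement_def]; group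
    rw [h3] at h2
    have h4 : ⁅f⁻¹, ψ⁆ ∈ B' := by simpa using mul_mem (mul_mem h2 (inv_mem h1)) (inv_mem h1)
    have h5 := h.eq_one_of_fix hs.ne h4 (h.comm _ (inv_mem hf) _ (hs.leF h1))
    have h6 : Commute f⁻¹ ψ := commutatorElement_eq_one_iff_mul_comm.mp h5
    exact commutatorElement_eq_one_iff_mul_comm.mpr (Commute.inv_left_iff.mp h6).symm.eq
  have e2 : CF F B' ≤ KS F B g := by
    intro c hc
    have h3 := (hk hc).2
    refine ⟨CF_anti hs.le hc, h.step_memB hs h3 ?_⟩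
    have hz := h.comm _ hc.1 _ hf
    have h4 := h.comm_of_mem_KS hs.ne hz (hk (h.z_le_CF hs.leF hz))
    have h5 : ⁅c * (c⁻¹ * (g * c * g⁻¹)), f * (f⁻¹ * (g * f * g⁻¹))⁆ = ⁅c, f⁆ := by
      rw [mul_inv_cancel_left, mul_inv_cancel_left, ← conjugate_commutatorElement, h4,
        mul_inv_cancel_right]
    generalize f⁻¹ * (g * f * g⁻¹) = ψ at h1 h5
    generalize c⁻¹ * (g * c * g⁻¹) = φ at h3 h5
    have hψ := hs.leF h1
    have hφ := hs.leF h3
    rw [h.comm_mul_left hc.1 hφ (mul_mem hf hψ), h.comm_mul_right hc.1 hf hψ,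
      h.comm_mul_right hφ hf hψ, commutatorElement_eq_one_iff_mul_comm.mpr (hc.2 ψ h1).symm,
      commutatorElement_eq_one_iff_mul_comm.mpr ((h.le_CF hs.leF hs.ne h1).2 φ h3)] at h5
    simpa using h5
  intro c hc
  obtain ⟨k, hk⟩ := h.step_dec hs hc
  simpa using mul_mem (pow_mem e1 k) (e2 hk)

theorem st_of_isSt {x y : V} (hx : IsSt F B' x) (hy : IsSt F B y) (hk : KP F B x y) : St V F B := by
  refine ⟨y, x, hy, fx_anti hs.le hx.2.2.1, fun g h1 h2 => hk g h2 h1, hx.1, fun c hc e => ?_⟩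
  have h1 : c⁻¹ * b * c ∈ B := by
    apply hy.2.2.2 _ (mul_mem (mul_mem (inv_mem hc.1) (hs.leF hs.mem)) hc.1)
    rw [mul_smul, mul_smul, e, hx.2.2.1 b hs.mem, ← e, inv_smul_smul]
  have h2 := hc.2 _ h1
  have h3 : b = c⁻¹ * b * c := by
    calc b = (c * (c⁻¹ * b * c)) * c⁻¹ := by group
      _ = _ := by rw [← h2]; group
  exact hs.nmem (h3 ▸ h1)

theorem two_kp (hl : l = 2) {x y : V} (hx : IsSt F B' x) (hy : y ∈ fx V B') (hk : KP F B' x y) :
    KP F B x (y + f • x) := by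
  classical
  haveI := h.fn
  intro g hgx hgy
  have hbF := hs.leF hs.mem
  have hf := hs.fC.1
  have hf' : g * f * g⁻¹ ∈ F := h.fn.conj_mem _ hf g
  have e1 : g • f • x = (g * f * g⁻¹) • x := by
    rw [mul_smul, mul_smul, inv_smul_eq_iff.mpr hgx.symm]
  have hgy' := smul_mem_fx (hx.mem_normalizer hgx) hy
  have e2 := h.eig4 hbF (w₁ := y - g • y) (w₂ := f • x) (w₃ := -((g * f * g⁻¹) • x)) (w₄ := 0)
    (one_mem _) (h.comm _ hbF _ hf) (h.comm _ hbF _ hf') (one_mem _)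
    (by simpa using sub_mem hy hgy' b hs.mem) (h.smul_eig (hx.2.2.1 b hs.mem))
    (by simpa using h.smul_eig (hx.2.2.1 b hs.mem)) (by simp)
    (by
      rw [smul_add, e1] at hgy
      refine Eq.trans ?_ (sub_eq_zero.mpr hgy.symm); abel) ⁅b, f⁆
  have hfx : f • x ≠ 0 := fun e => hx.1 ((smul_eq_zero_iff_eq _).mp e)
  simp only [if_neg hs.fne.symm, if_true, zero_add, add_zero] at e2
  have e3 : (g * f * g⁻¹) • x = f • x := by
    split_ifs at e2
    · exact (add_neg_eq_zero.mp e2).symm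
    · exact absurd (by simpa using e2) hfx
  rw [smul_add, e1, e3, add_left_inj] at hgy
  have hk' := hk g hgx hgy
  refine h.kill_step hs hk' (hx.2.2.2 _ (mul_mem (inv_mem hf) hf') ?_) (hk' ?_).2
  · rw [mul_smul, e3, inv_smul_smul]
  · apply h.step_memC hs (mul_mem hs.fC hs.fC)
    rw [h.comm_mul_right hbF hf hf, ← pow_two, ← hl, h.step_pow hs hf]

theorem two_st (hl : l = 2) {x y : V} (hx : IsSt F B' x) (hy : y ∈ fx V B') (hk : KP F B' x y)
    (hy0 : y ≠ 0) (hnb : ∀ c ∈ CF F B', c • y = x → f • c • f • x ≠ y) : St V F B := by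
  classical
  have hbF := hs.leF hs.mem
  have hf := hs.fC.1
  have hζ := h.comm _ hbF _ hf
  have hζ2 : ∀ c ∈ F, ⁅b, c⁆ * ⁅b, c⁆ = 1 := fun c hc => by rw [← pow_two, ← hl, h.step_pow hs hc]
  have hmem : y + f • x ∈ fx V B :=
    add_mem (fx_anti hs.le hy) (smul_mem_fx_of_CF hs.fC (fx_anti hs.le hx.2.2.1))
  have hfx : f • x ≠ 0 := fun e => hx.1 ((smul_eq_zero_iff_eq _).mp e)
  have hne : y + f • x ≠ 0 := by
    intro e
    have e2 := h.eig4 hbF (w₁ := y) (w₂ := f • x) (w₃ := 0) (w₄ := 0)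
      (one_mem _) hζ (one_mem _) (one_mem _) (by simpa using hy b hs.mem)
      (h.smul_eig (hx.2.2.1 b hs.mem)) (by simp) (by simp) (by simpa using e) 1
    simp [hs.fne] at e2
    exact hy0 e2
  refine h.st_of_isSt hs hx ⟨hne, hs.le.trans hs.leF, hmem, fun u hu huy => ?_⟩
    (h.two_kp hs hl hx hy hk)
  have huC := h.mem_CF_of_fix (hs.le.trans hs.leF) hmem hne hu huy
  have e2 := fun η => h.eig4 hbF (w₁ := y) (w₂ := f • x) (w₃ := -(u • y)) (w₄ := -((u * f) • x))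
    (one_mem _) hζ (h.comm _ hbF _ hu) (h.comm _ hbF _ (mul_mem hu hf))
    (by simpa using hy b hs.mem) (h.smul_eig (hx.2.2.1 b hs.mem))
    (by simpa using h.smul_eig (hy b hs.mem)) (by simpa using h.smul_eig (hx.2.2.1 b hs.mem))
    (by
      rw [smul_add, ← mul_smul] at huy
      rw [← sub_eq_zero.mpr huy.symm]; abel) η
  rw [h.comm_mul_right hbF hu hf] at e2
  rcases h.invol_cases hζ hs.fne (hζ2 f hf) (h.comm _ hbF _ hu) (hζ2 u hu) with e | e
  · have e3 := e2 1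
    have e4 := e2 ⁅b, f⁆
    simp [e, hs.fne, hs.fne.symm, add_neg_eq_zero] at e3 e4
    have h1 : f⁻¹ * u * f ∈ B' := by
      apply hx.2.2.2 _ (mul_mem (mul_mem (inv_mem hf) hu) hf)
      rw [mul_assoc, mul_smul, ← e4, inv_smul_smul]
    have h2 : u = ⁅f, f⁻¹ * u * f⁆ * (f⁻¹ * u * f) := by simp only [commutatorElement_def]; group
    have h3 : ⁅f, f⁻¹ * u * f⁆ = 1 := by
      refine h.semi _ (h.comm _ hf _ (hs.leF h1)) y ?_ hy0
      conv_rhs => rw [e3, h2, mul_smul, hy _ h1]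
    rw [h2, h3, one_mul]
    exact h.step_memB hs h1 (by rw [← commutatorElement_inv, h3, inv_one])
  · exfalso
    have e3 := e2 1
    have e4 := e2 ⁅b, f⁆
    simp [e, hs.fne, hs.fne.symm, add_neg_eq_zero, hζ2 f hf] at e3 e4
    refine hnb (f⁻¹ * u) (h.step_memC hs (mul_mem (inv_mem hs.fC) huC) ?_) ?_ ?_
    · have := h.comm_mul_right hbF hf (mul_mem (inv_mem hf) hu)
      rwa [mul_inv_cancel_left, e, left_eq_mul] at this
    · rw [mul_smul, ← e4, inv_smul_smul]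
    · rw [mul_smul, smul_inv_smul, ← mul_smul, ← e3]

theorem odd_st' (hl : l ≠ 2) (h2 : ∀ v : V, -v = v → v = 0) (hfo : Odd (orderOf f))
    (hw : WSt V F B') : St V F B := by
  classical
  haveI := h.fn
  haveI := Fact.mk hs.prime
  obtain ⟨x, y, hx, hy, hk⟩ := hw
  have hbF := hs.leF hs.mem
  have hf := hs.fC.1
  have hζ := h.comm _ hbF _ hf
  have hsq : ∀ c ∈ F, ⁅b, c⁆ * ⁅b, c⁆ = 1 → ⁅b, c⁆ = 1 := by
    intro c hc e
    by_contra h1
    have h3 := orderOf_eq_prime (h.step_pow hs hc) h1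
    have h4 := orderOf_eq_prime (p := 2) (by rw [pow_two]; exact e) h1
    exact hl (h3.symm.trans h4)
  have hζζ : ⁅b, f⁆ * ⁅b, f⁆ ≠ 1 := fun e => hs.fne (hsq f hf e)
  have hζζ' : ⁅b, f⁆ * ⁅b, f⁆ ≠ ⁅b, f⁆ := fun e => hs.fne (mul_eq_left.mp e)
  have hne0 : ∀ c : G, c • x ≠ 0 := fun c e => hx.1 ((smul_eq_zero_iff_eq _).mp e)
  have hxb := hx.2.2.1 b hs.mem
  have hmem : y + f • x - (f * f) • x ∈ fx V B :=
    sub_mem (add_mem (fx_anti hs.le hy) (smul_mem_fx_of_CF hs.fC (fx_anti hs.le hx.2.2.1)))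
      (smul_mem_fx_of_CF (mul_mem hs.fC hs.fC) (fx_anti hs.le hx.2.2.1))
  have gen : ∀ (y' : V) (α u v : G), α ∈ Z → b • y' = α • y' → u ∈ F → v ∈ F →
      y' + u • x - v • x = y + f • x - (f * f) • x → ∀ η : G,
      (if 1 = η then y else 0) + (if ⁅b, f⁆ = η then f • x else 0) +
        (if ⁅b, f⁆ * ⁅b, f⁆ = η then -((f * f) • x) else 0) + (if α = η then -y' else 0) +
        (if ⁅b, u⁆ = η then -(u • x) else 0) + (if ⁅b, v⁆ = η then v • x else 0) = 0 := by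
    intro y' α u v hα hy' hu hv e η
    have := h.eig6 hbF (w₁ := y) (w₂ := f • x) (w₃ := -((f * f) • x)) (w₄ := -y')
      (w₅ := -(u • x)) (w₆ := v • x) (one_mem _) hζ (h.comm _ hbF _ (mul_mem hf hf)) hα
      (h.comm _ hbF _ hu) (h.comm _ hbF _ hv) (by simpa using hy b hs.mem) (h.smul_eig hxb)
      (by simpa using h.smul_eig hxb) (by simpa using hy') (by simpa using h.smul_eig hxb)
      (h.smul_eig hxb) (by rw [← sub_eq_zero.mpr e.symm]; abel) η
    rwa [h.comm_mul_right hbF hf hf] at this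
  have hne : y + f • x - (f * f) • x ≠ 0 := by
    intro e
    have := gen 0 1 1 1 (one_mem _) (by simp) (one_mem _) (one_mem _) (by simp [e]) ⁅b, f⁆
    simp [hs.fne.symm, hζζ', hne0] at this
  refine h.st_of_isSt hs hx ⟨hne, hs.le.trans hs.leF, hmem, fun u hu huy => ?_⟩ ?_
  · have key : ∀ u ∈ F, u • (y + f • x - (f * f) • x) = y + f • x - (f * f) • x → ∀ η : G,
      (if 1 = η then y else 0) + (if ⁅b, f⁆ = η then f • x else 0) +
        (if ⁅b, f⁆ * ⁅b, f⁆ = η then -((f * f) • x) else 0) + (if ⁅b, u⁆ = η then -(u • y) else 0) +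
        (if ⁅b, u⁆ * ⁅b, f⁆ = η then -((u * f) • x) else 0) +
        (if ⁅b, u⁆ * (⁅b, f⁆ * ⁅b, f⁆) = η then (u * (f * f)) • x else 0) = 0 := by
      intro u hu huy η
      have := gen (u • y) ⁅b, u⁆ (u * f) (u * (f * f)) (h.comm _ hbF _ hu)
        (h.smul_eig (hy b hs.mem)) (mul_mem hu hf) (mul_mem hu (mul_mem hf hf))
        (by rw [← huy, smul_sub, smul_add, ← mul_smul, ← mul_smul]) η
      rwa [h.comm_mul_right hbF hu hf, h.comm_mul_right hbF hu (mul_mem hf hf),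
        h.comm_mul_right hbF hf hf] at this
    have hη : ⁅b, u⁆ = 1 := by
      by_contra hη
      obtain ⟨a, m, hm, ham⟩ := Nat.exists_eq_two_pow_mul_odd (orderOf_pos u).ne'
      have hu' : u ^ 2 ^ a ∈ F := pow_mem hu _
      have huy' : (u ^ 2 ^ a) • (y + f • x - (f * f) • x) = y + f • x - (f * f) • x :=
        pow_mem (show u ∈ MulAction.stabilizer G _ from huy) _
      have hη' : ⁅b, u ^ 2 ^ a⁆ ≠ 1 := by
        rw [h.comm_pow_right hbF hu]
        intro e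
        have h3 := orderOf_dvd_of_pow_eq_one e
        rw [orderOf_eq_prime (h.step_pow hs hu) hη] at h3
        exact hl ((Nat.prime_dvd_prime_iff_eq hs.prime Nat.prime_two).mp
          (hs.prime.dvd_of_dvd_pow h3))
      have hn : Odd (m * orderOf f) := hm.mul hfo
      have o1 : u ^ 2 ^ a ∈ h.oddSub hn :=
        ⟨hu', by rw [pow_mul, ← pow_mul u, ← ham, pow_orderOf_eq_one, one_pow]⟩
      have o2 : f ∈ h.oddSub hn := ⟨hf, by rw [mul_comm, pow_mul, pow_orderOf_eq_one, one_pow]⟩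
      generalize u ^ 2 ^ a = u at hu' huy' hη' o1
      have k1 := key u hu' huy'
      have hc := (h.commute (h.comm _ hbF _ hu') (h.zf hζ)).eq
      generalize ⁅b, u⁆ = η at k1 hη' hc
      generalize ⁅b, f⁆ = ζ at k1 hζζ hζζ' hc
      have hζ1 : ζ ≠ 1 := fun e => hζζ (by rw [e, one_mul])
      have k2 := k1 (η * ζ)
      by_cases c1 : 1 = η * ζ
      · have k3 := k1 ζ
        have c2 : η ≠ ζ := fun e => hζζ (by rw [c1, e])
        have c3 : η * (ζ * ζ) = ζ := by rw [← mul_assoc, ← c1, one_mul]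
        simp only [if_neg hζ1.symm, if_true, if_neg hζζ', if_neg c2, ← c1, c3, zero_add,
          add_zero] at k3
        refine hx.1 (h.parity hn (mul_mem (inv_mem o2) (mul_mem o1 (mul_mem o2 o2))) ?_ h2)
        rw [mul_smul, eq_neg_of_add_eq_zero_right k3, smul_neg, inv_smul_smul]
      by_cases c2 : ζ * ζ = η * ζ
      · have c3 : η ≠ η * ζ := fun e => hζ1 (left_eq_mul.mp e)
        have c4 : ζ ≠ η * ζ := fun e => hη' (right_eq_mul.mp e)
        have c5 : η * (ζ * ζ) ≠ η * ζ := fun e => hζζ' (mul_left_cancel e)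
        simp only [if_neg c1, if_pos c2, if_neg c3, if_neg c4, if_neg c5, if_true, zero_add,
          add_zero] at k2
        refine hx.1 (h.parity hn (mul_mem (inv_mem (mul_mem o2 o2)) (mul_mem o1 o2)) ?_ h2)
        rw [mul_smul, inv_smul_eq_iff, smul_neg]
        exact neg_inj.mp (by rw [neg_neg]; exact (eq_neg_of_add_eq_zero_right k2).trans (neg_neg _))
      · have c3 : η ≠ η * ζ := fun e => hζ1 (left_eq_mul.mp e)
        have c4 : ζ ≠ η * ζ := fun e => hη' (right_eq_mul.mp e)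
        have c5 : η * (ζ * ζ) ≠ η * ζ := fun e => hζζ' (mul_left_cancel e)
        simp only [if_neg c1, if_neg c2, if_neg c3, if_neg c4, if_neg c5, if_true, zero_add,
          add_zero, neg_eq_zero] at k2
        exact hne0 _ k2
    have e3 := key u hu huy ⁅b, f⁆
    have e4 := key u hu huy (⁅b, f⁆ * ⁅b, f⁆)
    simp only [hη, one_mul, if_neg hs.fne.symm, if_true, if_neg hζζ', if_neg hζζ'.symm,
      if_neg hζζ.symm, zero_add, add_zero, add_neg_eq_zero, neg_add_eq_zero] at e3 e4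
    have h1 : f⁻¹ * u * f ∈ B' := by
      apply hx.2.2.2 _ (mul_mem (mul_mem (inv_mem hf) hu) hf)
      rw [mul_assoc, mul_smul, ← e3, inv_smul_smul]
    have h3 : (f * f)⁻¹ * (u * (f * f)) ∈ B' := by
      apply hx.2.2.2 _ (mul_mem (inv_mem (mul_mem hf hf)) (mul_mem hu (mul_mem hf hf)))
      rw [mul_smul, ← e4, inv_smul_smul]
    have h4 : ⁅f⁻¹, f⁻¹ * u * f⁆ = (f * f)⁻¹ * (u * (f * f)) * (f⁻¹ * u * f)⁻¹ := by
      simp only [commutatorElement_def]; group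
    have h5 := h.eq_one_of_fix hs.ne (h4 ▸ mul_mem h3 (inv_mem h1))
      (h.comm _ (inv_mem hf) _ (hs.leF h1))
    have h6 : Commute f (f⁻¹ * u * f) :=
      Commute.inv_left_iff.mp (commutatorElement_eq_one_iff_mul_comm.mp h5)
    have h7 : u = f⁻¹ * u * f := by
      calc u = f * (f⁻¹ * u * f) * f⁻¹ := by group
        _ = _ := by rw [h6.eq]; group
    rw [h7]
    exact h.step_memB hs h1 (commutatorElement_eq_one_iff_mul_comm.mpr h6.symm.eq)
  · intro g hgx hgy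
    have hf' : g * f * g⁻¹ ∈ F := h.fn.conj_mem _ hf g
    have e1 : ∀ c : G, g • c • x = (g * c * g⁻¹) • x := fun c => by
      rw [mul_smul, mul_smul, inv_smul_eq_iff.mpr hgx.symm]
    have hgy' := smul_mem_fx (hx.mem_normalizer hgx) hy
    have e0 : g * (f * f) * g⁻¹ = (g * f * g⁻¹) * (g * f * g⁻¹) := by group
    have k1 := gen (g • y) 1 (g * f * g⁻¹) (g * (f * f) * g⁻¹) (one_mem _)
      (by simpa using hgy' b hs.mem) hf' (h.fn.conj_mem _ (mul_mem hf hf) g)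
      (by rw [← hgy, smul_sub, smul_add, e1, e1])
    rw [e0, h.comm_mul_right hbF hf' hf', ← e0] at k1
    have c1 : ⁅b, g * f * g⁻¹⁆ = ⁅b, f⁆ := by
      by_contra c1
      have k2 := k1 ⁅b, f⁆
      simp only [if_neg hs.fne.symm, if_true, if_neg hζζ', if_neg c1, zero_add, add_zero] at k2
      split_ifs at k2
      · have o2 : f ∈ h.oddSub hfo := ⟨hf, pow_orderOf_eq_one f⟩
        have o1 : g * f * g⁻¹ ∈ h.oddSub hfo := ⟨hf', by rw [conj_pow, pow_orderOf_eq_one]; simp⟩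
        refine hx.1 (h.parity hfo (mul_mem (inv_mem o2) (mul_mem o1 o1)) ?_ h2)
        rw [mul_smul, ← e0, eq_neg_of_add_eq_zero_right k2, smul_neg, inv_smul_smul]
      · exact hne0 f (by simpa using k2)
    have k2 := k1 ⁅b, f⁆
    have k3 := k1 (⁅b, f⁆ * ⁅b, f⁆)
    have k4 := k1 1
    simp only [c1, if_neg hs.fne.symm, if_neg hs.fne, if_true, if_neg hζζ', if_neg hζζ'.symm,
      if_neg hζζ.symm, if_neg hζζ, zero_add, add_zero, add_neg_eq_zero, neg_add_eq_zero] at k2 k3 k4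
    refine h.kill_step hs (hk g hgx k4.symm) (hx.2.2.2 _ (mul_mem (inv_mem hf) hf') ?_)
      (hx.2.2.2 _ (mul_mem (inv_mem (mul_mem hf hf)) (h.fn.conj_mem _ (mul_mem hf hf) g)) ?_)
    · rw [mul_smul, ← k2, inv_smul_smul]
    · rw [mul_smul, ← k3, inv_smul_smul]

theorem odd_st (hl : l ≠ 2) (h2 : ∀ v : V, -v = v → v = 0) (hw : WSt V F B') : St V F B := by
  haveI := Fact.mk hs.prime
  obtain ⟨a, m, hm, ham⟩ := Nat.exists_eq_two_pow_mul_odd (orderOf_pos f).ne'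
  refine h.odd_st' (f := f ^ 2 ^ a) ⟨hs.prime, hs.le, hs.leF, hs.ne, hs.mem, hs.nmem, hs.pow, hs.dec,
    pow_mem hs.fC _, ?_⟩ hl h2 ?_ hw
  · rw [h.comm_pow_right (hs.leF hs.mem) hs.fC.1]
    intro e
    have h3 := orderOf_dvd_of_pow_eq_one e
    rw [orderOf_eq_prime (h.step_pow hs hs.fC.1) hs.fne] at h3
    exact hl ((Nat.prime_dvd_prime_iff_eq hs.prime Nat.prime_two).mp (hs.prime.dvd_of_dvd_pow h3))
  · exact hm.of_dvd_nat (orderOf_dvd_of_pow_eq_one (by rw [← pow_mul, ← ham, pow_orderOf_eq_one]))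

omit hs in
theorem descend (h2 : ∀ v : V, -v = v → v = 0) : ∀ B : Subgroup G, St V F B → St V F ⊥ := by
  intro B
  induction B using WellFoundedLT.induction with
  | ind B ih =>
    intro hB
    by_cases h0 : B = ⊥
    · rwa [h0] at hB
    obtain ⟨u, hu, hu1⟩ : ∃ u ∈ B, u ∉ (⊥ : Subgroup G) :=
      SetLike.not_le_iff_exists.mp (fun e => h0 (le_bot_iff.mp e))
    obtain ⟨x, y, hx, hy, hk, hy0, hnb⟩ := id hB
    obtain ⟨l, hl, b, hb, hb1, hbl⟩ := h.exists_prime_elt hx.2.1 hx.ne_bot hu hu1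
    obtain ⟨B₀, f, hs⟩ := h.exists_compl hx.2.1 hx.ne_bot hb (fun e => hb1 (mem_bot.mpr e)) hl hbl
    refine ih B₀ (lt_of_le_of_ne hs.le (fun e => hs.nmem (e ▸ hs.mem))) ?_
    by_cases hl2 : l = 2
    · exact h.two_st hs hl2 hx hy hk hy0 (fun c hc e => absurd (inv_smul_eq_iff.mpr e.symm)
        (hnb _ (inv_mem hc)))
    · exact h.odd_st hs hl2 h2 hB.wSt

omit hs in
theorem base_of_kp {x y : V} (hx : x ≠ 0) (hk : KP F ⊥ x y) : ∃ b : Fin 2 → V, IsBase G b :=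
  ⟨![x, y], fun g hg v => by rw [h.eq_one_of_kill_bot (hk g (hg 0) (hg 1)) hx (hg 0), one_smul]⟩

omit hs in
theorem base_of_st (h2 : ∀ v : V, -v = v → v = 0) {B : Subgroup G} (hB : St V F B) :
    ∃ b : Fin 2 → V, IsBase G b := by
  obtain ⟨x, y, hx, -, hk, -⟩ := h.descend h2 B hB
  exact h.base_of_kp hx.1 hk

end QP

end CfsgH1.BS
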