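import Cfsg.Agent.H1.Base7

/-! Base sizes, part 8: explicit models and certificates. -/

set_option autoImplicit false
set_option maxHeartbeats 400000
set_option linter.unusedSectionVars false
set_option linter.style.haveILetI false

namespace CfsgH1.BS.Cert

open Subgroup
open scoped commutatorElement

abbrev Vec := List ℕ
abbrev Mat := List (List ℕ)
abbrev Wrd := List Bool

def addv (p : ℕ) : Vec → Vec → Vec
  | [], v => v
  | a :: u, [] => a :: u
  | a :: u, b :: v => ((a + b) % p) :: addv p u v

def smulv (p c : ℕ) : Vec → Vec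
  | [] => []
  | a :: u => (c * a % p) :: smulv p c u

def mulv (p : ℕ) : Mat → Vec → Vec
  | col :: A, c :: v => if c = 0 then mulv p A v else addv p (smulv p c col) (mulv p A v)
  | _, _ => []

def act (p : ℕ) : List Mat → Wrd → Vec → Vec
  | A :: As, b :: n, v => if b then mulv p A (act p As n v) else act p As n v
  | _, _, v => v

def isZero (p : ℕ) : ℕ → Vec → Bool
  | d + 1, a :: u => a % p == 0 && isZero p d u
  | _, _ => true

def eqv (p d : ℕ) (u v : Vec) : Bool := isZero p d (addv p u (smulv p (p - 1) v))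

def allB : ℕ → List Wrd
  | 0 => [[]]
  | r + 1 => (allB r).map (false :: ·) ++ (allB r).map (true :: ·)

theorem mem_allB : ∀ (n : Wrd), n ∈ allB n.length
  | [] => by simp [allB]
  | b :: n => by cases b <;> simp [allB, mem_allB n]

def all2 {α β : Type} (f : α → β → Bool) : List α → List β → Bool
  | [], [] => true
  | a :: l, b :: m => f a b && all2 f l m
  | _, _ => false

theorem forall₂_of_all2 {α β : Type} {f : α → β → Bool} :
    ∀ {l : List α} {m : List β}, all2 f l m = true → List.Forall₂ (fun a b => f a b = true) l m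
  | [], [], _ => List.Forall₂.nil
  | a :: l, b :: m, h => by
    simp only [all2, Bool.and_eq_true] at h
    exact List.Forall₂.cons h.1 (forall₂_of_all2 h.2)
  | [], _ :: _, h => by simp [all2] at h
  | _ :: _, [], h => by simp [all2] at h

def unitv (j : ℕ) : Vec := List.replicate j 0 ++ [1]

def comb (p : ℕ) (As : List Mat) : List (ℕ × Wrd) → Vec → Vec
  | [], _ => []
  | q :: L, v => addv p (smulv p q.1 (act p As q.2 v)) (comb p As L v)

def wact (p : ℕ) (As : List Mat) (es : List Wrd) : List ℕ → Vec → Vec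
  | [], v => v
  | i :: w, v => act p As (es.getD i []) (wact p As es w v)

def sub (p : ℕ) (As : List Mat) : List Wrd → Wrd → Vec → Vec
  | u :: σ, b :: n, v => if b then act p As u (sub p As σ n v) else sub p As σ n v
  | _, _, v => v

def vec (p : ℕ) (x y : Vec) (c : ℕ × ℕ) : Vec := addv p (smulv p c.1 x) (smulv p c.2 y)

def lin (p : ℕ) (As : List Mat) (x y : Vec) (es : List Wrd) : List (ℕ × List ℕ × Bool) → Vec
  | [] => []
  | q :: L => addv p (smulv p q.1 (wact p As es q.2.1 (if q.2.2 then y else x))) (lin p As x y es L)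

/-- a binary relation `e s + e' s' = t` with its solution list -/
structure BRel where
  t : ℕ × ℕ
  s : ℕ × ℕ
  s' : ℕ × ℕ
  e : Wrd
  e' : Wrd
  sol : List (Wrd × Wrd)

def BRel.holds (p d : ℕ) (As : List Mat) (x y : Vec) (R : BRel) (n n' : Wrd) : Bool :=
  eqv p d (addv p (act p As n (vec p x y R.s)) (act p As n' (vec p x y R.s'))) (vec p x y R.t)

def BRel.ok (p d : ℕ) (As : List Mat) (x y : Vec) (R : BRel) : Bool :=
  R.holds p d As x y R.e R.e' && (allB As.length).all fun n => (allB As.length).all fun n' =>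
    !R.holds p d As x y n n' || R.sol.contains (n, n')

def elts : List BRel → List Wrd
  | [] => []
  | R :: L => R.e :: R.e' :: elts L

def sols : List BRel → List (List Wrd)
  | [] => [[]]
  | R :: L => R.sol.flatMap fun q => (sols L).map fun us => q.1 :: q.2 :: us

def finalOK (p d : ℕ) (As : List Mat) (x y : Vec) (Rs : List BRel)
    (fil : List (List (ℕ × List ℕ × Bool))) (rec : List (ℕ × List ℕ)) (O : List (List Wrd)) : Bool :=
  fil.all (fun q => isZero p d (lin p As x y (elts Rs) q)) &&
  all2 (fun A (q : ℕ × List ℕ) => eqv p d (mulv p A x) (smulv p q.1 (wact p As (elts Rs) q.2 x))) As rec &&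
  (sols Rs).all fun us => !fil.all (fun q => isZero p d (lin p As x y us q)) ||
    O.any fun σ => all2 (fun (q : ℕ × List ℕ) u =>
      eqv p d (smulv p q.1 (wact p As us q.2 x)) (act p As u x)) rec σ

def regOK (p d : ℕ) (As : List Mat) (x : Vec) : Bool :=
  !isZero p d x && (allB As.length).all fun n => !eqv p d (act p As n x) x || n.all (!·)

def nbOK (p d : ℕ) (As : List Mat) (x y : Vec) : Bool :=
  !isZero p d y && (allB As.length).all fun n => !eqv p d (act p As n x) y

def isId (p d : ℕ) (As : List Mat) (x : Vec) (σ : List Wrd) : Bool :=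
  all2 (fun A u => eqv p d (mulv p A x) (act p As u x)) As σ

def compOK (p d : ℕ) (As : List Mat) (x : Vec) (σ τ ρ : List Wrd) : Bool :=
  all2 (fun n m => eqv p d (sub p As σ n x) (act p As m x)) τ ρ

def cmp (p d : ℕ) (As : List Mat) (x : Vec) (σ τ : List Wrd) : List Wrd :=
  τ.map fun n => ((allB As.length).find? fun m => eqv p d (sub p As σ n x) (act p As m x)).getD []

def cubeOK (p d : ℕ) (As : List Mat) (x : Vec) (σ : List Wrd) : Bool :=
  compOK p d As x σ σ (cmp p d As x σ σ) &&
    compOK p d As x σ (cmp p d As x σ σ) (cmp p d As x σ (cmp p d As x σ σ)) &&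
      isId p d As x (cmp p d As x σ (cmp p d As x σ σ))

def confl (p d : ℕ) (As : List Mat) (x : Vec) (σ τ : List Wrd) : Bool :=
  compOK p d As x σ τ (cmp p d As x σ τ) &&
    compOK p d As x (cmp p d As x σ τ) (cmp p d As x σ τ)
      (cmp p d As x (cmp p d As x σ τ) (cmp p d As x σ τ)) &&
    cubeOK p d As x (cmp p d As x (cmp p d As x σ τ) (cmp p d As x σ τ)) &&
    !isId p d As x (cmp p d As x (cmp p d As x σ τ) (cmp p d As x σ τ))

def badL (p d : ℕ) (As : List Mat) (x : Vec) : List (List Wrd) → List (List (List Wrd)) → Bool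
  | _, [] => false
  | ch, O :: Os => O.all fun σ => isId p d As x σ || ch.any (confl p d As x σ) ||
      badL p d As x (σ :: ch) Os

structure Ct where
  y : Vec
  Rs : List BRel
  fil : List (List (ℕ × List ℕ × Bool))
  rec' : List (ℕ × List ℕ)
  O : List (List Wrd)

def Ct.ok (p d : ℕ) (As : List Mat) (x : Vec) (c : Ct) : Prop :=
  (∀ R ∈ c.Rs, R.ok p d As x c.y = true) ∧ finalOK p d As x c.y c.Rs c.fil c.rec' c.O = true ∧
    nbOK p d As x c.y = true

def injOK (p d : ℕ) (As : List Mat) (Ps : List (List (ℕ × Wrd))) : Bool :=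
  (List.range d).all fun k => (List.range d).all fun j =>
    eqv p d (comb p As (Ps.getD k []) (unitv j)) (if j = k then unitv 0 else [])

variable {G V : Type*} [Group G] [Finite G] [AddCommGroup V] [Finite V] [DistribMulAction G V]

def psi : List V → Vec → V
  | X :: Xs, c :: v => c • X + psi Xs v
  | _, _ => 0

def wd : List G → Wrd → G
  | g :: gs, b :: n => (if b then g else 1) * wd gs n
  | _, _ => 1

section Lin

variable {p : ℕ} (hp : ∀ v : V, p • v = 0)
include hp

theorem mod_smul (a : ℕ) (v : V) : (a % p) • v = a • v := by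
  conv_rhs => rw [← Nat.mod_add_div a p, add_smul, mul_smul, hp, add_zero]

theorem psi_addv : ∀ (X : List V) (u v : Vec), psi X (addv p u v) = psi X u + psi X v
  | [], u, v => by simp [psi]
  | _ :: _, [], v => by simp [psi, addv]
  | _ :: _, _ :: _, [] => by simp [psi, addv]
  | X :: Xs, a :: u, b :: v => by
    simp only [addv, psi, psi_addv Xs u v, mod_smul hp, add_smul]; abel

theorem psi_smulv (c : ℕ) : ∀ (X : List V) (u : Vec), psi X (smulv p c u) = c • psi X u
  | [], u => by simp [psi]
  | _ :: _, [] => by simp [psi, smulv]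
  | X :: Xs, a :: u => by
    simp only [smulv, psi, psi_smulv c Xs u, mod_smul hp, mul_smul, smul_add]

theorem psi_of_isZero : ∀ (X : List V) (u : Vec), isZero p X.length u = true → psi X u = 0
  | [], u, _ => by simp [psi]
  | _ :: _, [], _ => by simp [psi]
  | X :: Xs, a :: u, h => by
    simp only [List.length_cons, isZero, Bool.and_eq_true, beq_iff_eq] at h
    rw [psi, psi_of_isZero Xs u h.2, ← mod_smul hp, h.1]; simp

theorem smul_psi {g : G} (Y : List V) : ∀ (X : List V) (A : Mat),
    List.Forall₂ (fun x col => g • x = psi Y col) X A → ∀ v, g • psi X v = psi Y (mulv p A v)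
  | [], [], _, v => by cases Y <;> simp [psi, mulv]
  | _ :: _, _ :: _, _, [] => by cases Y <;> simp [psi, mulv]
  | X :: Xs, col :: A, h, c :: v => by
    rw [List.forall₂_cons] at h
    rw [psi, mulv, smul_add, smul_comm, h.1, smul_psi Y Xs A h.2 v]
    split_ifs with hc
    · simp [hc]
    · rw [psi_addv hp, psi_smulv hp]

end Lin

theorem psi_nil (X : List V) : psi X [] = 0 := by cases X <;> rfl

theorem psi_eq_sum : ∀ (X : List V) (u : Vec),
    psi X u = ∑ j ∈ Finset.range X.length, u.getD j 0 • X.getD j 0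
  | [], u => by simp [psi]
  | _ :: _, [] => by simp [psi]
  | X :: Xs, a :: u => by
    rw [psi, List.length_cons, Finset.sum_range_succ', psi_eq_sum Xs u, add_comm]; simp

theorem psi_unitv : ∀ (X : List V) (j : ℕ), psi X (unitv j) = X.getD j 0
  | [], j => by simp [psi]
  | X :: Xs, 0 => by simp [psi, unitv, psi_nil]
  | X :: Xs, j + 1 => by
    have := psi_unitv Xs j
    simp only [unitv] at this
    simp [psi, unitv, List.replicate_succ, this]

theorem isZero_of_dvd {p : ℕ} : ∀ (d : ℕ) (u : Vec), (∀ j < d, p ∣ u.getD j 0) → isZero p d u = true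
  | 0, u, _ => by simp [isZero]
  | _ + 1, [], _ => by simp [isZero]
  | d + 1, a :: u, h => by
    simp only [isZero, Bool.and_eq_true, beq_iff_eq]
    exact ⟨Nat.mod_eq_zero_of_dvd (by simpa using h 0 (by omega)),
      isZero_of_dvd d u (fun j hj => by simpa using h (j + 1) (by omega))⟩

theorem wd_mem {D : Subgroup G} : ∀ (gs : List G) (n : Wrd), (∀ g ∈ gs, g ∈ D) → wd gs n ∈ D
  | [], _, _ => by simp [wd]
  | _ :: _, [], _ => by simp [wd]
  | g :: gs, b :: n, h => by
    rw [wd]
    refine mul_mem ?_ (wd_mem gs n (fun g hg => h g (by simp [hg])))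
    split_ifs
    exacts [h g (by simp), one_mem _]

theorem wd_false : ∀ (gs : List G) (n : Wrd), n.all (!·) = true → wd gs n = 1
  | [], _, _ => by simp [wd]
  | _ :: _, [], _ => by simp [wd]
  | g :: gs, b :: n, h => by
    simp only [List.all_cons, Bool.and_eq_true, Bool.not_eq_true'] at h
    rw [wd, wd_false gs n h.2, h.1]; simp

structure Model (p d : ℕ) (As : List Mat) (F B : Subgroup G) (gs : List G) (X : List V) : Prop where
  prime : p.Prime
  hp : ∀ v : V, p • v = 0
  len : X.length = d
  le : B ≤ F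
  mem : ∀ g ∈ gs, g ∈ CF F B
  fix : ∀ x ∈ X, x ∈ fx V B
  act : List.Forall₂ (fun g A => List.Forall₂ (fun x col => g • x = psi X col) X A) gs As
  ne : X.getD 0 0 ≠ 0
  inj : ∃ Ps, injOK p d As Ps = true
  gen : ∀ c ∈ CF F B, ∃ n : Wrd, n.length = As.length ∧ (wd gs n)⁻¹ * c ∈ B

namespace Model

variable {p d : ℕ} {As : List Mat} {Z F B : Subgroup G} {gs : List G} {X : List V}
  (M : Model p d As F B gs X)
include M

theorem wd_smul (n : Wrd) (v : Vec) : wd gs n • psi X v = psi X (Cert.act p As n v) := by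
  have key : ∀ (gs : List G) (As : List Mat),
      List.Forall₂ (fun g A => List.Forall₂ (fun x col => g • x = psi X col) X A) gs As →
      ∀ n, wd gs n • psi X v = psi X (Cert.act p As n v) := by
    intro gs As h
    induction h with
    | nil => intro n; simp [wd, Cert.act]
    | cons h1 _ ih =>
      intro n
      cases n with
      | nil => simp [wd, Cert.act]
      | cons b n =>
        rw [wd, Cert.act, mul_smul, ih]
        cases b
        · simp
        · simpa using smul_psi M.hp X X _ h1 _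
  exact key gs As M.act n

theorem psi_mem (v : Vec) : psi X v ∈ fx V B := by
  rw [psi_eq_sum]
  refine sum_mem (fun j hj => nsmul_mem ?_ _)
  rw [List.getD_eq_getElem _ _ (Finset.mem_range.mp hj)]
  exact M.fix _ (List.getElem_mem _)

theorem eq_of_eqv {u v : Vec} (h : eqv p d u v = true) : psi X u = psi X v := by
  have h1 := psi_of_isZero M.hp X _ (by rw [M.len]; exact h)
  rw [psi_addv M.hp, psi_smulv M.hp] at h1
  have h2 := M.hp (psi X v)
  rw [← Nat.sub_add_cancel M.prime.one_le, add_smul, one_smul] at h2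
  exact (eq_neg_of_add_eq_zero_left h1).trans (eq_neg_of_add_eq_zero_right h2).symm

theorem isZero_of_psi {u : Vec} (h : psi X u = 0) : isZero p d u = true := by
  obtain ⟨Ps, hPs⟩ := M.inj
  apply isZero_of_dvd
  intro k hk
  simp only [injOK, List.all_eq_true, List.mem_range] at hPs
  have key : ∀ L : List (ℕ × Wrd), ∃ T : V →+ V, ∀ v, T (psi X v) = psi X (comb p As L v) := by
    intro L
    induction L with
    | nil => exact ⟨0, fun v => by simp [comb, psi_nil]⟩
    | cons q L ih =>
      obtain ⟨T, hT⟩ := ih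
      refine ⟨q.1 • DistribMulAction.toAddMonoidHom V (wd gs q.2) + T, fun v => ?_⟩
      rw [comb, psi_addv M.hp, psi_smulv M.hp, ← M.wd_smul, ← hT]; rfl
  obtain ⟨T, hT⟩ := key (Ps.getD k [])
  have h1 : T (psi X u) = u.getD k 0 • X.getD 0 0 := by
    rw [psi_eq_sum, map_sum, M.len, Finset.sum_eq_single k]
    · rw [map_nsmul, ← psi_unitv, hT, M.eq_of_eqv (hPs k hk k hk), if_pos rfl, psi_unitv]
    · intro j hj hjk
      rw [map_nsmul, ← psi_unitv, hT, M.eq_of_eqv (hPs k hk j (Finset.mem_range.mp hj)), if_neg hjk,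
        psi_nil, smul_zero]
    · intro h2; exact absurd (Finset.mem_range.mpr hk) h2
  rw [h, map_zero] at h1
  haveI := Fact.mk M.prime
  rw [← addOrderOf_eq_prime (M.hp _) M.ne]
  exact addOrderOf_dvd_of_nsmul_eq_zero h1.symm

theorem eqv_of_eq {u v : Vec} (h : psi X u = psi X v) : eqv p d u v = true := by
  apply M.isZero_of_psi
  rw [psi_addv M.hp, psi_smulv M.hp, h]
  have h2 := M.hp (psi X v)
  rwa [← Nat.sub_add_cancel M.prime.one_le, add_smul, one_smul, add_comm] at h2

theorem exists_wd {c : G} (hc : c ∈ CF F B) :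
    ∃ n ∈ allB As.length, ∀ v, c • psi X v = psi X (Cert.act p As n v) := by
  obtain ⟨n, h1, h2⟩ := M.gen c hc
  refine ⟨n, h1 ▸ mem_allB n, fun v => ?_⟩
  rw [← M.wd_smul]
  conv_rhs => rw [← M.psi_mem v _ h2, ← mul_smul, mul_inv_cancel_left]

theorem isSt (h : QP V Z F) {x : Vec} (hx : regOK p d As x = true) : IsSt F B (psi X x) := by
  simp only [regOK, Bool.and_eq_true, Bool.not_eq_true', List.all_eq_true, Bool.or_eq_true] at hx
  have h0 : psi X x ≠ 0 := fun e => by simpa [hx.1] using M.isZero_of_psi e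
  refine ⟨h0, M.le, M.psi_mem x, fun f hf e => ?_⟩
  obtain ⟨n, h1, h2⟩ := M.gen f (h.mem_CF_of_fix M.le (M.psi_mem x) h0 hf e)
  have h3 : wd gs n • psi X x = psi X x := by
    have := M.psi_mem x _ h2
    rw [mul_smul, e, inv_smul_eq_iff] at this
    exact this.symm
  rw [M.wd_smul] at h3
  rcases hx.2 n (h1 ▸ mem_allB n) with h4 | h4
  · simp [M.eqv_of_eq h3] at h4
  · rw [wd_false gs n (by simpa using h4)] at h2
    simpa using h2

theorem nb {x y : Vec} (hy : nbOK p d As x y = true) :
    psi X y ≠ 0 ∧ ∀ c ∈ CF F B, c • psi X x ≠ psi X y := by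
  simp only [nbOK, Bool.and_eq_true, Bool.not_eq_true', List.all_eq_true] at hy
  refine ⟨fun e => by simpa [hy.1] using M.isZero_of_psi e, fun c hc e => ?_⟩
  obtain ⟨n, h1, h2⟩ := M.exists_wd hc
  have := hy.2 n h1
  rw [M.eqv_of_eq ((h2 x).symm.trans e)] at this
  simp at this

end Model

/-- `g c g⁻¹` acts like the word `u` -/
def Im (p : ℕ) (As : List Mat) (X : List V) (g c : G) (u : Wrd) : Prop :=
  ∀ v, (g * c * g⁻¹) • psi X v = psi X (act p As u v)

def Ind (p : ℕ) (As : List Mat) (gs : List G) (X : List V) (g : G) (σ : List Wrd) : Prop :=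
  List.Forall₂ (Im p As X g) gs σ

namespace Model

variable {p d : ℕ} {As : List Mat} {Z F B : Subgroup G} {gs : List G} {X : List V}
  (M : Model p d As F B gs X) [F.Normal] {x : Vec} (hx : IsSt F B (psi X x))
include M hx

theorem im_of_smul {g c : G} (hg : g • psi X x = psi X x) (hc : c ∈ CF F B) {u : Wrd}
    (h : g • c • psi X x = psi X (Cert.act p As u x)) : Im p As X g c u := by
  intro v
  have h1 : (wd gs u)⁻¹ * (g * c * g⁻¹) ∈ B := by
    apply hx.2.2.2 _ (mul_mem (inv_mem (wd_mem gs u M.mem).1)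
      (conj_mem_CF (hx.mem_normalizer hg) hc).1)
    rw [mul_smul, mul_smul, mul_smul, inv_smul_eq_iff.mpr hg.symm, h, ← M.wd_smul, inv_smul_smul]
  rw [← M.wd_smul]
  conv_rhs => rw [← M.psi_mem v _ h1, ← mul_smul, mul_inv_cancel_left]

omit hx in
theorem smul_wact {g : G} {es us : List Wrd}
    (h : List.Forall₂ (fun e u => Im p As X g (wd gs e) u) es us) {s : Vec}
    (hs : g • psi X s = psi X s) :
    ∀ w, g • psi X (wact p As es w s) = psi X (wact p As us w s) := by
  intro w
  induction w with
  | nil => exact hs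
  | cons i w ih =>
    have h1 : Im p As X g (wd gs (es.getD i [])) (us.getD i []) := by
      by_cases hi : i < es.length
      · rw [List.getD_eq_getElem _ _ hi, List.getD_eq_getElem _ _ (h.length_eq ▸ hi)]
        exact List.forall₂_iff_get.mp h |>.2 i hi (h.length_eq ▸ hi)
      · rw [List.getD_eq_default _ _ (by omega), List.getD_eq_default _ _ (by rw [← h.length_eq]; omega)]
        intro v
        cases gs <;> cases As <;> simp [wd, Cert.act]
    rw [wact, wact, ← M.wd_smul, ← h1, ← ih, ← mul_smul, ← mul_smul]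
    simp

theorem exists_ind {y : Vec} {Rs : List BRel} {fil : List (List (ℕ × List ℕ × Bool))}
    {rec : List (ℕ × List ℕ)} {O : List (List Wrd)} (h1 : ∀ R ∈ Rs, R.ok p d As x y = true)
    (h2 : finalOK p d As x y Rs fil rec O = true) {g : G} (hg : g • psi X x = psi X x)
    (hy : g • psi X y = psi X y) : ∃ σ ∈ O, Ind p As gs X g σ := by
  have hv : ∀ c, g • psi X (vec p x y c) = psi X (vec p x y c) := fun c => by
    rw [vec, psi_addv M.hp, psi_smulv M.hp, psi_smulv M.hp, smul_add, smul_comm, smul_comm g, hg, hy]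
  have hex : ∀ e : Wrd, ∃ u ∈ allB As.length, Im p As X g (wd gs e) u := fun e =>
    M.exists_wd (conj_mem_CF (hx.mem_normalizer hg) (wd_mem gs e M.mem))
  have him : ∀ {e u : Wrd}, Im p As X g (wd gs e) u → ∀ c,
      g • psi X (Cert.act p As e (vec p x y c)) = psi X (Cert.act p As u (vec p x y c)) := by
    intro e u h c
    rw [← M.wd_smul, ← h, mul_smul, mul_smul, inv_smul_eq_iff.mpr (hv c).symm]
  have h3 : ∃ us ∈ sols Rs, List.Forall₂ (fun e u => Im p As X g (wd gs e) u) (elts Rs) us := by
    clear h2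
    induction Rs with
    | nil => exact ⟨[], by simp [sols], List.Forall₂.nil⟩
    | cons R Rs ih =>
      obtain ⟨us, hus, h4⟩ := ih (fun R hR => h1 R (by simp [hR]))
      have h5 := h1 R (by simp)
      simp only [BRel.ok, Bool.and_eq_true, List.all_eq_true, Bool.or_eq_true,
        Bool.not_eq_true'] at h5
      obtain ⟨u, hu, h6⟩ := hex R.e
      obtain ⟨u', hu', h7⟩ := hex R.e'
      refine ⟨u :: u' :: us, ?_, List.Forall₂.cons h6 (List.Forall₂.cons h7 h4)⟩
      have h8 : R.holds p d As x y u u' = true := by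
        apply M.eqv_of_eq
        have h9 := congrArg (g • ·) (M.eq_of_eqv h5.1)
        simp only [psi_addv M.hp, smul_add, him h6, him h7, hv] at h9
        rw [psi_addv M.hp, h9]
      rcases h5.2 u hu u' hu' with h9 | h9
      · rw [h8] at h9; simp at h9
      · simp only [sols, List.mem_flatMap, List.mem_map]
        exact ⟨(u, u'), by simpa using h9, us, hus, rfl⟩
  obtain ⟨us, hus, h4⟩ := h3
  simp only [finalOK, Bool.and_eq_true, List.all_eq_true, Bool.or_eq_true, Bool.not_eq_true',
    List.any_eq_true] at h2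
  obtain ⟨⟨h5, h6⟩, h7⟩ := h2
  have h8 : ∀ q, g • psi X (lin p As x y (elts Rs) q) = psi X (lin p As x y us q) := by
    intro q
    induction q with
    | nil => simp [lin, psi_nil]
    | cons a q ih =>
      rw [lin, lin, psi_addv M.hp, psi_addv M.hp, psi_smulv M.hp, psi_smulv M.hp, smul_add, ih,
        smul_comm, M.smul_wact h4 (by split_ifs; exacts [hy, hg])]
  rcases h7 us hus with h9 | ⟨σ, hσ, h9⟩
  · exfalso
    have : (fil.all fun q => isZero p d (lin p As x y us q)) = true := by
      rw [List.all_eq_true]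
      intro q hq
      apply M.isZero_of_psi
      rw [← h8, psi_of_isZero M.hp X _ (by rw [M.len]; exact h5 q hq), smul_zero]
    rw [this] at h9
    simp at h9
  refine ⟨σ, hσ, ?_⟩
  have key : ∀ (gs' : List G) (As' : List Mat),
      List.Forall₂ (fun g A => List.Forall₂ (fun x col => g • x = psi X col) X A) gs' As' →
      (∀ c ∈ gs', c ∈ CF F B) → ∀ (rec : List (ℕ × List ℕ)) (σ : List Wrd),
      List.Forall₂ (fun A (q : ℕ × List ℕ) =>
        eqv p d (mulv p A x) (smulv p q.1 (wact p As (elts Rs) q.2 x)) = true) As' rec →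
      List.Forall₂ (fun (q : ℕ × List ℕ) u =>
        eqv p d (smulv p q.1 (wact p As us q.2 x)) (Cert.act p As u x) = true) rec σ →
      List.Forall₂ (Im p As X g) gs' σ := by
    intro gs' As' h
    induction h with
    | nil => intro _ rec σ h1 h2; cases h1; cases h2; exact List.Forall₂.nil
    | cons k1 _ ih =>
      intro hm rec σ h1 h2
      cases h1 with
      | cons k2 k3 =>
      cases h2 with
      | cons k4 k5 =>
      refine List.Forall₂.cons (M.im_of_smul hx hg (hm _ (by simp)) ?_)
        (ih (fun c hc => hm c (by simp [hc])) _ _ k3 k5)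
      rw [smul_psi M.hp X X _ k1, M.eq_of_eqv k2, ← M.eq_of_eqv k4, psi_smulv M.hp, psi_smulv M.hp,
        smul_comm, M.smul_wact h4 hg]
  exact key gs As M.act M.mem rec σ (forall₂_of_all2 h6) (forall₂_of_all2 h9)

omit M hx in
theorem ind_wd {g : G} : ∀ {gs : List G} {σ : List Wrd}, List.Forall₂ (Im p As X g) gs σ →
    ∀ (n : Wrd) (v : Vec), (g * wd gs n * g⁻¹) • psi X v = psi X (sub p As σ n v) := by
  intro gs σ h
  induction h with
  | nil => intro n v; simp [wd, sub]
  | cons h1 _ ih =>
    intro n v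
    cases n with
    | nil => simp [wd, sub]
    | cons b n =>
      rw [wd, sub]
      cases b
      · simpa using ih n v
      · simp only [if_true]
        rw [← h1, ← ih, ← mul_smul]; congr 1; group

theorem ind_mul {g g' : G} (hg : g • psi X x = psi X x) (hg' : g' • psi X x = psi X x)
    {σ τ ρ : List Wrd} (h1 : Ind p As gs X g σ) (h2 : Ind p As gs X g' τ)
    (h : compOK p d As x σ τ ρ = true) : Ind p As gs X (g * g') ρ := by
  have key : ∀ (gs' : List G) (τ : List Wrd), List.Forall₂ (Im p As X g') gs' τ →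
      (∀ c ∈ gs', c ∈ CF F B) → ∀ ρ, List.Forall₂
        (fun n m => eqv p d (sub p As σ n x) (Cert.act p As m x) = true) τ ρ →
      List.Forall₂ (Im p As X (g * g')) gs' ρ := by
    intro gs' τ h
    induction h with
    | nil => intro _ ρ h; cases h; exact List.Forall₂.nil
    | cons k1 _ ih =>
      intro hm ρ h
      cases h with
      | cons k2 k3 =>
      refine List.Forall₂.cons (M.im_of_smul hx (by rw [mul_smul, hg', hg]) (hm _ (by simp)) ?_)
        (ih (fun c hc => hm c (by simp [hc])) _ k3)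
      have k4 := k1 x
      rw [mul_smul, mul_smul, inv_smul_eq_iff.mpr hg'.symm] at k4
      rw [mul_smul, k4, ← M.eq_of_eqv k2, ← ind_wd h1, ← M.wd_smul, mul_smul, mul_smul,
        inv_smul_eq_iff.mpr hg.symm]
  exact key gs τ h2 M.mem ρ (forall₂_of_all2 h)

theorem kill_iff (h : QP V Z F) {g : G} (hg : g • psi X x = psi X x) {σ : List Wrd}
    (h1 : Ind p As gs X g σ) : Kill F B g ↔ isId p d As x σ = true := by
  have key : ∀ (gs' : List G) (As' : List Mat),
      List.Forall₂ (fun g A => List.Forall₂ (fun x col => g • x = psi X col) X A) gs' As' →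
      (∀ c ∈ gs', c ∈ CF F B) → ∀ σ, List.Forall₂ (Im p As X g) gs' σ →
      ((∀ c ∈ gs', c ∈ KS F B g) ↔
        all2 (fun A u => eqv p d (mulv p A x) (Cert.act p As u x)) As' σ = true) := by
    intro gs' As' h
    induction h with
    | nil => intro _ σ h; cases h; simp [all2]
    | cons k1 _ ih =>
      intro hm σ h
      cases h with
      | cons k2 k3 =>
      rw [List.forall_mem_cons, ih (fun c hc => hm c (by simp [hc])) _ k3, all2, Bool.and_eq_true]
      refine and_congr_left (fun _ => ?_)
      have k4 := k2 x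
      rw [mul_smul, mul_smul, inv_smul_eq_iff.mpr hg.symm] at k4
      constructor
      · intro k5
        apply M.eqv_of_eq
        rw [← k4, KS.smul k5 (M.psi_mem x) hg, smul_psi M.hp X X _ k1]
      · intro k5
        apply hx.mem_KS hg (hm _ (by simp))
        rw [k4, ← M.eq_of_eqv k5, smul_psi M.hp X X _ k1]
  rw [isId, ← key gs As M.act M.mem σ h1]
  constructor
  · intro hk c hc; exact hk (M.mem c hc)
  · intro hk c hc
    obtain ⟨n, -, h2⟩ := M.gen c hc
    simpa using mul_mem (wd_mem gs n hk) (h.le_KS M.le hx.ne_bot (hx.mem_normalizer hg) h2)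

omit M in
theorem kill_of_cube (hG : (Nat.card G).Coprime 3) {g : G} (hg : g • psi X x = psi X x)
    (hk : Kill F B (g * (g * g))) : Kill F B g := by
  intro c hc
  apply hx.mem_KS hg hc
  apply fix_of_pow hG
  rw [pow_succ', pow_two]
  exact KS.smul (hk hc) hx.2.2.1 (by rw [mul_smul, mul_smul, hg, hg, hg])

theorem kill_of_cubeOK (h : QP V Z F) (hG : (Nat.card G).Coprime 3) {g : G}
    (hg : g • psi X x = psi X x) {σ : List Wrd} (h1 : Ind p As gs X g σ)
    (h2 : cubeOK p d As x σ = true) : Kill F B g := by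
  simp only [cubeOK, Bool.and_eq_true] at h2
  have hg2 : (g * g) • psi X x = psi X x := by rw [mul_smul, hg, hg]
  apply kill_of_cube hx hG hg
  rw [M.kill_iff hx h (by rw [mul_smul, hg2, hg])
    (M.ind_mul hx hg hg2 h1 (M.ind_mul hx hg hg h1 h1 h2.1.1) h2.1.2)]
  exact h2.2

theorem st_one (h : QP V Z F) {y : Vec} {Rs : List BRel} {fil : List (List (ℕ × List ℕ × Bool))}
    {rec : List (ℕ × List ℕ)} {O : List (List Wrd)} (h1 : ∀ R ∈ Rs, R.ok p d As x y = true)
    (h2 : finalOK p d As x y Rs fil rec O = true) (h3 : O.all (isId p d As x) = true)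
    (h4 : nbOK p d As x y = true) : St V F B := by
  refine ⟨_, psi X y, hx, M.psi_mem y, fun g hg hy => ?_, M.nb h4⟩
  obtain ⟨σ, hσ, h5⟩ := M.exists_ind hx h1 h2 hg hy
  exact (M.kill_iff hx h hg h5).mpr (List.all_eq_true.mp h3 σ hσ)

theorem badL_false (h : QP V Z F) (hG : (Nat.card G).Coprime 3) :
    ∀ (Os : List (List (List Wrd))) (ch : List (List Wrd)),
    (∀ σ ∈ ch, ∃ g : G, g • psi X x = psi X x ∧ Ind p As gs X g σ) →
    (∀ O ∈ Os, ∃ g : G, g • psi X x = psi X x ∧ ¬ Kill F B g ∧ ∃ σ ∈ O, Ind p As gs X g σ) →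
    badL p d As x ch Os = true → False
  | [], _, _, _, h3 => by simp [badL] at h3
  | O :: Os, ch, h1, h2, h3 => by
    obtain ⟨g, hg, hk, σ, hσ, h4⟩ := h2 O (by simp)
    simp only [badL, List.all_eq_true, Bool.or_eq_true, List.any_eq_true] at h3
    rcases h3 σ hσ with (h5 | ⟨τ, hτ, h5⟩) | h5
    · exact hk ((M.kill_iff hx h hg h4).mpr h5)
    · obtain ⟨g', hg', h6⟩ := h1 τ hτ
      simp only [confl, Bool.and_eq_true, Bool.not_eq_true'] at h5
      have hgg : (g * g') • psi X x = psi X x := by rw [mul_smul, hg', hg]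
      have hg2 : (g * g' * (g * g')) • psi X x = psi X x := by rw [mul_smul, hgg, hgg]
      have h7 := M.ind_mul hx hg hg' h4 h6 h5.1.1.1
      have h8 := M.ind_mul hx hgg hgg h7 h7 h5.1.1.2
      have h9 := (M.kill_iff hx h hg2 h8).mp (M.kill_of_cubeOK hx h hG hg2 h8 h5.1.2)
      rw [h9] at h5
      simp at h5
    · refine badL_false h hG Os (σ :: ch) (fun τ hτ => ?_) (fun O hO => h2 O (by simp [hO])) h5
      rcases List.mem_cons.mp hτ with rfl | hτ
      exacts [⟨g, hg, h4⟩, h1 τ hτ]

theorem st_many (h : QP V Z F) (hG : (Nat.card G).Coprime 3) {cs : List Ct}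
    (h1 : ∀ c ∈ cs, c.ok p d As x) (h3 : badL p d As x [] (cs.map Ct.O) = true) : St V F B := by
  by_contra hn
  refine M.badL_false hx h hG _ [] (by simp) (fun O hO => ?_) h3
  obtain ⟨c, hc, rfl⟩ := List.mem_map.mp hO
  obtain ⟨k1, k2, k3⟩ := h1 c hc
  have k : ¬ KP F B (psi X x) (psi X c.y) := fun k => hn ⟨_, _, hx, M.psi_mem c.y, k, M.nb k3⟩
  unfold KP at k
  push Not at k
  obtain ⟨g, hg, hy, hk⟩ := k
  exact ⟨g, hg, hk, M.exists_ind hx k1 k2 hg hy⟩

end Model

end CfsgH1.BS.Cert
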